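import Cfsg.Agent.Lib.Helper13.FumDefs

/-!
# S4330 piece IMP1 (helper87): the case where `a` moves a block
-/

set_option autoImplicit false

namespace Cfsg.Agent.Lib.Helper87.FumIMP1

open Cfsg.Agent.Lib.Helper13.Fum
open scoped Pointwise

theorem imp1 {V : Type*} [AddCommGroup V] [Finite V]
    (K P : Subgroup (AAut V)) (hPK : P ≤ K) (hPn : ∀ k ∈ K, ∀ x ∈ P, k * x * k⁻¹ ∈ P)
    (a : AAut V) (haP : a ∈ P) (sys : Sys K) (hmove : ∃ W ∈ sys.Λ, a • W ≠ W)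
    (hPS : ∃ S ⊆ sys.Λ, ∀ t ∈ P, (∀ W ∈ sys.Λ, (W ∈ S ↔ t • W ∈ S)) → ∀ W ∈ sys.Λ, t • W = W) :
    NoConjFix K a := by
  classical
  obtain ⟨S, hSΛ, hS⟩ := hPS
  obtain ⟨W0, hW0, hmove⟩ := hmove
  have hex : ∀ W ∈ sys.Λ, ∃ x ∈ W, x ≠ 0 := fun W hW =>
    (W.bot_or_exists_ne_zero).resolve_left (sys.ne_bot W hW)
  let w : AddSubgroup V → V := fun W => if h : ∃ x ∈ W, x ≠ 0 then h.choose else 0
  have hw : ∀ W ∈ sys.Λ, w W ∈ W ∧ w W ≠ 0 := by
    intro W hW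
    have h := hex W hW
    simp only [w, dif_pos h]
    exact h.choose_spec
  refine ⟨∑ W ∈ S, w W, ?_⟩
  have hπ1 : ∀ W ∈ sys.Λ, W ∈ S → sys.π W (∑ W ∈ S, w W) = w W := by
    intro W hW hWS
    rw [map_sum, Finset.sum_eq_single_of_mem W hWS]
    · exact sys.π_self W hW _ (hw W hW).1
    · intro W' hW' hne
      exact sys.π_other W hW W' (hSΛ hW') (Ne.symm hne) _ (hw W' (hSΛ hW')).1
  have hπ2 : ∀ W ∈ sys.Λ, W ∉ S → sys.π W (∑ W ∈ S, w W) = 0 := by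
    intro W hW hWS
    rw [map_sum]
    apply Finset.sum_eq_zero
    intro W' hW'
    exact sys.π_other W hW W' (hSΛ hW') (fun h => hWS (h ▸ hW')) _ (hw W' (hSΛ hW')).1
  have hkey : ∀ W ∈ sys.Λ, (W ∈ S ↔ sys.π W (∑ W ∈ S, w W) ≠ 0) := by
    intro W hW
    constructor
    · intro hWS
      rw [hπ1 W hW hWS]
      exact (hw W hW).2
    · intro hne
      by_contra hWS
      exact hne (hπ2 W hW hWS)
  intro k hk hfix
  have hdP : k * a * k⁻¹ ∈ P := hPn k hk a haP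
  have hdK : k * a * k⁻¹ ∈ K := hPK hdP
  have hall := hS _ hdP (by
    intro W hW
    have hdW := sys.smul_mem _ hdK W hW
    rw [hkey W hW, hkey _ hdW]
    have h1 := sys.π_smul _ hdK W hW (∑ W ∈ S, w W)
    rw [hfix] at h1
    rw [← h1, Ne, Ne, smul_eq_zero_iff_eq])
  have h2 := hall (k • W0) (sys.smul_mem k hk W0 hW0)
  rw [mul_smul, mul_smul, inv_smul_smul] at h2
  exact hmove (smul_left_cancel k h2)

end Cfsg.Agent.Lib.Helper87.FumIMP1
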