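import Cfsg.Agent.Lib.Helper13.FumDefs

/-!
# S4330 piece IMP2 (helper87): the case where `a` fixes all blocks
-/

set_option autoImplicit false

namespace Cfsg.Agent.Lib.Helper87.FumIMP2

open Cfsg.Agent.Lib.Helper13.Fum
open scoped Pointwise

universe u

/-- The invariant subgroup used to show irreducibility of a block. -/
def ySub {V : Type*} [AddCommGroup V] (K : Subgroup (AAut V)) (π : V →+ V)
    (U : AddSubgroup V) : AddSubgroup V where
  carrier := {v | ∀ k ∈ K, π (k • v) ∈ U}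
  add_mem' := by
    intro a b ha hb k hk
    rw [smul_add, map_add]
    exact U.add_mem (ha k hk) (hb k hk)
  zero_mem' := by
    intro k hk
    rw [smul_zero, map_zero]
    exact U.zero_mem
  neg_mem' := by
    intro a ha k hk
    rw [smul_neg, map_neg]
    exact U.neg_mem (ha k hk)

theorem irr_block {V : Type*} [AddCommGroup V] (K : Subgroup (AAut V)) (hirr : Irr K)
    (sys : Sys K) (W1 : AddSubgroup V) (hW1 : W1 ∈ sys.Λ) : Irr (resMap W1 K) := by
  intro U hU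
  by_cases hbot : U = ⊥
  · exact Or.inl hbot
  right
  have hY : ySub K (sys.π W1) (U.map W1.subtype) = ⊥ ∨
      ySub K (sys.π W1) (U.map W1.subtype) = ⊤ := by
    apply hirr
    intro k hk v hv k' hk'
    rw [← mul_smul]
    exact hv (k' * k) (K.mul_mem hk' hk)
  have hsub : U.map W1.subtype ≤ ySub K (sys.π W1) (U.map W1.subtype) := by
    rintro _ ⟨u, hu, rfl⟩ k hk
    by_cases hkW : k • W1 = W1
    · have h1 : res W1 ⟨k, hkW⟩ • u ∈ U := hU _ (res_mem_resMap hkW hk) u hu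
      have h2 : k • (W1.subtype u) = W1.subtype (res W1 ⟨k, hkW⟩ • u) := rfl
      have h4 := sys.π_self W1 hW1 _ (res W1 ⟨k, hkW⟩ • u).2
      rw [h2]
      exact ⟨_, h1, h4.symm⟩
    · have h3 : k • (W1.subtype u) ∈ k • W1 := AddSubgroup.smul_mem_pointwise_smul _ k W1 u.2
      rw [sys.π_other W1 hW1 (k • W1) (sys.smul_mem k hk W1 hW1) (Ne.symm hkW) _ h3]
      exact AddSubgroup.zero_mem _
  have hYtop : ySub K (sys.π W1) (U.map W1.subtype) = ⊤ := by
    rcases hY with h | h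
    · exfalso
      apply hbot
      rw [eq_bot_iff]
      intro u hu
      have h1 : W1.subtype u ∈ ySub K (sys.π W1) (U.map W1.subtype) := hsub ⟨u, hu, rfl⟩
      rw [h, AddSubgroup.mem_bot] at h1
      rw [AddSubgroup.mem_bot]
      exact Subtype.ext h1
    · exact h
  rw [eq_top_iff]
  intro w _
  have h1 : (w : V) ∈ ySub K (sys.π W1) (U.map W1.subtype) := by rw [hYtop]; trivial
  have h2 := h1 1 K.one_mem
  rw [one_smul, sys.π_self W1 hW1 _ w.2] at h2
  obtain ⟨u, hu, hu'⟩ := h2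
  have h3 : u = w := Subtype.ext hu'
  rw [← h3]; exact hu

theorem imp2 (p : ℕ) [Fact p.Prime] {V : Type u} [AddCommGroup V] [Finite V]
    (hV : (Nat.card V).Coprime p) (IH : CoreUpTo.{u} p (Nat.card V))
    (K P : Subgroup (AAut V)) (hPK : P ≤ K) (hPn : ∀ k ∈ K, ∀ x ∈ P, k * x * k⁻¹ ∈ P)
    (hP : IsPGroup p P) (hirr : Irr K) (a : AAut V) (haP : a ∈ P) (ha : a ≠ 1) (sys : Sys K)
    (hfix : ∀ W ∈ sys.Λ, a • W = W) : NoConjFix K a := by
  classical
  -- (1) a block on which `a` acts non-trivially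
  obtain ⟨W1, hW1, w1, hw1, hw1a⟩ : ∃ W1 ∈ sys.Λ, ∃ w ∈ W1, a • w ≠ w := by
    by_contra h
    push Not at h
    apply ha
    apply FaithfulSMul.eq_of_smul_eq_smul (α := V)
    intro v
    rw [one_smul]
    conv_lhs => rw [← sys.sum_π v]
    rw [Finset.smul_sum]
    conv_rhs => rw [← sys.sum_π v]
    exact Finset.sum_congr rfl (fun W hW => h W hW _ (sys.π_mem W hW v))
  -- (2) the induction hypothesis on the block
  have hnt : Nontrivial W1 := (AddSubgroup.nontrivial_iff_ne_bot W1).mpr (sys.ne_bot W1 hW1)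
  have hcard : Nat.card W1 < Nat.card V := by
    have h1 : Nat.card W1 ≤ Nat.card V := AddSubgroup.card_le_card_addGroup W1
    have h2 : Nat.card W1 ≠ Nat.card V := fun h =>
      sys.ne_top W1 hW1 ((AddSubgroup.card_eq_iff_eq_top W1).mp h)
    omega
  have hcop : (Nat.card W1).Coprime p :=
    Nat.Coprime.coprime_dvd_left (AddSubgroup.card_addSubgroup_dvd_card W1) hV
  have haW1 : a • W1 = W1 := hfix W1 hW1
  have hP'K' : resMap W1 P ≤ resMap W1 K := by
    intro x hx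
    obtain ⟨k, hk, hkP, rfl⟩ := mem_resMap.mp hx
    exact res_mem_resMap hk (hPK hkP)
  have hP'n : ∀ k ∈ resMap W1 K, ∀ x ∈ resMap W1 P, k * x * k⁻¹ ∈ resMap W1 P := by
    intro k' hk' x' hx'
    obtain ⟨k, hk, hkK, rfl⟩ := mem_resMap.mp hk'
    obtain ⟨x, hx, hxP, rfl⟩ := mem_resMap.mp hx'
    rw [← map_inv, ← map_mul, ← map_mul]
    have hkx : (k * x * k⁻¹) • W1 = W1 := by
      rw [mul_smul, mul_smul, inv_smul_eq_iff.mpr hk.symm, hx, hk]
    exact mem_resMap.mpr ⟨k * x * k⁻¹, hkx, hPn k hkK x hxP, rfl⟩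
  have ha' : res W1 ⟨a, haW1⟩ ≠ 1 := by
    intro h
    exact hw1a ((res_eq_one_iff _).mp h w1 hw1)
  obtain ⟨w', hw'⟩ := IH W1 hcard hcop (resMap W1 K) (resMap W1 P) hP'K' hP'n
    (isPGroup_resMap hP) (irr_block K hirr sys W1 hW1) (res W1 ⟨a, haW1⟩)
    (res_mem_resMap haW1 haP) ha'
  -- (3) back to `V`
  have h3 : ∀ k1 ∈ K, k1 • W1 = W1 → (k1 * a * k1⁻¹) • (w' : V) ≠ (w' : V) := by
    intro k1 hk1 hk1W hcontra
    apply hw' (res W1 ⟨k1, hk1W⟩) (res_mem_resMap hk1W hk1)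
    apply Subtype.ext
    rw [← map_inv, ← map_mul, ← map_mul, res_smul]
    exact hcontra
  -- (4) the vector
  have hex : ∀ W ∈ sys.Λ, ∃ k ∈ K, k • W1 = W := fun W hW => sys.trans W1 hW1 W hW
  let t : AddSubgroup V → AAut V := fun W => if h : ∃ k ∈ K, k • W1 = W then h.choose else 1
  have ht : ∀ W ∈ sys.Λ, t W ∈ K ∧ t W • W1 = W := by
    intro W hW
    have h := hex W hW
    simp only [t, dif_pos h]
    exact h.choose_spec
  have htw : ∀ W ∈ sys.Λ, t W • (w' : V) ∈ W := by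
    intro W hW
    have h1 : t W • (w' : V) ∈ t W • W1 := AddSubgroup.smul_mem_pointwise_smul _ _ W1 w'.2
    rw [(ht W hW).2] at h1
    exact h1
  refine ⟨∑ W ∈ sys.Λ, t W • (w' : V), ?_⟩
  have hπ : ∀ W ∈ sys.Λ, sys.π W (∑ W ∈ sys.Λ, t W • (w' : V)) = t W • (w' : V) := by
    intro W hW
    rw [map_sum, Finset.sum_eq_single_of_mem W hW]
    · exact sys.π_self W hW _ (htw W hW)
    · intro W' hW' hne
      exact sys.π_other W hW W' hW' (Ne.symm hne) _ (htw W' hW')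
  intro k hk hfixv
  have hdP : k * a * k⁻¹ ∈ P := hPn k hk a haP
  have hdK : k * a * k⁻¹ ∈ K := hPK hdP
  have hdW : ∀ W ∈ sys.Λ, (k * a * k⁻¹) • W = W := by
    intro W hW
    rw [mul_smul, mul_smul, hfix _ (sys.smul_mem k⁻¹ (K.inv_mem hk) W hW), smul_inv_smul]
  have hdt : ∀ W ∈ sys.Λ, (k * a * k⁻¹) • (t W • (w' : V)) = t W • (w' : V) := by
    intro W hW
    have h1 := sys.π_smul _ hdK W hW (∑ W ∈ sys.Λ, t W • (w' : V))
    rw [hfixv, hdW W hW, hπ W hW] at h1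
    exact h1
  have hkW : k • W1 ∈ sys.Λ := sys.smul_mem k hk W1 hW1
  obtain ⟨htK, htW⟩ := ht _ hkW
  apply h3 ((t (k • W1))⁻¹ * k) (K.mul_mem (K.inv_mem htK) hk)
  · rw [mul_smul, inv_smul_eq_iff]
    exact htW.symm
  · have h4 := hdt _ hkW
    have h5 : (t (k • W1))⁻¹ * k * a * ((t (k • W1))⁻¹ * k)⁻¹
        = (t (k • W1))⁻¹ * (k * a * k⁻¹) * t (k • W1) := by group
    rw [h5, mul_smul, mul_smul, h4, inv_smul_smul]

end Cfsg.Agent.Lib.Helper87.FumIMP2
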