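import Mathlib

/-!
# S4330 piece PS (helper87): a `p`-group of odd order acting on a finite set has a subset
whose setwise stabiliser acts trivially
-/

set_option autoImplicit false

namespace Cfsg.Agent.Lib.Helper87.FumPS

open scoped Classical

variable {Γ : Type*} [Group Γ] {Ω : Type*} [MulAction Γ Ω]

/-- `S` is a subset of `X` whose setwise stabiliser in `T` acts trivially on `X`. -/
def Good (T : Subgroup Γ) (X S : Finset Ω) : Prop :=
  S ⊆ X ∧ ∀ t ∈ T, (∀ ω ∈ X, (ω ∈ S ↔ t • ω ∈ S)) → ∀ ω ∈ X, t • ω = ω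

/-- The orbit of `ω` under `M` inside `X`. -/
noncomputable def orb (M : Subgroup Γ) (X : Finset Ω) (ω : Ω) : Finset Ω :=
  X.filter (fun ω' => ∃ m ∈ M, m • ω = ω')

theorem mem_orb {M : Subgroup Γ} {X : Finset Ω} {ω ω' : Ω} :
    ω' ∈ orb M X ω ↔ ω' ∈ X ∧ ∃ m ∈ M, m • ω = ω' := by
  unfold orb
  rw [Finset.mem_filter]

theorem self_mem_orb {M : Subgroup Γ} {X : Finset Ω} {ω : Ω} (hω : ω ∈ X) : ω ∈ orb M X ω :=
  mem_orb.mpr ⟨hω, 1, M.one_mem, one_smul _ _⟩

theorem orb_subset {M : Subgroup Γ} {X : Finset Ω} {ω : Ω} : orb M X ω ⊆ X :=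
  fun _ h => (mem_orb.mp h).1

theorem orb_inv {M : Subgroup Γ} {X : Finset Ω} {ω : Ω} (hXM : ∀ m ∈ M, ∀ ω ∈ X, m • ω ∈ X) :
    ∀ m ∈ M, ∀ ω' ∈ orb M X ω, m • ω' ∈ orb M X ω := by
  intro m hm ω' hω'
  obtain ⟨hX, m', hm', rfl⟩ := mem_orb.mp hω'
  exact mem_orb.mpr ⟨hXM m hm _ hX, m * m', M.mul_mem hm hm', mul_smul _ _ _⟩

theorem orb_eq_of_mem {M : Subgroup Γ} {X : Finset Ω} {ω ω' : Ω} (h : ω' ∈ orb M X ω) :
    orb M X ω' = orb M X ω := by
  obtain ⟨-, m0, hm0, rfl⟩ := mem_orb.mp h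
  ext x
  rw [mem_orb, mem_orb]
  constructor
  · rintro ⟨hx, m, hm, rfl⟩
    exact ⟨hx, m * m0, M.mul_mem hm hm0, mul_smul _ _ _⟩
  · rintro ⟨hx, m, hm, rfl⟩
    refine ⟨hx, m * m0⁻¹, M.mul_mem hm (M.inv_mem hm0), ?_⟩
    rw [mul_smul, inv_smul_smul]

theorem card_inter_orb (T M : Subgroup Γ) (X S : Finset Ω) (hX : ∀ t ∈ T, ∀ ω ∈ X, t • ω ∈ X)
    (hnorm : ∀ g ∈ T, ∀ m ∈ M, g * m * g⁻¹ ∈ M) (g : Γ) (hg : g ∈ T)
    (hS : ∀ ω ∈ X, (ω ∈ S ↔ g • ω ∈ S)) (ω : Ω) :
    (S ∩ orb M X ω).card = (S ∩ orb M X (g • ω)).card := by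
  apply Finset.card_bij (fun x _ => g • x)
  · intro x hx
    rw [Finset.mem_inter, mem_orb] at hx ⊢
    obtain ⟨hxS, hxX, m, hm, rfl⟩ := hx
    refine ⟨(hS _ hxX).mp hxS, hX g hg _ hxX, g * m * g⁻¹, hnorm g hg m hm, ?_⟩
    simp [mul_smul]
  · intro a _ b _ hab
    exact MulAction.injective g hab
  · intro y hy
    rw [Finset.mem_inter, mem_orb] at hy
    obtain ⟨hyS, hyX, m, hm, rfl⟩ := hy
    have hx : g⁻¹ • (m • g • ω) ∈ X := hX g⁻¹ (T.inv_mem hg) _ hyX
    refine ⟨g⁻¹ • (m • g • ω), ?_, by simp⟩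
    rw [Finset.mem_inter, mem_orb]
    refine ⟨(hS _ hx).mpr (by simpa using hyS), hx, g⁻¹ * m * g, ?_, by simp [mul_smul]⟩
    have := hnorm g⁻¹ (T.inv_mem hg) m hm
    simpa using this

/-- A proper normal subgroup of the `p`-group `T` containing the stabiliser of a moved point. -/
theorem exists_normal_max (p : ℕ) [Fact p.Prime] (T : Subgroup Γ) [Finite T] (hT : IsPGroup p T)
    (ω0 : Ω) (t0 : Γ) (ht0 : t0 ∈ T) (hmove : t0 • ω0 ≠ ω0) :
    ∃ M : Subgroup Γ, M ≤ T ∧ (∀ g ∈ T, ∀ m ∈ M, g * m * g⁻¹ ∈ M) ∧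
      (∀ t ∈ T, t • ω0 = ω0 → t ∈ M) ∧ ∃ t ∈ T, t ∉ M := by
  have hnil : Group.IsNilpotent T := hT.isNilpotent
  have hne : MulAction.stabilizer T ω0 ≠ ⊤ := by
    intro h
    have h1 : (⟨t0, ht0⟩ : T) ∈ MulAction.stabilizer T ω0 := by rw [h]; trivial
    exact hmove (MulAction.mem_stabilizer_iff.mp h1)
  obtain ⟨M, hM, hle⟩ := (eq_top_or_exists_le_coatom (MulAction.stabilizer T ω0)).resolve_left hne
  have hnorm : M.Normal :=
    Subgroup.NormalizerCondition.normal_of_coatom _ Group.normalizerCondition_of_isNilpotent hM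
  refine ⟨M.map T.subtype, ?_, ?_, ?_, ?_⟩
  · rintro x ⟨y, -, rfl⟩
    exact y.2
  · rintro g hg x ⟨y, hy, rfl⟩
    refine ⟨⟨g, hg⟩ * y * ⟨g, hg⟩⁻¹, hnorm.conj_mem y hy ⟨g, hg⟩, rfl⟩
  · intro t ht hfix
    refine ⟨⟨t, ht⟩, hle ?_, rfl⟩
    exact MulAction.mem_stabilizer_iff.mpr hfix
  · have hMtop : M ≠ ⊤ := hM.1
    obtain ⟨x, hx⟩ : ∃ x : T, x ∉ M := by
      by_contra hall
      push Not at hall
      exact hMtop (eq_top_iff.mpr fun x _ => hall x)
    refine ⟨x.1, x.2, ?_⟩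
    rintro ⟨y, hy, hyx⟩
    have : y = x := Subtype.ext hyx
    exact hx (this ▸ hy)

theorem main (p : ℕ) [Fact p.Prime] (hp : p ≠ 2) :
    ∀ (n : ℕ) (T : Subgroup Γ) (X : Finset Ω), X.card = n → (T : Set Γ).Finite → IsPGroup p T →
      (∀ t ∈ T, ∀ ω ∈ X, t • ω ∈ X) → ∃ S, Good T X S := by
  intro n
  induction n using Nat.strong_induction_on with
  | _ n IH =>
  intro T X hn hfin hT hX
  by_cases htriv : ∀ t ∈ T, ∀ ω ∈ X, t • ω = ω
  · exact ⟨∅, Finset.empty_subset _, fun t ht _ => htriv t ht⟩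
  push Not at htriv
  obtain ⟨t0, ht0, ω0, hω0, hmove⟩ := htriv
  have hTfin : Finite T := hfin.to_subtype
  by_cases hO : orb T X ω0 = X
  · -- transitive case
    obtain ⟨M, hMT, hMn, hMstab, t1, ht1, ht1M⟩ := exists_normal_max p T hT ω0 t0 ht0 hmove
    have hXM : ∀ m ∈ M, ∀ ω ∈ X, m • ω ∈ X := fun m hm => hX m (hMT hm)
    have hMfin : (M : Set Γ).Finite := hfin.subset hMT
    have hMp : IsPGroup p M := hT.to_le hMT
    have hnotin : ∀ t ∈ T, t ∉ M → t • ω0 ∉ orb M X ω0 := by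
      intro t ht htM hmem
      obtain ⟨-, m, hm, hmm⟩ := mem_orb.mp hmem
      apply htM
      have h2 : m⁻¹ * t ∈ M :=
        hMstab _ (T.mul_mem (T.inv_mem (hMT hm)) ht) (by rw [mul_smul, ← hmm, inv_smul_smul])
      have h3 : t = m * (m⁻¹ * t) := by group
      rw [h3]; exact M.mul_mem hm h2
    have hO0 : orb M X ω0 ≠ X := by
      intro h
      apply hnotin t1 ht1 ht1M
      rw [h]; exact hX t1 ht1 ω0 hω0
    have hOlt : ∀ ω ∈ X, (orb M X ω).card < n := by
      intro ω hω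
      rw [← hn]
      apply Finset.card_lt_card
      refine Finset.ssubset_iff_subset_ne.mpr ⟨orb_subset, ?_⟩
      intro h
      apply hO0
      have h0 : ω0 ∈ orb M X ω := by rw [h]; exact hω0
      rw [orb_eq_of_mem h0]
      exact h
    have hgood : ∀ ω ∈ X, ∃ S, Good M (orb M X ω) S := fun ω hω =>
      IH _ (hOlt ω hω) M (orb M X ω) rfl hMfin hMp (fun m hm ω' hω' => orb_inv hXM m hm ω' hω')
    let F : Finset Ω → Finset Ω := fun O => if h : ∃ S, Good M O S then h.choose else ∅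
    have hF : ∀ ω ∈ X, Good M (orb M X ω) (F (orb M X ω)) := by
      intro ω hω
      have h := hgood ω hω
      simp only [F, dif_pos h]
      exact h.choose_spec
    let F' : Finset Ω → Finset Ω := fun O =>
      if O = orb M X ω0 then
        (if (orb M X ω0).card < 2 * (F (orb M X ω0)).card then F (orb M X ω0)
          else orb M X ω0 \ F (orb M X ω0))
      else (if 2 * (F O).card ≤ O.card then F O else O \ F O)
    have hF'cases : ∀ O, F' O = F O ∨ F' O = O \ F O := by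
      intro O
      simp only [F']
      split_ifs with h1 h2 h3
      · left; rw [h1]
      · right; rw [h1]
      · left; rfl
      · right; rfl
    have hF'sub : ∀ ω ∈ X, F' (orb M X ω) ⊆ orb M X ω := by
      intro ω hω
      rcases hF'cases (orb M X ω) with h | h
      · rw [h]; exact (hF ω hω).1
      · rw [h]; exact Finset.sdiff_subset
    have hS'mem : ∀ ω ∈ X, ∀ ω' ∈ orb M X ω,
        (ω' ∈ X.filter (fun x => x ∈ F' (orb M X x)) ↔ ω' ∈ F' (orb M X ω)) := by
      intro ω hω ω' hω'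
      rw [Finset.mem_filter, orb_eq_of_mem hω']
      exact ⟨fun h => h.2, fun h => ⟨orb_subset hω', h⟩⟩
    have hS'inter : ∀ ω ∈ X,
        X.filter (fun x => x ∈ F' (orb M X x)) ∩ orb M X ω = F' (orb M X ω) := by
      intro ω hω
      ext x
      rw [Finset.mem_inter]
      constructor
      · rintro ⟨h1, h2⟩
        exact (hS'mem ω hω x h2).mp h1
      · intro h
        have h2 := hF'sub ω hω h
        exact ⟨(hS'mem ω hω x h2).mpr h, h2⟩
    refine ⟨X.filter (fun x => x ∈ F' (orb M X x)), Finset.filter_subset _ _, ?_⟩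
    intro t ht hst
    have htM : t ∈ M := by
      by_contra htM
      have h1 := card_inter_orb T M X _ hX hMn t ht hst ω0
      have h2 := card_inter_orb T M X X hX hMn t ht
        (fun ω hω => ⟨fun _ => hX t ht ω hω, fun _ => hω⟩) ω0
      rw [Finset.inter_eq_right.mpr orb_subset, Finset.inter_eq_right.mpr orb_subset] at h2
      have htω : t • ω0 ∈ X := hX t ht ω0 hω0
      rw [hS'inter ω0 hω0, hS'inter _ htω] at h1
      have hne : orb M X (t • ω0) ≠ orb M X ω0 := by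
        intro h
        apply hnotin t ht htM
        rw [← h]
        exact self_mem_orb htω
      have hodd : Odd (orb M X ω0).card := by
        have hset : ((orb M X ω0 : Finset Ω) : Set Ω) = MulAction.orbit M ω0 := by
          ext x
          simp only [Finset.mem_coe, mem_orb, MulAction.mem_orbit_iff]
          constructor
          · rintro ⟨-, m, hm, rfl⟩; exact ⟨⟨m, hm⟩, rfl⟩
          · rintro ⟨⟨m, hm⟩, rfl⟩; exact ⟨hXM m hm ω0 hω0, m, hm, rfl⟩
        have hfinorb : Finite (MulAction.orbit M ω0) := by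
          rw [← hset]; exact (Finset.finite_toSet _).to_subtype
        obtain ⟨k, hk⟩ := hMp.card_orbit ω0
        have hc : Nat.card (MulAction.orbit M ω0) = (orb M X ω0).card := by
          rw [← hset]; simp
        rw [← hc, hk]
        exact (Nat.Prime.odd_of_ne_two Fact.out hp).pow
      have hsub0 := (hF ω0 hω0).1
      have hsub1 := (hF _ htω).1
      have hc0 : (orb M X ω0).card < 2 * (F' (orb M X ω0)).card := by
        simp only [F', if_pos]
        split_ifs with h3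
        · exact h3
        · rw [Finset.card_sdiff_of_subset hsub0]
          have := Finset.card_le_card hsub0
          obtain ⟨k, hk⟩ := hodd
          omega
      have hc1 : 2 * (F' (orb M X (t • ω0))).card ≤ (orb M X (t • ω0)).card := by
        simp only [F', if_neg hne]
        split_ifs with h3
        · exact h3
        · rw [Finset.card_sdiff_of_subset hsub1]
          have := Finset.card_le_card hsub1
          omega
      omega
    intro ω hω
    have hg := hF ω hω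
    apply hg.2 t htM ?_ ω (self_mem_orb hω)
    intro ω' hω'
    have hω'X := orb_subset hω'
    have htω' : t • ω' ∈ orb M X ω := orb_inv hXM t htM ω' hω'
    have h1 := hS'mem ω hω ω' hω'
    have h2 := hS'mem ω hω _ htω'
    have h3 := hst ω' hω'X
    rcases hF'cases (orb M X ω) with h | h
    · rw [h] at h1 h2; rw [← h1, ← h2]; exact h3
    · rw [h, Finset.mem_sdiff] at h1 h2
      constructor
      · intro hin
        by_contra hnot
        have h4 := h2.mpr ⟨htω', hnot⟩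
        have h5 := h3.mpr h4
        exact (h1.mp h5).2 hin
      · intro hin
        by_contra hnot
        have h4 := h1.mpr ⟨hω', hnot⟩
        have h5 := h3.mp h4
        exact (h2.mp h5).2 hin
  · -- intransitive case
    have hOsub : orb T X ω0 ⊆ X := orb_subset
    have hlt1 : (orb T X ω0).card < n := by
      rw [← hn]
      exact Finset.card_lt_card (Finset.ssubset_iff_subset_ne.mpr ⟨hOsub, hO⟩)
    have hlt2 : (X \ orb T X ω0).card < n := by
      rw [← hn]
      apply Finset.card_lt_card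
      refine Finset.ssubset_iff_subset_ne.mpr ⟨Finset.sdiff_subset, ?_⟩
      intro h
      have h0 : ω0 ∈ X \ orb T X ω0 := by rw [h]; exact hω0
      exact (Finset.mem_sdiff.mp h0).2 (self_mem_orb hω0)
    have hinv1 : ∀ t ∈ T, ∀ ω ∈ orb T X ω0, t • ω ∈ orb T X ω0 :=
      fun t ht ω hω => orb_inv hX t ht ω hω
    have hinv2 : ∀ t ∈ T, ∀ ω ∈ X \ orb T X ω0, t • ω ∈ X \ orb T X ω0 := by
      intro t ht ω hω
      rw [Finset.mem_sdiff] at hω ⊢
      refine ⟨hX t ht ω hω.1, fun h => hω.2 ?_⟩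
      have := orb_inv hX t⁻¹ (T.inv_mem ht) _ h
      simpa using this
    obtain ⟨S1, hS1, hS1'⟩ := IH _ hlt1 T _ rfl hfin hT hinv1
    obtain ⟨S2, hS2, hS2'⟩ := IH _ hlt2 T _ rfl hfin hT hinv2
    refine ⟨S1 ∪ S2, Finset.union_subset (hS1.trans hOsub) (hS2.trans Finset.sdiff_subset), ?_⟩
    intro t ht hst ω hω
    by_cases hωO : ω ∈ orb T X ω0
    · apply hS1' t ht ?_ ω hωO
      intro x hx
      have hx' := hinv1 t ht x hx
      have h := hst x (hOsub hx)
      rw [Finset.mem_union, Finset.mem_union] at h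
      have n1 : x ∉ S2 := fun h2 => (Finset.mem_sdiff.mp (hS2 h2)).2 hx
      have n2 : t • x ∉ S2 := fun h2 => (Finset.mem_sdiff.mp (hS2 h2)).2 hx'
      tauto
    · have hω' : ω ∈ X \ orb T X ω0 := Finset.mem_sdiff.mpr ⟨hω, hωO⟩
      apply hS2' t ht ?_ ω hω'
      intro x hx
      have hx' := hinv2 t ht x hx
      have h := hst x (Finset.mem_sdiff.mp hx).1
      rw [Finset.mem_union, Finset.mem_union] at h
      have n1 : x ∉ S1 := fun h1 => (Finset.mem_sdiff.mp hx).2 (hS1 h1)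
      have n2 : t • x ∉ S1 := fun h1 => (Finset.mem_sdiff.mp hx').2 (hS1 h1)
      tauto

/-- **Piece PS**: a `p`-group (`p` odd) acting on a finite set has a subset whose setwise
stabiliser acts trivially. -/
theorem exists_subset_stab_trivial {Γ : Type*} [Group Γ] {Ω : Type*} [MulAction Γ Ω]
    (p : ℕ) [Fact p.Prime] (hp : p ≠ 2) (T : Subgroup Γ) [Finite T] (hT : IsPGroup p T)
    (X : Finset Ω) (hX : ∀ t ∈ T, ∀ ω ∈ X, t • ω ∈ X) :
    ∃ S ⊆ X, ∀ t ∈ T, (∀ ω ∈ X, (ω ∈ S ↔ t • ω ∈ S)) → ∀ ω ∈ X, t • ω = ω :=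
  main p hp X.card T X rfl (Set.toFinite _) hT hX

end Cfsg.Agent.Lib.Helper87.FumPS
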