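import Cfsg.Agent.Lib.Helper51.OTransport

/-!
# OMEGA-SYL piece STDE (helper87): the standard bases of S2616 as isometries of coordinate spaces
-/

set_option autoImplicit false
set_option linter.unusedSectionVars false

namespace Cfsg.Agent.Lib.Helper87.OStdE

open Cfsg Cfsg.Agent.Lib.Helper51
open Cfsg.Agent.Lib.Helper51.OTransport (eq_of_polar_basis)

variable {ι : Type} [Fintype ι] [DecidableEq ι] {F : Type*} [Field F] [Fintype F]

theorem std_even (h2 : (2 : F) ≠ 0) (W : QuadraticForm F (ι → F))
    (hW : (QuadraticMap.polarBilin W).Nondegenerate) (m : ℕ) (hm : 1 ≤ m)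
    (hc : Fintype.card ι = 2 * m) :
    (∃ L : (ι → F) ≃ₗ[F] (Fin m ⊕ Fin m → F), ∀ v, quadFormPlus m F (L v) = W v) ∨
    (∃ (L : (ι → F) ≃ₗ[F] ((Fin (m - 1) ⊕ Fin (m - 1)) ⊕ Fin 2 → F)) (ζ : F),
      (∀ t : F, t ^ 2 + t + ζ ≠ 0) ∧ ∀ v, quadFormMinus (m - 1) F 1 ζ (L v) = W v) := by
  have hV : Module.finrank F (ι → F) = 2 * m := by
    rw [Module.finrank_fintype_fun_eq_card, hc]
  rcases Cfsg.Agent.S2616.result hm hV W hW with
    ⟨b, -, hb2, hb3⟩ | ⟨b, ζ, hζ, -, hb2, hb3, hb4, hx, hxy, hy⟩
  · left
    refine ⟨b.equivFun, ?_⟩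
    have hbk : ∀ k, b.equivFun (b k) = Pi.single k 1 := by
      intro k
      funext j
      rw [Module.Basis.equivFun_self, Pi.single_apply]
      simp [eq_comm]
    intro v
    rw [← coe_QPlus]
    have := eq_of_polar_basis h2
      ((QPlus m F).comp (b.equivFun : (ι → F) →ₗ[F] (Fin m ⊕ Fin m → F))) W b ?_ v
    · simpa [QuadraticMap.comp_apply] using this
    · intro k l
      have e1 : QuadraticMap.polar
          ⇑((QPlus m F).comp (b.equivFun : (ι → F) →ₗ[F] (Fin m ⊕ Fin m → F))) (b k) (b l)
          = QuadraticMap.polar ⇑(QPlus m F) (Pi.single k 1) (Pi.single l 1) := by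
        simp only [QuadraticMap.polar, QuadraticMap.comp_apply, map_add, LinearEquiv.coe_coe, hbk]
      rw [e1, polar_QPlus]
      rcases k with k | k <;> rcases l with l | l
      · rw [(hb3 k l).1]
        simp
      · rw [hb2 k l]
        by_cases hkl : k = l
        · subst hkl
          simp [Pi.single_apply]
        · simp [Pi.single_apply, hkl, Ne.symm hkl]
      · rw [QuadraticMap.polar_comm, hb2 l k]
        by_cases hkl : l = k
        · subst hkl
          simp [Pi.single_apply]
        · simp [Pi.single_apply, hkl, Ne.symm hkl]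
      · rw [(hb3 k l).2]
        simp
  · right
    refine ⟨b.equivFun, ζ, hζ, ?_⟩
    have hbk : ∀ k, b.equivFun (b k) = Pi.single k 1 := by
      intro k
      funext j
      rw [Module.Basis.equivFun_self, Pi.single_apply]
      simp [eq_comm]
    intro v
    rw [← coe_QMinus]
    have := eq_of_polar_basis h2
      ((QMinus (m - 1) F 1 ζ).comp
        (b.equivFun : (ι → F) →ₗ[F] ((Fin (m - 1) ⊕ Fin (m - 1)) ⊕ Fin 2 → F))) W b ?_ v
    · simpa [QuadraticMap.comp_apply] using this
    · intro k l
      have e1 : QuadraticMap.polar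
          ⇑((QMinus (m - 1) F 1 ζ).comp
            (b.equivFun : (ι → F) →ₗ[F] ((Fin (m - 1) ⊕ Fin (m - 1)) ⊕ Fin 2 → F))) (b k) (b l)
          = QuadraticMap.polar ⇑(QMinus (m - 1) F 1 ζ) (Pi.single k 1) (Pi.single l 1) := by
        simp only [QuadraticMap.polar, QuadraticMap.comp_apply, map_add, LinearEquiv.coe_coe, hbk]
      rw [e1, polar_QMinus]
      rcases k with (k | k) | k <;> rcases l with (l | l) | l
      · rw [(hb3 k l).1]; simp
      · rw [hb2 k l]
        by_cases hkl : k = l
        · subst hkl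
          simp [Pi.single_apply]
        · simp [Pi.single_apply, hkl, Ne.symm hkl]
      · rw [(hb4 k l).1]; simp
      · rw [QuadraticMap.polar_comm, hb2 l k]
        by_cases hkl : l = k
        · subst hkl
          simp [Pi.single_apply]
        · simp [Pi.single_apply, hkl, Ne.symm hkl]
      · rw [(hb3 k l).2]; simp
      · rw [(hb4 k l).2]; simp
      · rw [QuadraticMap.polar_comm, (hb4 l k).1]; simp
      · rw [QuadraticMap.polar_comm, (hb4 l k).2]; simp
      · have h00 : QuadraticMap.polar ⇑W (b (Sum.inr 0)) (b (Sum.inr 0)) = 2 := by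
          rw [QuadraticMap.polar_self, hx]; simp
        have h10 : QuadraticMap.polar ⇑W (b (Sum.inr 1)) (b (Sum.inr 0)) = 1 := by
          rw [QuadraticMap.polar_comm]; exact hxy
        have h11 : QuadraticMap.polar ⇑W (b (Sum.inr 1)) (b (Sum.inr 1)) = 2 * ζ := by
          rw [QuadraticMap.polar_self, hy]; simp
        have hfin : ∀ a : Fin 2, a = 0 ∨ a = 1 := by decide
        rcases hfin k with rfl | rfl <;> rcases hfin l with rfl | rfl
        · rw [h00]; simp
        · rw [hxy]; simp
        · rw [h10]; simp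
        · rw [h11]; simp

end Cfsg.Agent.Lib.Helper87.OStdE
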