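import Mathlib
import Cfsg.Agent.Lib.Helper18.LSDefs

/-!
# S2333 piece LS-FAITH2 (helper87 for helper18)
-/

set_option autoImplicit false

namespace Cfsg.Agent.Lib.Helper18.LS

open Matrix

universe u

variable {F : Type u} [Field F] {n : ℕ}

-- piece FAITH2
theorem uS_S0_not_central (hn : 2 ≤ n) :
    uS (S0 n F) ∉ Subgroup.center (symplecticGroup (Fin n) F) := by
  intro hc
  rw [Subgroup.mem_center_iff] at hc
  have hL : (fromBlocks 1 0 (S0 n F) 1 : Matrix (Fin n ⊕ Fin n) (Fin n ⊕ Fin n) F) ∈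
      symplecticGroup (Fin n) F := by
    rw [SymplecticGroup.fromBlocks_mem_iff]
    refine ⟨by simp [(S0_isSymm (n := n) (F := F)).eq], by simp, by simp⟩
  have h := hc ⟨_, hL⟩
  have h' := congrArg
    (fun g : symplecticGroup (Fin n) F => (g : Matrix (Fin n ⊕ Fin n) (Fin n ⊕ Fin n) F)) h
  simp only [Submonoid.coe_mul, uS_coe (S0_isSymm (n := n) (F := F)), fromBlocks_multiply,
    fromBlocks_inj] at h'
  have h0 : S0 n F * S0 n F = 0 := by
    have h1 := h'.1
    simpa using h1.symm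
  have h00 := congrFun (congrFun h0 ⟨0, by omega⟩) ⟨0, by omega⟩
  rw [Matrix.mul_apply, Finset.sum_eq_single (⟨1, by omega⟩ : Fin n)] at h00
  · simp [S0] at h00
  · intro b _ hb
    have hb1 : b.val ≠ 1 := fun hv => hb (Fin.ext hv)
    simp [S0, hb1]
  · intro hmem
    exact absurd (Finset.mem_univ _) hmem

end Cfsg.Agent.Lib.Helper18.LS
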