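import Mathlib
import Cfsg.Prelude.Def_RootSubgroups
import Cfsg.Agent.Lib.Helper47.SLGen
import Cfsg.Agent.Lib.Helper97.Transv

set_option autoImplicit false

namespace Cfsg.Agent.Lib.Helper87

section AbstractPair

variable {F R : Type*} [Field F] [Ring R] [Algebra F R]

theorem tp_XX {τ : F} {A B : R} (hA : A * A = 0) (hB : B * B = 0) (hABA : A * B * A = τ • A)
    (hBAB : B * A * B = τ • B) :
    (A + B + A * B) * (A + B + A * B) = τ • (A + B + A * B) + (A * B + B * A) := by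
  have h4 : A * B * B = 0 := by rw [mul_assoc, hB, mul_zero]
  have h5 : A * (A * B) = 0 := by rw [← mul_assoc, hA, zero_mul]
  have h6 : B * (A * B) = τ • B := by rw [← mul_assoc, hBAB]
  have h7 : A * B * (A * B) = τ • (A * B) := by rw [← mul_assoc, hABA, smul_mul_assoc]
  have e : (A + B + A * B) * (A + B + A * B) = A * A + A * B + A * (A * B) + (B * A + B * B +
      B * (A * B)) + (A * B * A + A * B * B + A * B * (A * B)) := by noncomm_ring
  rw [e, hA, hB, hABA, h4, h5, h6, h7]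
  module

theorem tp_XY {τ : F} {A B : R} (hA : A * A = 0) (hB : B * B = 0) (hABA : A * B * A = τ • A)
    (hBAB : B * A * B = τ • B) :
    (A + B + A * B) * (A * B + B * A) = τ • (A + B + A * B) := by
  have h1 : A * (A * B) = 0 := by rw [← mul_assoc, hA, zero_mul]
  have h2 : A * (B * A) = τ • A := by rw [← mul_assoc, hABA]
  have h3 : B * (A * B) = τ • B := by rw [← mul_assoc, hBAB]
  have h4 : B * (B * A) = 0 := by rw [← mul_assoc, hB, zero_mul]
  have h5 : A * B * (A * B) = τ • (A * B) := by rw [← mul_assoc, hABA, smul_mul_assoc]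
  have h6 : A * B * (B * A) = 0 := by rw [mul_assoc, ← mul_assoc B B A, hB, zero_mul, mul_zero]
  have e : (A + B + A * B) * (A * B + B * A) = A * (A * B) + A * (B * A) + (B * (A * B) +
      B * (B * A)) + (A * B * (A * B) + A * B * (B * A)) := by noncomm_ring
  rw [e, h1, h2, h3, h4, h5, h6]
  module

theorem tp_YX {τ : F} {A B : R} (hA : A * A = 0) (hB : B * B = 0) (hABA : A * B * A = τ • A)
    (hBAB : B * A * B = τ • B) :
    (A * B + B * A) * (A + B + A * B) = τ • (A + B + A * B) := by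
  have h2 : A * B * B = 0 := by rw [mul_assoc, hB, mul_zero]
  have h3 : A * B * (A * B) = τ • (A * B) := by rw [← mul_assoc, hABA, smul_mul_assoc]
  have h4 : B * A * A = 0 := by rw [mul_assoc, hA, mul_zero]
  have h6 : B * A * (A * B) = 0 := by rw [mul_assoc, ← mul_assoc A A B, hA, zero_mul, mul_zero]
  have e : (A * B + B * A) * (A + B + A * B) = A * B * A + A * B * B + A * B * (A * B) +
      (B * A * A + B * A * B + B * A * (A * B)) := by noncomm_ring
  rw [e, hABA, h2, h3, h4, hBAB, h6]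
  module

theorem tp_YY {τ : F} {A B : R} (hA : A * A = 0) (hB : B * B = 0) (hABA : A * B * A = τ • A)
    (hBAB : B * A * B = τ • B) :
    (A * B + B * A) * (A * B + B * A) = τ • (A * B + B * A) := by
  have h1 : A * B * (A * B) = τ • (A * B) := by rw [← mul_assoc, hABA, smul_mul_assoc]
  have h2 : A * B * (B * A) = 0 := by rw [mul_assoc, ← mul_assoc B B A, hB, zero_mul, mul_zero]
  have h3 : B * A * (A * B) = 0 := by rw [mul_assoc, ← mul_assoc A A B, hA, zero_mul, mul_zero]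
  have h4 : B * A * (B * A) = τ • (B * A) := by rw [← mul_assoc, hBAB, smul_mul_assoc]
  have e : (A * B + B * A) * (A * B + B * A) = A * B * (A * B) + A * B * (B * A) +
      (B * A * (A * B) + B * A * (B * A)) := by noncomm_ring
  rw [e, h1, h2, h3, h4]
  module

theorem tp_one_add {A B : R} : (1 + A) * (1 + B) = 1 + (A + B + A * B) := by noncomm_ring

/-- Every power of `(1 + A)(1 + B)` is of the form `1 + βX + γY`. -/
theorem tp_pow {τ : F} {A B : R} (hA : A * A = 0) (hB : B * B = 0) (hABA : A * B * A = τ • A)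
    (hBAB : B * A * B = τ • B) (m : ℕ) :
    ∃ β γ : F, ((1 + A) * (1 + B)) ^ m = 1 + β • (A + B + A * B) + γ • (A * B + B * A) := by
  induction m with
  | zero => exact ⟨0, 0, by rw [pow_zero, zero_smul, zero_smul, add_zero, add_zero]⟩
  | succ m ih =>
    obtain ⟨β, γ, h⟩ := ih
    refine ⟨1 + β + β * τ + γ * τ, β + γ, ?_⟩
    rw [pow_succ, h, tp_one_add]
    generalize hX : A + B + A * B = X
    generalize hY : A * B + B * A = Y
    have hXX : X * X = τ • X + Y := by rw [← hX, ← hY]; exact tp_XX hA hB hABA hBAB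
    have hYX : Y * X = τ • X := by rw [← hX, ← hY]; exact tp_YX hA hB hABA hBAB
    have e : (1 + β • X + γ • Y) * (1 + X) = 1 + X + β • X + β • (X * X) + γ • Y + γ • (Y * X) := by
      simp only [add_mul, mul_add, one_mul, mul_one, smul_mul_assoc]
      abel
    rw [e, hXX, hYX]
    module

/-- In characteristic two, the square of `1 + βX + γY`. -/
theorem tp_sq {τ : F} {A B : R} (h2 : (2 : F) = 0) (hA : A * A = 0) (hB : B * B = 0)
    (hABA : A * B * A = τ • A) (hBAB : B * A * B = τ • B) (β γ : F) :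
    (1 + β • (A + B + A * B) + γ • (A * B + B * A)) * (1 + β • (A + B + A * B) + γ • (A * B + B * A)) =
      1 + (β ^ 2 * τ) • (A + B + A * B) + (β ^ 2 + γ ^ 2 * τ) • (A * B + B * A) := by
  have hXX := tp_XX hA hB hABA hBAB
  have hXY := tp_XY hA hB hABA hBAB
  have hYX := tp_YX hA hB hABA hBAB
  have hYY := tp_YY hA hB hABA hBAB
  generalize A + B + A * B = X at hXX hXY hYX hYY ⊢
  generalize A * B + B * A = Y at hXX hXY hYX hYY ⊢
  have e : (1 + β • X + γ • Y) * (1 + β • X + γ • Y) = 1 + β • X + γ • Y + (β • X + (β * β) • (X * X) +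
      (β * γ) • (X * Y)) + (γ • Y + (γ * β) • (Y * X) + (γ * γ) • (Y * Y)) := by
    simp only [add_mul, mul_add, one_mul, mul_one, smul_mul_assoc, mul_smul_comm]
    module
  have e2 : 1 + β • X + γ • Y + (β • X + (β * β) • (τ • X + Y) + (β * γ) • (τ • X)) +
      (γ • Y + (γ * β) • (τ • X) + (γ * γ) • (τ • Y)) =
      1 + (β ^ 2 * τ) • X + (β ^ 2 + γ ^ 2 * τ) • Y + (2 : F) • (β • X + γ • Y + (β * γ * τ) • X) := by
    module
  rw [e, hXX, hXY, hYX, hYY, e2, h2, zero_smul, add_zero]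

theorem tp_extract {τ : F} {A B : R} (hτ : τ ≠ 0) (hA0 : A ≠ 0) (hA : A * A = 0)
    (hABA : A * B * A = τ • A) {c₁ c₂ : F}
    (h : c₁ • (A + B + A * B) + c₂ • (A * B + B * A) = 0) : c₁ = 0 ∧ c₂ = 0 := by
  have h1 : A * (A + B + A * B) = A * B := by
    rw [mul_add, mul_add, hA, ← mul_assoc, hA, zero_mul, zero_add, add_zero]
  have h2 : A * (A * B + B * A) = τ • A := by
    rw [mul_add, ← mul_assoc, hA, zero_mul, zero_add, ← mul_assoc, hABA]
  have h3 : A * (c₁ • (A + B + A * B) + c₂ • (A * B + B * A)) = c₁ • (A * B) + (c₂ * τ) • A := by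
    rw [mul_add, mul_smul_comm, mul_smul_comm, h1, h2, smul_smul]
  rw [h, mul_zero] at h3
  have h4 : (c₁ • (A * B) + (c₂ * τ) • A) * A = (c₁ * τ) • A := by
    rw [add_mul, smul_mul_assoc, smul_mul_assoc, hABA, hA, smul_zero, add_zero, smul_smul]
  rw [← h3, zero_mul] at h4
  have hc₁ : c₁ = 0 := by
    rcases smul_eq_zero.1 h4.symm with h5 | h5
    · rcases mul_eq_zero.1 h5 with h6 | h6
      · exact h6
      · exact absurd h6 hτ
    · exact absurd h5 hA0
  refine ⟨hc₁, ?_⟩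
  rw [hc₁, zero_smul, zero_add] at h3
  rcases smul_eq_zero.1 h3.symm with h5 | h5
  · rcases mul_eq_zero.1 h5 with h6 | h6
    · exact h6
    · exact absurd h6 hτ
  · exact absurd h5 hA0

/-- In characteristic two, with `τ ≠ 0`, a power of `(1 + A)(1 + B)` squaring to one is one. -/
theorem tp_invol {τ : F} {A B : R} (h2 : (2 : F) = 0) (hτ : τ ≠ 0) (hA0 : A ≠ 0) (hA : A * A = 0)
    (hB : B * B = 0) (hABA : A * B * A = τ • A) (hBAB : B * A * B = τ • B) (m : ℕ)
    (h : ((1 + A) * (1 + B)) ^ m * ((1 + A) * (1 + B)) ^ m = 1) : ((1 + A) * (1 + B)) ^ m = 1 := by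
  obtain ⟨β, γ, hm⟩ := tp_pow hA hB hABA hBAB m
  rw [hm, tp_sq h2 hA hB hABA hBAB] at h
  have h3 : (β ^ 2 * τ) • (A + B + A * B) + (β ^ 2 + γ ^ 2 * τ) • (A * B + B * A) = 0 := by
    have h4 : (1 : R) + ((β ^ 2 * τ) • (A + B + A * B) + (β ^ 2 + γ ^ 2 * τ) • (A * B + B * A)) = 1 + 0 := by
      rw [add_zero, ← add_assoc]
      exact h
    exact add_left_cancel h4
  obtain ⟨h5, h6⟩ := tp_extract hτ hA0 hA hABA h3
  have hβ : β = 0 := by
    rcases mul_eq_zero.1 h5 with h7 | h7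
    · exact pow_eq_zero_iff (two_ne_zero) |>.1 h7
    · exact absurd h7 hτ
  have hγ : γ = 0 := by
    rw [hβ, zero_pow two_ne_zero, zero_add] at h6
    rcases mul_eq_zero.1 h6 with h7 | h7
    · exact pow_eq_zero_iff (two_ne_zero) |>.1 h7
    · exact absurd h7 hτ
  rw [hm, hβ, hγ, zero_smul, zero_smul, add_zero, add_zero]

/-- In characteristic two with `τ = 1`, the cube of `(1 + A)(1 + B)` is one. -/
theorem tp_cube {A B : R} (h2 : (2 : F) = 0) (hA : A * A = 0) (hB : B * B = 0)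
    (hABA : A * B * A = (1 : F) • A) (hBAB : B * A * B = (1 : F) • B) :
    ((1 + A) * (1 + B)) ^ 3 = 1 := by
  have hXX := tp_XX hA hB hABA hBAB
  have hYX := tp_YX hA hB hABA hBAB
  rw [tp_one_add]
  generalize A + B + A * B = X at hXX hYX ⊢
  generalize A * B + B * A = Y at hXX hYX ⊢
  have e : (1 + X) ^ 3 = 1 + X + X + X * X + (X + X * X + (X * X + (X * X) * X)) := by noncomm_ring
  have e3 : (X * X) * X = (1 : F) • ((1 : F) • X + Y) + (1 : F) • X := by
    rw [hXX, add_mul, smul_mul_assoc, hXX, hYX]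
  have e4 : 1 + X + X + ((1 : F) • X + Y) + (X + ((1 : F) • X + Y) + (((1 : F) • X + Y) +
      ((1 : F) • ((1 : F) • X + Y) + (1 : F) • X))) = 1 + (2 : F) • ((4 : F) • X + (2 : F) • Y) := by
    module
  rw [e, e3, hXX, e4, h2, zero_smul, add_zero]

/-- In characteristic two: if `A B = 0` then `((1 + A)(1 + B))² = 1 + B A` and the fourth power is one. -/
theorem tp_four {A B : R} (h2 : (2 : F) = 0) (hA : A * A = 0) (hB : B * B = 0) (hAB : A * B = 0) :
    ((1 + A) * (1 + B)) ^ 2 = 1 + B * A ∧ ((1 + A) * (1 + B)) ^ 4 = 1 := by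
  have h1 : ((1 + A) * (1 + B)) ^ 2 = 1 + B * A := by
    have e : ((1 + A) * (1 + B)) ^ 2 = 1 + A + B + A * B + (A + A * A + A * B + A * (A * B)) +
        (B + B * A + B * B + B * (A * B)) + (A * B + A * B * A + A * B * B + A * B * (A * B)) := by
      noncomm_ring
    have e2 : (1 : R) + A + B + 0 + (A + 0 + 0 + 0) + (B + B * A + 0 + 0) + (0 + 0 + 0 + 0) =
        1 + B * A + (2 : F) • (A + B) := by module
    rw [e, hA, hB, hAB]
    simp only [mul_zero, zero_mul]
    rw [e2, h2, zero_smul, add_zero]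
  refine ⟨h1, ?_⟩
  have h3 : ((1 + A) * (1 + B)) ^ 4 = (((1 + A) * (1 + B)) ^ 2) ^ 2 := by rw [← pow_mul]
  have e : (1 + B * A) ^ 2 = 1 + B * A + B * A + B * (A * B) * A := by noncomm_ring
  have e2 : (1 : R) + B * A + B * A + 0 = 1 + (2 : F) • (B * A) := by module
  rw [h3, h1, e, hAB]
  simp only [mul_zero, zero_mul]
  rw [e2, h2, zero_smul, add_zero]

/-- In characteristic two: if `B A = 0` then `((1 + A)(1 + B))² = 1 + A B` and the fourth power is one. -/
theorem tp_four' {A B : R} (h2 : (2 : F) = 0) (hA : A * A = 0) (hB : B * B = 0) (hBA : B * A = 0) :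
    ((1 + A) * (1 + B)) ^ 2 = 1 + A * B ∧ ((1 + A) * (1 + B)) ^ 4 = 1 := by
  have h1 : ((1 + A) * (1 + B)) ^ 2 = 1 + A * B := by
    have e : ((1 + A) * (1 + B)) ^ 2 = 1 + A + B + A * B + (A + A * A + A * B + A * A * B) +
        (B + B * A + B * B + B * A * B) + (A * B + A * (B * A) + A * (B * B) + A * (B * A) * B) := by
      noncomm_ring
    have e2 : (1 : R) + A + B + A * B + (A + 0 + A * B + 0) + (B + 0 + 0 + 0) + (A * B + 0 + 0 + 0) =
        1 + A * B + (2 : F) • (A + B + A * B) := by module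
    rw [e, hA, hB, hBA]
    simp only [mul_zero, zero_mul]
    rw [e2, h2, zero_smul, add_zero]
  refine ⟨h1, ?_⟩
  have h3 : ((1 + A) * (1 + B)) ^ 4 = (((1 + A) * (1 + B)) ^ 2) ^ 2 := by rw [← pow_mul]
  have e : (1 + A * B) ^ 2 = 1 + A * B + A * B + A * (B * A) * B := by noncomm_ring
  have e2 : (1 : R) + A * B + A * B + 0 = 1 + (2 : F) • (A * B) := by module
  rw [h3, h1, e, hBA]
  simp only [mul_zero, zero_mul]
  rw [e2, h2, zero_smul, add_zero]

end AbstractPair

section Mat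

open Matrix

variable {ι : Type} [Fintype ι] [DecidableEq ι] {F : Type*} [Field F]

/-- The abstract transvections of `SL`: the matrices `1 + w χᵀ` with `w, χ ≠ 0` and `χ(w) = 0`. -/
def tvSet (ι : Type) [Fintype ι] [DecidableEq ι] (F : Type*) [Field F] :
    Set (Matrix.SpecialLinearGroup ι F) :=
  {t | ∃ w χ : ι → F, w ≠ 0 ∧ χ ≠ 0 ∧ χ ⬝ᵥ w = 0 ∧ (t : Matrix ι ι F) = 1 + vecMulVec w χ}

theorem sl_inv_mul (g : Matrix.SpecialLinearGroup ι F) :
    (↑(g⁻¹) : Matrix ι ι F) * (↑g : Matrix ι ι F) = 1 := by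
  rw [← Matrix.SpecialLinearGroup.coe_mul, inv_mul_cancel, Matrix.SpecialLinearGroup.coe_one]

theorem sl_mul_inv (g : Matrix.SpecialLinearGroup ι F) :
    (↑g : Matrix ι ι F) * (↑(g⁻¹) : Matrix ι ι F) = 1 := by
  rw [← Matrix.SpecialLinearGroup.coe_mul, mul_inv_cancel, Matrix.SpecialLinearGroup.coe_one]

theorem tvSet_conj {t : Matrix.SpecialLinearGroup ι F} (ht : t ∈ tvSet ι F)
    (g : Matrix.SpecialLinearGroup ι F) : g * t * g⁻¹ ∈ tvSet ι F := by
  obtain ⟨w, χ, hw, hχ, hχw, ht⟩ := ht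
  refine ⟨(g : Matrix ι ι F) *ᵥ w, χ ᵥ* (↑(g⁻¹) : Matrix ι ι F), ?_, ?_, ?_, ?_⟩
  · intro h
    apply hw
    have h1 := congrArg (fun z => (↑(g⁻¹) : Matrix ι ι F) *ᵥ z) h
    simp only [Matrix.mulVec_mulVec, sl_inv_mul, Matrix.one_mulVec, Matrix.mulVec_zero] at h1
    exact h1
  · intro h
    apply hχ
    have h1 := congrArg (fun z => z ᵥ* (↑g : Matrix ι ι F)) h
    simp only [Matrix.vecMul_vecMul, sl_inv_mul, Matrix.vecMul_one, Matrix.zero_vecMul] at h1
    exact h1
  · rw [Matrix.dotProduct_mulVec, Matrix.vecMul_vecMul, sl_inv_mul, Matrix.vecMul_one]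
    exact hχw
  · rw [Matrix.SpecialLinearGroup.coe_mul, Matrix.SpecialLinearGroup.coe_mul, ht, mul_add, add_mul,
      mul_one, sl_mul_inv, Matrix.mul_vecMulVec, Matrix.vecMulVec_mul]

theorem tvSet_ne_one {t : Matrix.SpecialLinearGroup ι F} (ht : t ∈ tvSet ι F) : t ≠ 1 := by
  obtain ⟨w, χ, hw, hχ, hχw, ht⟩ := ht
  intro h
  rw [h, Matrix.SpecialLinearGroup.coe_one] at ht
  have h1 : vecMulVec w χ = 0 := by
    have h2 : (1 : Matrix ι ι F) + 0 = 1 + vecMulVec w χ := by rw [add_zero]; exact ht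
    exact (add_left_cancel h2).symm
  exact Matrix.vecMulVec_ne_zero hw hχ h1

omit [DecidableEq ι] in
theorem vecMulVec_sq_zero {w χ : ι → F} (h : χ ⬝ᵥ w = 0) :
    vecMulVec w χ * vecMulVec w χ = 0 := by
  rw [Matrix.vecMulVec_mul_vecMulVec, h, zero_smul, Matrix.vecMulVec_zero]

theorem tvSet_mul_self [CharP F 2] {t : Matrix.SpecialLinearGroup ι F} (ht : t ∈ tvSet ι F) :
    t * t = 1 := by
  obtain ⟨w, χ, hw, hχ, hχw, ht⟩ := ht
  apply Subtype.ext
  rw [Matrix.SpecialLinearGroup.coe_mul, ht, Matrix.SpecialLinearGroup.coe_one]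
  have e : (1 + vecMulVec w χ) * (1 + vecMulVec w χ) =
      1 + (2 : F) • vecMulVec w χ + vecMulVec w χ * vecMulVec w χ := by
    rw [two_smul]
    noncomm_ring
  rw [e, vecMulVec_sq_zero hχw, CharTwo.two_eq_zero, zero_smul, add_zero, add_zero]

omit [Fintype ι] in
theorem single_eq_vecMulVec (i j : ι) (c : F) :
    Matrix.single i j c = vecMulVec (Pi.single i c) (Pi.single j (1 : F)) := by
  ext a b
  rw [Matrix.single_apply, Matrix.vecMulVec_apply, Pi.single_apply, Pi.single_apply]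
  by_cases h1 : a = i
  · by_cases h2 : b = j
    · subst h1 h2
      simp
    · subst h1
      have h3 : ¬ j = b := fun h => h2 h.symm
      simp [h2, h3]
  · have h3 : ¬ i = a := fun h => h1 h.symm
    simp [h1, h3]

theorem transvection_mem_tvSet {i j : ι} (hij : i ≠ j) {c : F} (hc : c ≠ 0) :
    Matrix.SpecialLinearGroup.transvection hij c ∈ tvSet ι F := by
  refine ⟨Pi.single i c, Pi.single j 1, ?_, ?_, ?_, ?_⟩
  · intro h
    have h1 := congrFun h i
    rw [Pi.single_eq_same] at h1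
    exact hc h1
  · intro h
    have h1 := congrFun h j
    rw [Pi.single_eq_same] at h1
    exact one_ne_zero h1
  · rw [single_dotProduct, one_mul, Pi.single_eq_of_ne hij.symm]
  · rw [← single_eq_vecMulVec]
    rfl

theorem closure_tvSet [Nontrivial ι] : Subgroup.closure (tvSet ι F) = ⊤ := by
  apply Cfsg.Agent.Lib.Helper47.eq_top_of_transvection_mem
  intro i j hij c
  by_cases hc : c = 0
  · rw [hc, Matrix.SpecialLinearGroup.transvection_coeff_zero]
    exact Subgroup.one_mem _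
  · exact Subgroup.subset_closure (transvection_mem_tvSet hij hc)

/-- A transvection moving `x` to `y`, fixing every functional that agrees on `x` and `y`. -/
theorem exists_sl_move {x y : ι → F} (hxy : x ∉ Submodule.span F {y - x}) :
    ∃ g : Matrix.SpecialLinearGroup ι F, (g : Matrix ι ι F) *ᵥ x = y ∧
      ∀ ρ : ι → F, ρ ⬝ᵥ x = ρ ⬝ᵥ y → ρ ᵥ* (g : Matrix ι ι F) = ρ := by
  obtain ⟨φ, hφP, hφx⟩ := Cfsg.Agent.Lib.Helper97.exists_dot (Submodule.span F {y - x}) x hxy
  have hφd : φ ⬝ᵥ (y - x) = 0 := hφP _ (Submodule.mem_span_singleton_self _)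
  refine ⟨⟨1 + vecMulVec (y - x) φ, Cfsg.Agent.Lib.Helper97.tv_det hφd⟩, ?_, ?_⟩
  · show (1 + vecMulVec (y - x) φ) *ᵥ x = y
    rw [Matrix.add_mulVec, Matrix.one_mulVec, Matrix.vecMulVec_mulVec, hφx, MulOpposite.op_one,
      one_smul, add_sub_cancel]
  · intro ρ hρ
    show ρ ᵥ* (1 + vecMulVec (y - x) φ) = ρ
    rw [Matrix.vecMul_add, Matrix.vecMul_one, Matrix.vecMul_vecMulVec, dotProduct_sub, hρ, sub_self,
      zero_smul, add_zero]

/-- A transvection moving the functional `χ` to `ψ`, fixing every vector on which they agree. -/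
theorem exists_sl_move_dual {χ ψ : ι → F} (h : χ ∉ Submodule.span F {ψ - χ}) :
    ∃ g : Matrix.SpecialLinearGroup ι F, χ ᵥ* (g : Matrix ι ι F) = ψ ∧
      ∀ z : ι → F, χ ⬝ᵥ z = ψ ⬝ᵥ z → (g : Matrix ι ι F) *ᵥ z = z := by
  obtain ⟨v, hvP, hvχ⟩ := Cfsg.Agent.Lib.Helper97.exists_dot (Submodule.span F {ψ - χ}) χ h
  have hvd : (ψ - χ) ⬝ᵥ v = 0 := by
    rw [dotProduct_comm]
    exact hvP _ (Submodule.mem_span_singleton_self _)
  refine ⟨⟨1 + vecMulVec v (ψ - χ), Cfsg.Agent.Lib.Helper97.tv_det hvd⟩, ?_, ?_⟩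
  · show χ ᵥ* (1 + vecMulVec v (ψ - χ)) = ψ
    rw [Matrix.vecMul_add, Matrix.vecMul_one, Matrix.vecMul_vecMulVec, dotProduct_comm, hvχ,
      one_smul, add_sub_cancel]
  · intro z hz
    show (1 + vecMulVec v (ψ - χ)) *ᵥ z = z
    rw [Matrix.add_mulVec, Matrix.one_mulVec, Matrix.vecMulVec_mulVec, sub_dotProduct, hz, sub_self,
      MulOpposite.op_zero, zero_smul, add_zero]

omit [Fintype ι] in
theorem single_ne_zero' (i : ι) : (Pi.single i (1 : F) : ι → F) ≠ 0 := by
  intro h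
  have h1 := congrFun h i
  rw [Pi.single_eq_same] at h1
  exact one_ne_zero h1

/-- `SL` moves a basis vector to any non-zero vector. -/
theorem exists_sl_single {i j : ι} (hij : i ≠ j) {w : ι → F} (hw : w ≠ 0) :
    ∃ g : Matrix.SpecialLinearGroup ι F, (g : Matrix ι ι F) *ᵥ Pi.single i 1 = w := by
  by_cases h : (Pi.single i (1 : F) : ι → F) ∈ Submodule.span F {w - Pi.single i 1}
  · obtain ⟨μ, hμ⟩ := Submodule.mem_span_singleton.1 h
    have hμ0 : μ ≠ 0 := by
      intro h0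
      rw [h0, zero_smul] at hμ
      exact single_ne_zero' i hμ.symm
    -- `w` vanishes away from `i`
    have hwk : ∀ k, k ≠ i → w k = 0 := by
      intro k hk
      have h1 := congrFun hμ k
      rw [Pi.smul_apply, Pi.sub_apply, Pi.single_eq_of_ne hk, sub_zero, smul_eq_mul] at h1
      rcases mul_eq_zero.1 h1 with h2 | h2
      · exact absurd h2 hμ0
      · exact h2
    have hwi : w i ≠ 0 := by
      intro h0
      apply hw
      funext k
      by_cases hk : k = i
      · rw [hk, h0]; rfl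
      · exact hwk k hk
    -- first step: `e_i ↦ e_j`
    have s1 : (Pi.single i (1 : F) : ι → F) ∉ Submodule.span F {(Pi.single j (1 : F) : ι → F) - Pi.single i 1} := by
      intro h1
      obtain ⟨ν, hν⟩ := Submodule.mem_span_singleton.1 h1
      have h2 := congrFun hν j
      rw [Pi.smul_apply, Pi.sub_apply, Pi.single_eq_same, Pi.single_eq_of_ne hij.symm, sub_zero,
        smul_eq_mul, mul_one] at h2
      rw [h2, zero_smul] at hν
      exact single_ne_zero' i hν.symm
    have s2 : (Pi.single j (1 : F) : ι → F) ∉ Submodule.span F {w - Pi.single j 1} := by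
      intro h1
      obtain ⟨ν, hν⟩ := Submodule.mem_span_singleton.1 h1
      have h2 := congrFun hν i
      rw [Pi.smul_apply, Pi.sub_apply, Pi.single_eq_of_ne hij, sub_zero, smul_eq_mul] at h2
      rcases mul_eq_zero.1 h2 with h3 | h3
      · rw [h3, zero_smul] at hν
        exact single_ne_zero' j hν.symm
      · exact hwi h3
    obtain ⟨g₁, hg₁, -⟩ := exists_sl_move s1
    obtain ⟨g₂, hg₂, -⟩ := exists_sl_move s2
    refine ⟨g₂ * g₁, ?_⟩
    rw [Matrix.SpecialLinearGroup.coe_mul, ← Matrix.mulVec_mulVec, hg₁, hg₂]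
  · obtain ⟨g, hg, -⟩ := exists_sl_move h
    exact ⟨g, hg⟩

/-- `SL` moves a non-zero functional vanishing at `e_i` to the `j`-th coordinate, fixing `e_i`. -/
theorem exists_sl_single_dual {i j k : ι} (hij : i ≠ j) (hik : i ≠ k) (hjk : j ≠ k) {χ : ι → F}
    (hχ : χ ≠ 0) (hχi : χ ⬝ᵥ Pi.single i 1 = 0) :
    ∃ g : Matrix.SpecialLinearGroup ι F, (g : Matrix ι ι F) *ᵥ Pi.single i 1 = Pi.single i 1 ∧
      χ ᵥ* (g : Matrix ι ι F) = Pi.single j 1 := by
  have hji : (Pi.single j (1 : F) : ι → F) ⬝ᵥ Pi.single i 1 = 0 := by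
    rw [single_dotProduct, one_mul, Pi.single_eq_of_ne hij.symm]
  have hki : (Pi.single k (1 : F) : ι → F) ⬝ᵥ Pi.single i 1 = 0 := by
    rw [single_dotProduct, one_mul, Pi.single_eq_of_ne hik.symm]
  by_cases h : χ ∈ Submodule.span F {(Pi.single j (1 : F) : ι → F) - χ}
  · obtain ⟨μ, hμ⟩ := Submodule.mem_span_singleton.1 h
    have hχk : χ k = 0 := by
      have h1 := congrFun hμ k
      rw [Pi.smul_apply, Pi.sub_apply, Pi.single_eq_of_ne hjk.symm, zero_sub, smul_eq_mul] at h1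
      have h2 : (1 + μ) * χ k = 0 := by linear_combination (-1 : F) * h1
      rcases mul_eq_zero.1 h2 with h3 | h3
      · exfalso
        have h4 : μ = -1 := by
          rw [eq_neg_iff_add_eq_zero, add_comm]
          exact h3
        rw [h4] at hμ
        have h5 := congrFun hμ j
        rw [Pi.smul_apply, Pi.sub_apply, Pi.single_eq_same, smul_eq_mul] at h5
        have h6 : (1 : F) = 0 := by linear_combination (-1 : F) * h5
        exact one_ne_zero h6
      · exact h3
    have s1 : χ ∉ Submodule.span F {(Pi.single k (1 : F) : ι → F) - χ} := by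
      intro h1
      obtain ⟨ν, hν⟩ := Submodule.mem_span_singleton.1 h1
      have h2 := congrFun hν k
      rw [Pi.smul_apply, Pi.sub_apply, Pi.single_eq_same, hχk, sub_zero, smul_eq_mul, mul_one] at h2
      rw [h2, zero_smul] at hν
      exact hχ hν.symm
    have s2 : (Pi.single k (1 : F) : ι → F) ∉
        Submodule.span F {(Pi.single j (1 : F) : ι → F) - Pi.single k 1} := by
      intro h1
      obtain ⟨ν, hν⟩ := Submodule.mem_span_singleton.1 h1
      have h2 := congrFun hν j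
      rw [Pi.smul_apply, Pi.sub_apply, Pi.single_eq_same, Pi.single_eq_of_ne hjk, sub_zero,
        smul_eq_mul, mul_one] at h2
      rw [h2, zero_smul] at hν
      exact single_ne_zero' k hν.symm
    obtain ⟨g₁, hg₁, hg₁'⟩ := exists_sl_move_dual s1
    obtain ⟨g₂, hg₂, hg₂'⟩ := exists_sl_move_dual s2
    refine ⟨g₁ * g₂, ?_, ?_⟩
    · rw [Matrix.SpecialLinearGroup.coe_mul, ← Matrix.mulVec_mulVec, hg₂' _ (hki.trans hji.symm),
        hg₁' _ (hχi.trans hki.symm)]
    · rw [Matrix.SpecialLinearGroup.coe_mul, ← Matrix.vecMul_vecMul, hg₁, hg₂]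
  · obtain ⟨g, hg, hg'⟩ := exists_sl_move_dual h
    exact ⟨g, hg' _ (hχi.trans hji.symm), hg⟩

/-- Every abstract transvection is conjugate in `SL` to the standard one (three distinct indices). -/
theorem tvSet_conj_std {i j k : ι} (hij : i ≠ j) (hik : i ≠ k) (hjk : j ≠ k)
    {t : Matrix.SpecialLinearGroup ι F} (ht : t ∈ tvSet ι F) :
    ∃ g : Matrix.SpecialLinearGroup ι F, g⁻¹ * t * g = Matrix.SpecialLinearGroup.transvection hij 1 := by
  obtain ⟨w, χ, hw, hχ, hχw, ht⟩ := ht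
  obtain ⟨g₁, hg₁⟩ := exists_sl_single hij hw
  have hχ' : χ ᵥ* (g₁ : Matrix ι ι F) ≠ 0 := by
    intro h
    apply hχ
    have h1 := congrArg (fun z => z ᵥ* (↑(g₁⁻¹) : Matrix ι ι F)) h
    simp only [Matrix.vecMul_vecMul, sl_mul_inv, Matrix.vecMul_one, Matrix.zero_vecMul] at h1
    exact h1
  have hχ'i : (χ ᵥ* (g₁ : Matrix ι ι F)) ⬝ᵥ Pi.single i 1 = 0 := by
    rw [← Matrix.dotProduct_mulVec, hg₁]
    exact hχw
  obtain ⟨g₂, hg₂, hg₂'⟩ := exists_sl_single_dual hij hik hjk hχ' hχ'i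
  refine ⟨g₁ * g₂, ?_⟩
  have hG : ((g₁ * g₂ : Matrix.SpecialLinearGroup ι F) : Matrix ι ι F) =
      (g₁ : Matrix ι ι F) * (g₂ : Matrix ι ι F) := Matrix.SpecialLinearGroup.coe_mul g₁ g₂
  have hGe : ((g₁ : Matrix ι ι F) * (g₂ : Matrix ι ι F)) *ᵥ Pi.single i 1 = w := by
    rw [← Matrix.mulVec_mulVec, hg₂, hg₁]
  have hGχ : χ ᵥ* ((g₁ : Matrix ι ι F) * (g₂ : Matrix ι ι F)) = Pi.single j 1 := by
    rw [← Matrix.vecMul_vecMul, hg₂']
  have h1 : t * (g₁ * g₂) = (g₁ * g₂) * Matrix.SpecialLinearGroup.transvection hij 1 := by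
    apply Subtype.ext
    simp only [Matrix.SpecialLinearGroup.coe_mul]
    rw [ht, Matrix.SpecialLinearGroup.transvection_coe, single_eq_vecMulVec, add_mul, one_mul, mul_add,
      mul_one, Matrix.vecMulVec_mul, Matrix.mul_vecMulVec, hGχ, hGe]
  rw [mul_assoc, h1, ← mul_assoc, inv_mul_cancel, one_mul]

end Mat

section Pair

open Matrix

variable {ι : Type} [Fintype ι] [DecidableEq ι] {F : Type*} [Field F] [CharP F 2]

/-- The three cases for a pair of transvections in characteristic two. -/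
theorem tvSet_pair_cases {a b : Matrix.SpecialLinearGroup ι F} (ha : a ∈ tvSet ι F)
    (hb : b ∈ tvSet ι F) :
    a * b = b * a ∨ ((a * b) ^ 4 = 1 ∧ (a * b) ^ 2 ∈ tvSet ι F) ∨
    ∃ τ : F, τ ≠ 0 ∧ (∀ m : ℕ, (a * b) ^ m * (a * b) ^ m = 1 → (a * b) ^ m = 1) ∧
      (τ = 1 → (a * b) ^ 3 = 1) := by
  obtain ⟨u, φ, hu, hφ, hφu, ha⟩ := ha
  obtain ⟨v, ψ, hv, hψ, hψv, hb⟩ := hb
  have h2 : (2 : F) = 0 := CharTwo.two_eq_zero
  have hAA := vecMulVec_sq_zero hφu
  have hBB := vecMulVec_sq_zero hψv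
  have hAB : vecMulVec u φ * vecMulVec v ψ = (φ ⬝ᵥ v) • vecMulVec u ψ := by
    rw [Matrix.vecMulVec_mul_vecMulVec, Matrix.vecMulVec_smul]
  have hBA : vecMulVec v ψ * vecMulVec u φ = (ψ ⬝ᵥ u) • vecMulVec v φ := by
    rw [Matrix.vecMulVec_mul_vecMulVec, Matrix.vecMulVec_smul]
  have hcoe : ∀ m : ℕ, (((a * b) ^ m : Matrix.SpecialLinearGroup ι F) : Matrix ι ι F) =
      ((1 + vecMulVec u φ) * (1 + vecMulVec v ψ)) ^ m := by
    intro m
    rw [Matrix.SpecialLinearGroup.coe_pow, Matrix.SpecialLinearGroup.coe_mul, ha, hb]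
  by_cases hα : φ ⬝ᵥ v = 0
  · have hAB0 : vecMulVec u φ * vecMulVec v ψ = 0 := by rw [hAB, hα, zero_smul]
    by_cases hβ : ψ ⬝ᵥ u = 0
    · left
      have hBA0 : vecMulVec v ψ * vecMulVec u φ = 0 := by rw [hBA, hβ, zero_smul]
      apply Subtype.ext
      rw [Matrix.SpecialLinearGroup.coe_mul, Matrix.SpecialLinearGroup.coe_mul, ha, hb]
      have e1 : (1 + vecMulVec u φ) * (1 + vecMulVec v ψ) =
          1 + vecMulVec u φ + vecMulVec v ψ + vecMulVec u φ * vecMulVec v ψ := by noncomm_ring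
      have e2 : (1 + vecMulVec v ψ) * (1 + vecMulVec u φ) =
          1 + vecMulVec u φ + vecMulVec v ψ + vecMulVec v ψ * vecMulVec u φ := by noncomm_ring
      rw [e1, e2, hAB0, hBA0]
    · right; left
      obtain ⟨h1, h4⟩ := tp_four h2 hAA hBB hAB0
      refine ⟨?_, ?_⟩
      · apply Subtype.ext
        rw [hcoe, h4, Matrix.SpecialLinearGroup.coe_one]
      · refine ⟨(ψ ⬝ᵥ u) • v, φ, smul_ne_zero hβ hv, hφ, ?_, ?_⟩
        · rw [dotProduct_smul, hα, smul_zero]
        · rw [hcoe, h1, hBA, Matrix.smul_vecMulVec]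
  · by_cases hβ : ψ ⬝ᵥ u = 0
    · right; left
      have hBA0 : vecMulVec v ψ * vecMulVec u φ = 0 := by rw [hBA, hβ, zero_smul]
      obtain ⟨h1, h4⟩ := tp_four' h2 hAA hBB hBA0
      refine ⟨?_, ?_⟩
      · apply Subtype.ext
        rw [hcoe, h4, Matrix.SpecialLinearGroup.coe_one]
      · refine ⟨(φ ⬝ᵥ v) • u, ψ, smul_ne_zero hα hu, hψ, ?_, ?_⟩
        · rw [dotProduct_smul, hβ, smul_zero]
        · rw [hcoe, h1, hAB, Matrix.smul_vecMulVec]
    · right; right
      have hABA : vecMulVec u φ * vecMulVec v ψ * vecMulVec u φ =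
          ((φ ⬝ᵥ v) * (ψ ⬝ᵥ u)) • vecMulVec u φ := by
        rw [hAB, smul_mul_assoc, Matrix.vecMulVec_mul_vecMulVec, Matrix.vecMulVec_smul, smul_smul]
      have hBAB : vecMulVec v ψ * vecMulVec u φ * vecMulVec v ψ =
          ((φ ⬝ᵥ v) * (ψ ⬝ᵥ u)) • vecMulVec v ψ := by
        rw [hBA, smul_mul_assoc, Matrix.vecMulVec_mul_vecMulVec, Matrix.vecMulVec_smul, smul_smul,
          mul_comm]
      refine ⟨(φ ⬝ᵥ v) * (ψ ⬝ᵥ u), mul_ne_zero hα hβ, ?_, ?_⟩
      · intro m hm
        apply Subtype.ext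
        rw [hcoe, Matrix.SpecialLinearGroup.coe_one]
        apply tp_invol h2 (mul_ne_zero hα hβ) (Matrix.vecMulVec_ne_zero hu hφ) hAA hBB hABA hBAB m
        rw [← hcoe, ← Matrix.SpecialLinearGroup.coe_mul, hm, Matrix.SpecialLinearGroup.coe_one]
      · intro hτ
        apply Subtype.ext
        rw [hcoe, Matrix.SpecialLinearGroup.coe_one]
        rw [hτ] at hABA hBAB
        exact tp_cube h2 hAA hBB hABA hBAB

end Pair

theorem odd_orderOf_of_invol {G : Type*} [Group G] [Finite G] {x : G}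
    (h : ∀ m : ℕ, x ^ m * x ^ m = 1 → x ^ m = 1) : Odd (orderOf x) := by
  by_contra hodd
  rw [Nat.not_odd_iff_even] at hodd
  obtain ⟨m, hm⟩ := hodd
  have h1 : x ^ m * x ^ m = 1 := by rw [← pow_add, ← hm, pow_orderOf_eq_one]
  have h2 := orderOf_dvd_of_pow_eq_one (h m h1)
  have h3 : 0 < orderOf x := orderOf_pos x
  have h4 : 0 < m := by omega
  have h5 := Nat.le_of_dvd h4 h2
  omega

theorem eq_zero_or_one_of_card_two {F : Type*} [Field F] [Fintype F] (h : Fintype.card F = 2)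
    (x : F) : x = 0 ∨ x = 1 := by
  classical
  by_contra hx
  push Not at hx
  have h3 : ({0, 1, x} : Finset F).card = 3 := by
    rw [Finset.card_insert_of_notMem, Finset.card_insert_of_notMem, Finset.card_singleton]
    · rw [Finset.mem_singleton]
      exact hx.2.symm
    · rw [Finset.mem_insert, Finset.mem_singleton]
      rintro (h1 | h1)
      · exact zero_ne_one h1
      · exact hx.1 h1.symm
  have h4 := Finset.card_le_univ ({0, 1, x} : Finset F)
  omega

/-- S5058: the transvections of `SL_{n+3}(F)`, `F` finite of characteristic two, form a class of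
root involutions; for `|F| = 2` they are `{3,4}⁺`-transpositions. -/
theorem sl_transvections_root (F : Type*) [Field F] [Fintype F] [CharP F 2] (n : ℕ) :
    Cfsg.IsRootInvolutionClass {t : Matrix.SpecialLinearGroup (Fin (n + 3)) F | ∃ c : F, c ≠ 0 ∧
        ∃ g : Matrix.SpecialLinearGroup (Fin (n + 3)) F, ((g⁻¹ * t * g : Matrix.SpecialLinearGroup (Fin (n + 3)) F) :
          Matrix (Fin (n + 3)) (Fin (n + 3)) F) = Matrix.transvection 0 1 c} ∧
    (Fintype.card F = 2 → Cfsg.IsThreeFourPlusTranspositionSet {t : Matrix.SpecialLinearGroup (Fin (n + 3)) F | ∃ c : F, c ≠ 0 ∧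
        ∃ g : Matrix.SpecialLinearGroup (Fin (n + 3)) F, ((g⁻¹ * t * g : Matrix.SpecialLinearGroup (Fin (n + 3)) F) :
          Matrix (Fin (n + 3)) (Fin (n + 3)) F) = Matrix.transvection 0 1 c}) := by
  have h01 : (0 : Fin (n + 3)) ≠ 1 := by
    intro h
    have h' := congrArg Fin.val h
    rw [Fin.val_zero, Fin.val_one] at h'
    exact absurd h' (by norm_num)
  have h02 : (0 : Fin (n + 3)) ≠ 2 := by
    intro h
    have h' := congrArg Fin.val h
    rw [Fin.val_zero, Fin.val_two] at h'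
    exact absurd h' (by norm_num)
  have h12 : (1 : Fin (n + 3)) ≠ 2 := by
    intro h
    have h' := congrArg Fin.val h
    rw [Fin.val_one, Fin.val_two] at h'
    exact absurd h' (by norm_num)
  have hD : {t : Matrix.SpecialLinearGroup (Fin (n + 3)) F | ∃ c : F, c ≠ 0 ∧
        ∃ g : Matrix.SpecialLinearGroup (Fin (n + 3)) F, ((g⁻¹ * t * g : Matrix.SpecialLinearGroup (Fin (n + 3)) F) :
          Matrix (Fin (n + 3)) (Fin (n + 3)) F) = Matrix.transvection 0 1 c} = tvSet (Fin (n + 3)) F := by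
    ext t
    constructor
    · rintro ⟨c, hc, g, hg⟩
      have h1 : g⁻¹ * t * g ∈ tvSet (Fin (n + 3)) F := by
        have h2 : g⁻¹ * t * g = Matrix.SpecialLinearGroup.transvection h01 c := Subtype.ext hg
        rw [h2]
        exact transvection_mem_tvSet h01 hc
      have h3 := tvSet_conj h1 g
      have h4 : g * (g⁻¹ * t * g) * g⁻¹ = t := by group
      rw [h4] at h3
      exact h3
    · intro ht
      obtain ⟨g, hg⟩ := tvSet_conj_std h01 h02 h12 ht
      refine ⟨1, one_ne_zero, g, ?_⟩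
      rw [hg]
      rfl
  rw [hD]
  have hinv : Cfsg.IsRootInvolutionSet (tvSet (Fin (n + 3)) F) := by
    refine ⟨?_, closure_tvSet, ?_, ?_⟩
    · intro d hd
      exact orderOf_eq_prime (by rw [pow_two]; exact tvSet_mul_self hd) (tvSet_ne_one hd)
    · intro d hd g
      exact tvSet_conj hd g
    · intro a ha b hb
      rcases tvSet_pair_cases ha hb with h | ⟨h4, h2⟩ | ⟨τ, hτ, hm, -⟩
      · exact Or.inl h
      · right; right
        refine ⟨?_, h2⟩
        have h5 := orderOf_eq_prime_pow (p := 2) (n := 1) (x := a * b)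
          (by rw [pow_one]; exact tvSet_ne_one h2) (by norm_num; exact h4)
        norm_num at h5
        exact h5
      · right; left
        exact odd_orderOf_of_invol hm
  refine ⟨⟨hinv, ⟨_, transvection_mem_tvSet h01 one_ne_zero⟩, ?_⟩, ?_⟩
  · intro a ha b hb
    obtain ⟨g₁, hg₁⟩ := tvSet_conj_std h01 h02 h12 ha
    obtain ⟨g₂, hg₂⟩ := tvSet_conj_std h01 h02 h12 hb
    refine ⟨g₂ * g₁⁻¹, ?_⟩
    have hb' : b = g₂ * (g₂⁻¹ * b * g₂) * g₂⁻¹ := by group
    have ha' : g₂ * g₁⁻¹ * a * (g₂ * g₁⁻¹)⁻¹ = g₂ * (g₁⁻¹ * a * g₁) * g₂⁻¹ := by group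
    rw [ha', hg₁, ← hg₂]
    exact hb'
  · intro hF
    refine ⟨hinv, ?_⟩
    intro a ha b hb hodd
    rcases tvSet_pair_cases ha hb with h | ⟨h4, h2⟩ | ⟨τ, hτ, -, h3⟩
    · left
      have h1 : (a * b) ^ 2 = 1 := by
        rw [pow_two]
        calc a * b * (a * b) = a * (b * a) * b := by group
          _ = a * (a * b) * b := by rw [h]
          _ = (a * a) * (b * b) := by group
          _ = 1 := by rw [tvSet_mul_self ha, tvSet_mul_self hb, one_mul]
      have h5 := orderOf_dvd_of_pow_eq_one h1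
      rcases (Nat.dvd_prime Nat.prime_two).1 h5 with h6 | h6
      · exact h6
      · rw [h6] at hodd
        exact absurd hodd (by decide)
    · exfalso
      have h5 := orderOf_eq_prime_pow (p := 2) (n := 1) (x := a * b)
        (by rw [pow_one]; exact tvSet_ne_one h2) (by norm_num; exact h4)
      rw [h5] at hodd
      exact absurd hodd (by decide)
    · have hτ1 : τ = 1 := (eq_zero_or_one_of_card_two hF τ).resolve_left hτ
      have h5 := orderOf_dvd_of_pow_eq_one (h3 hτ1)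
      exact (Nat.dvd_prime Nat.prime_three).1 h5

end Cfsg.Agent.Lib.Helper87
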