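import Cfsg.Agent.Lib.Helper46.BSW0

/-!
# S3282 piece G0 (helper87): transport of the Brauer–Suzuki–Wall set-up to another involution
-/

set_option autoImplicit false

namespace Cfsg.Agent.Lib.Helper87.BSWG0

universe u

variable {G : Type u} [Group G]

theorem mem_map_conj (S : Subgroup G) (g x : G) :
    x ∈ S.map (MulAut.conj g).toMonoidHom ↔ g⁻¹ * x * g ∈ S := by
  constructor
  · rintro ⟨y, hy, rfl⟩
    have : g⁻¹ * ((MulAut.conj g).toMonoidHom y) * g = y := by
      simp [MulAut.conj_apply, mul_assoc]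
    rw [this]; exact hy
  · intro hx
    refine ⟨g⁻¹ * x * g, hx, ?_⟩
    simp [MulAut.conj_apply, mul_assoc]

theorem cent_conj (g t x : G) :
    g⁻¹ * x * g ∈ Subgroup.centralizer ({t} : Set G) ↔
      x ∈ Subgroup.centralizer ({g * t * g⁻¹} : Set G) := by
  rw [Subgroup.mem_centralizer_iff, Subgroup.mem_centralizer_iff]
  simp only [Set.mem_singleton_iff, forall_eq]
  constructor
  · intro h
    calc g * t * g⁻¹ * x = g * (t * (g⁻¹ * x * g)) * g⁻¹ := by group
      _ = g * ((g⁻¹ * x * g) * t) * g⁻¹ := by rw [h]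
      _ = x * (g * t * g⁻¹) := by group
  · intro h
    calc t * (g⁻¹ * x * g) = g⁻¹ * ((g * t * g⁻¹) * x) * g := by group
      _ = g⁻¹ * (x * (g * t * g⁻¹)) * g := by rw [h]
      _ = g⁻¹ * x * g * t := by group

end Cfsg.Agent.Lib.Helper87.BSWG0

namespace Cfsg.Agent.Lib.Helper46.BSW

open Cfsg.Agent.Lib.Helper87.BSWG0

universe u

variable {G : Type u} [Group G]

/-! ### Piece G0 : transport to another involution -/
theorem setup_conj {t s : G} {K : Subgroup G} (h : Setup t s K) (u : G) (hu : orderOf u = 2) :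
    ∃ (s' : G) (K' : Subgroup G), Setup u s' K' ∧ Nat.card K' = Nat.card K ∧
      ∀ z : G, Off K' z ↔ Off K z := by
  obtain ⟨g, hg⟩ := isConj_iff.mp (h.hconj t u h.ht hu)
  subst hg
  have hmem : ∀ (S : Subgroup G) (x : G),
      x ∈ S.map (MulAut.conj g).toMonoidHom ↔ g⁻¹ * x * g ∈ S := fun S x => mem_map_conj S g x
  have hzp : ∀ a : G, Subgroup.zpowers (g * a * g⁻¹) =
      (Subgroup.zpowers a).map (MulAut.conj g).toMonoidHom := by
    intro a
    rw [MonoidHom.map_zpowers]
    rfl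
  refine ⟨g * s * g⁻¹, K.map (MulAut.conj g).toMonoidHom, ?_, ?_, ?_⟩
  · refine ⟨hu, ?_, ?_, ?_, ?_, ?_, ?_, ?_, ?_, ?_, ?_, h.hconj⟩
    · -- abelian
      intro a ha b hb
      rw [hmem] at ha hb
      have h1 := h.hKab _ ha _ hb
      calc a * b = g * ((g⁻¹ * a * g) * (g⁻¹ * b * g)) * g⁻¹ := by group
        _ = g * ((g⁻¹ * b * g) * (g⁻¹ * a * g)) * g⁻¹ := by rw [h1]
        _ = b * a := by group
    · -- K' ≤ C(u)
      intro x hx
      rw [hmem] at hx
      exact (cent_conj g t x).mp (h.hKH hx)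
    · -- u ∈ K'
      rw [hmem]
      have : g⁻¹ * (g * t * g⁻¹) * g = t := by group
      rw [this]; exact h.htK
    · -- order of s'
      have : g * s * g⁻¹ = (MulAut.conj g) s := by rw [MulAut.conj_apply]
      rw [this, MulEquiv.orderOf_eq]
      exact h.hs
    · -- s' ∈ C(u)
      apply (cent_conj g t _).mp
      have : g⁻¹ * (g * s * g⁻¹) * g = s := by group
      rw [this]; exact h.hsH
    · -- s' ∉ K'
      rw [hmem]
      have : g⁻¹ * (g * s * g⁻¹) * g = s := by group
      rw [this]; exact h.hsK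
    · -- K' ⊔ ⟨s'⟩ = C(u)
      rw [hzp, ← Subgroup.map_sup, h.hH]
      ext x
      rw [hmem]
      exact cent_conj g t x
    · -- K' ⊓ C(s') = ⟨u⟩
      ext x
      rw [Subgroup.mem_inf, hmem, ← cent_conj g s x, ← Subgroup.mem_inf, h.hCK, hzp, hmem]
    · -- s' inverts K'
      intro x hx
      rw [hmem] at hx
      have h1 := h.hinv _ hx
      calc g * s * g⁻¹ * x * (g * s * g⁻¹)⁻¹ = g * (s * (g⁻¹ * x * g) * s⁻¹) * g⁻¹ := by group
        _ = g * (g⁻¹ * x * g)⁻¹ * g⁻¹ := by rw [h1]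
        _ = x⁻¹ := by group
    · -- TI
      intro g' hg'
      have hg'' : g⁻¹ * g' * g ∉ Subgroup.centralizer ({t} : Set G) := fun hc =>
        hg' ((cent_conj g t g').mp hc)
      have hTI := h.hTI _ hg''
      rw [Subgroup.eq_bot_iff_forall] at hTI ⊢
      intro x hx
      rw [Subgroup.mem_inf, hmem, mem_map_conj, hmem] at hx
      have h1 : g⁻¹ * x * g = 1 := by
        apply hTI
        rw [Subgroup.mem_inf, mem_map_conj]
        refine ⟨hx.1, ?_⟩
        have : (g⁻¹ * g' * g)⁻¹ * (g⁻¹ * x * g) * (g⁻¹ * g' * g) = g⁻¹ * (g'⁻¹ * x * g') * g := by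
          group
        rw [this]; exact hx.2
      calc x = g * (g⁻¹ * x * g) * g⁻¹ := by group
        _ = 1 := by rw [h1]; group
  · exact Subgroup.card_map_of_injective (MulAut.conj g).injective
  · intro z
    constructor
    · intro hoff y hy
      apply hoff (g * y)
      rw [hmem]
      have : g⁻¹ * (g * y * z * (g * y)⁻¹) * g = y * z * y⁻¹ := by group
      rw [this]; exact hy
    · intro hoff y hy
      rw [hmem] at hy
      apply hoff (g⁻¹ * y)
      have : g⁻¹ * y * z * (g⁻¹ * y)⁻¹ = g⁻¹ * (y * z * y⁻¹) * g := by group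
      rw [this]; exact hy

end Cfsg.Agent.Lib.Helper46.BSW
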