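import Cfsg.Agent.Lib.Helper46.BSW0

/-!
# S3282 piece RR (helper87): real elements off `K` are strongly real
-/

set_option autoImplicit false

namespace Cfsg.Agent.Lib.Helper87.BSWRR

open Cfsg Cfsg.Agent.Lib.Helper46.BSW

universe u

variable {G : Type u} [Group G]

/-- `s * s = 1`. -/
theorem s_sq {t s : G} {K : Subgroup G} (h : Setup t s K) : s * s = 1 := by
  have := pow_orderOf_eq_one s
  rw [h.hs, pow_two] at this
  exact this

theorem s_inv {t s : G} {K : Subgroup G} (h : Setup t s K) : s⁻¹ = s :=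
  inv_eq_of_mul_eq_one_left (s_sq h)

/-- The subgroup `K ∪ K s`. -/
def bigSub {t s : G} {K : Subgroup G} (h : Setup t s K) : Subgroup G where
  carrier := {g | g ∈ K ∨ g * s⁻¹ ∈ K}
  one_mem' := Or.inl K.one_mem
  mul_mem' := by
    rintro a b (ha | ha) (hb | hb)
    · exact Or.inl (K.mul_mem ha hb)
    · right
      have : a * b * s⁻¹ = a * (b * s⁻¹) := by group
      rw [this]; exact K.mul_mem ha hb
    · right
      have h1 := h.hinv b hb
      have : a * b * s⁻¹ = (a * s⁻¹) * (s * b * s⁻¹) := by group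
      rw [this, h1]; exact K.mul_mem ha (K.inv_mem hb)
    · left
      have h1 := h.hinv _ hb
      have h2 : a * b = (a * s⁻¹) * (s * (b * s⁻¹) * s⁻¹) * (s * s) := by group
      rw [h2, h1, s_sq h, mul_one]
      exact K.mul_mem ha (K.inv_mem hb)
  inv_mem' := by
    rintro a (ha | ha)
    · exact Or.inl (K.inv_mem ha)
    · right
      have h1 := h.hinv _ ha
      have h2 : a⁻¹ * s⁻¹ = (s⁻¹ * s⁻¹) * (s * (a * s⁻¹) * s⁻¹)⁻¹ := by group
      have h3 : s⁻¹ * s⁻¹ = 1 := by rw [s_inv h, s_sq h]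
      rw [h2, h1, h3, one_mul, inv_inv]
      exact ha

theorem cent_mem {t s : G} {K : Subgroup G} (h : Setup t s K) :
    ∀ g ∈ Subgroup.centralizer ({t} : Set G), g ∈ K ∨ (g * s⁻¹ ∈ K ∧ orderOf g = 2) := by
  intro g hg
  rw [← h.hH] at hg
  have hle : K ⊔ Subgroup.zpowers s ≤ bigSub h := by
    refine sup_le (fun x hx => Or.inl hx) ?_
    rw [Subgroup.zpowers_le]
    right
    rw [mul_inv_cancel]; exact K.one_mem
  rcases hle hg with hK | hK
  · exact Or.inl hK
  · right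
    refine ⟨hK, ?_⟩
    have h1 := h.hinv _ hK
    have hsq : g ^ 2 = 1 := by
      have h2 : g * g = (g * s⁻¹) * (s * (g * s⁻¹) * s⁻¹) * (s * s) := by group
      rw [pow_two, h2, h1, s_sq h, mul_one, mul_inv_cancel]
    have hne : g ≠ 1 := by
      rintro rfl
      rw [one_mul] at hK
      exact h.hsK (by simpa using K.inv_mem hK)
    have : Fact (Nat.Prime 2) := ⟨Nat.prime_two⟩
    exact orderOf_eq_prime hsq hne

/-- An element centralised by an involution is conjugate into `K`. -/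
theorem invol_cent_not_off {t s : G} {K : Subgroup G} (h : Setup t s K) (v y : G)
    (hv : orderOf v = 2) (hvy : v * y = y * v) : ¬ Off K y := by
  intro hoff
  obtain ⟨c, hc⟩ := isConj_iff.mp (h.hconj t v h.ht hv)
  have hcent : c⁻¹ * y * c ∈ Subgroup.centralizer ({t} : Set G) := by
    rw [Subgroup.mem_centralizer_iff]
    intro x hx
    rw [Set.mem_singleton_iff] at hx
    subst hx
    calc x * (c⁻¹ * y * c) = c⁻¹ * ((c * x * c⁻¹) * y) * c := by group
      _ = c⁻¹ * (y * (c * x * c⁻¹)) * c := by rw [hc, hvy]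
      _ = c⁻¹ * y * c * x := by group
  rcases cent_mem h _ hcent with hK | ⟨-, ho⟩
  · apply hoff c⁻¹
    rw [inv_inv]; exact hK
  · obtain ⟨d, hd⟩ := isConj_iff.mp (h.hconj _ t ho h.ht)
    apply hoff (d * c⁻¹)
    have : d * c⁻¹ * y * (d * c⁻¹)⁻¹ = d * (c⁻¹ * y * c) * d⁻¹ := by group
    rw [this, hd]; exact h.htK

theorem off_ne_one {K : Subgroup G} (y : G) (hy : Off K y) : y ≠ 1 := by
  rintro rfl
  apply hy 1
  simp

theorem off_sq_ne_one {t s : G} {K : Subgroup G} (h : Setup t s K) (y : G) (hy : Off K y) :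
    y * y ≠ 1 := by
  intro hsq
  have : Fact (Nat.Prime 2) := ⟨Nat.prime_two⟩
  have ho : orderOf y = 2 := orderOf_eq_prime (by rw [pow_two]; exact hsq) (off_ne_one y hy)
  exact invol_cent_not_off h y y ho rfl hy

/-- If `g` inverts `y`, then even powers of `g` commute with `y`. -/
theorem inv_sq_comm (y g : G) (hg : g * y * g⁻¹ = y⁻¹) (m : ℕ) :
    (g ^ 2) ^ m * y = y * (g ^ 2) ^ m := by
  have h2 : Commute (g ^ 2) y := by
    have h3 : g ^ 2 * y = (g * (g * y * g⁻¹) * g⁻¹) * g ^ 2 := by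
      rw [pow_two]; group
    have h4 : g * y⁻¹ * g⁻¹ = y := by
      have : g * y⁻¹ * g⁻¹ = (g * y * g⁻¹)⁻¹ := by group
      rw [this, hg, inv_inv]
    show g ^ 2 * y = y * g ^ 2
    rw [h3, hg, h4]
  exact (h2.pow_left m)

/-- If `g` inverts `y`, then odd powers of `g` invert `y`. -/
theorem inv_odd_pow (y g : G) (hg : g * y * g⁻¹ = y⁻¹) (b : ℕ) (hb : Odd b) :
    g ^ b * y * (g ^ b)⁻¹ = y⁻¹ := by
  obtain ⟨m, rfl⟩ := hb
  have h1 := inv_sq_comm y g hg m
  have h2 : g ^ (2 * m + 1) * y * (g ^ (2 * m + 1))⁻¹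
      = (g ^ 2) ^ m * (g * y * g⁻¹) * ((g ^ 2) ^ m)⁻¹ := by
    rw [pow_succ, pow_mul]; group
  rw [h2, hg]
  have h3 : (g ^ 2) ^ m * y⁻¹ = y⁻¹ * (g ^ 2) ^ m := by
    have : (g ^ 2) ^ m * y⁻¹ = y⁻¹ * (y * (g ^ 2) ^ m) * y⁻¹ := by group
    rw [this, ← h1]; group
  rw [h3]; group

end Cfsg.Agent.Lib.Helper87.BSWRR

namespace Cfsg.Agent.Lib.Helper46.BSW

open Cfsg Cfsg.Agent.Lib.Helper87.BSWRR

universe u

variable {G : Type u} [Group G]

/-! ### Piece RR : real elements off `K` are strongly real -/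
theorem real_strongly_real [Finite G] {t s : G} {K : Subgroup G} (h : Setup t s K) (y : G)
    (hy : Off K y) (g : G) (hg : g * y * g⁻¹ = y⁻¹) :
    ∃ u : G, orderOf u = 2 ∧ u * y * u⁻¹ = y⁻¹ := by
  have hn : orderOf g ≠ 0 := (orderOf_pos g).ne'
  obtain ⟨a, b, hb, hab⟩ := Nat.exists_eq_two_pow_mul_odd hn
  have hg' : g ^ b * y * (g ^ b)⁻¹ = y⁻¹ := inv_odd_pow y g hg b hb
  set g' := g ^ b with hg'def
  have hpow : g' ^ (2 ^ a) = 1 := by
    rw [hg'def, ← pow_mul, mul_comm, ← hab]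
    exact pow_orderOf_eq_one g
  obtain ⟨c, -, hc⟩ := (Nat.dvd_prime_pow Nat.prime_two).mp (orderOf_dvd_of_pow_eq_one hpow)
  have hyy : y⁻¹ ≠ y := by
    intro hyy
    apply off_sq_ne_one h y hy
    calc y * y = y⁻¹ * y := by rw [hyy]
      _ = 1 := by group
  have hc0 : c ≠ 0 := by
    rintro rfl
    rw [pow_zero, orderOf_eq_one_iff] at hc
    rw [hc] at hg'
    apply hyy
    rw [← hg']; group
  obtain ⟨d, rfl⟩ := Nat.exists_eq_succ_of_ne_zero hc0
  -- the involution `v = g' ^ (2 ^ d)`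
  have hvsq : (g' ^ (2 ^ d)) ^ 2 = 1 := by
    rw [← pow_mul, ← pow_succ, ← hc]
    exact pow_orderOf_eq_one g'
  have hvne : g' ^ (2 ^ d) ≠ 1 := by
    intro h1
    have h2 := orderOf_dvd_of_pow_eq_one h1
    rw [hc] at h2
    have h3 := Nat.le_of_dvd (by positivity) h2
    have h4 : 2 ^ d < 2 ^ (d + 1) := Nat.pow_lt_pow_right (by norm_num) (Nat.lt_succ_self d)
    omega
  have : Fact (Nat.Prime 2) := ⟨Nat.prime_two⟩
  have hvo : orderOf (g' ^ (2 ^ d)) = 2 := orderOf_eq_prime hvsq hvne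
  rcases Nat.eq_zero_or_pos d with hd | hd
  · subst hd
    refine ⟨g', ?_, hg'⟩
    simpa using hvo
  · exfalso
    obtain ⟨e, rfl⟩ := Nat.exists_eq_succ_of_ne_zero hd.ne'
    have hcomm := inv_sq_comm y g' hg' (2 ^ e)
    rw [← pow_mul, ← pow_succ'] at hcomm
    exact invol_cent_not_off h _ y hvo hcomm hy

theorem not_real [Finite G] {t s : G} {K : Subgroup G} (h : Setup t s K) (Δ : IrrCharacter G)
    (hA : Stage1a K (-1) Δ) (y : G) (hy : Off K y) (hy0 : (Δ : G → ℂ) y = 0) :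
    ¬ IsConj y y⁻¹ := by
  intro hconj
  obtain ⟨g, hg⟩ := isConj_iff.mp hconj
  obtain ⟨u, hu, huy⟩ := real_strongly_real h y hy g hg
  have h1 := hA.inv_neg rfl y hy
  rw [hy0, mul_zero] at h1
  have h2 : invCount y = 0 := by exact_mod_cast h1
  have h3 : 0 < invCount y := by
    unfold invCount
    have : Nonempty {u : G // orderOf u = 2 ∧ u * y * u⁻¹ = y⁻¹} := ⟨⟨u, hu, huy⟩⟩
    exact Nat.card_pos
  omega

end Cfsg.Agent.Lib.Helper46.BSW
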