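import Cfsg.Agent.Lib.Helper87.BSWG0
import Cfsg.Agent.Lib.Helper87.BSWRR

/-!
# S3282 piece G2 (helper87): pairs of involutions with product in `K`
-/

set_option autoImplicit false

namespace Cfsg.Agent.Lib.Helper87.BSWG2

open Cfsg Cfsg.Agent.Lib.Helper46.BSW Cfsg.Agent.Lib.Helper87.BSWRR Cfsg.Agent.Lib.Helper87.BSWG0

universe u

variable {G : Type u} [Group G]

theorem t_sq {t s : G} {K : Subgroup G} (h : Setup t s K) : t * t = 1 := by
  have := pow_orderOf_eq_one t
  rw [h.ht, pow_two] at this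
  exact this

/-- The elements of `K` of square one are `1` and `t`. -/
theorem sq_mem {t s : G} {K : Subgroup G} (h : Setup t s K) :
    ∀ x ∈ K, x * x = 1 → x = 1 ∨ x = t := by
  intro x hx hxx
  have hxinv : x⁻¹ = x := inv_eq_of_mul_eq_one_left hxx
  have h1 := h.hinv x hx
  rw [hxinv] at h1
  have hcs : x ∈ Subgroup.centralizer ({s} : Set G) := by
    rw [Subgroup.mem_centralizer_iff]
    intro y hy
    rw [Set.mem_singleton_iff] at hy
    subst hy
    calc y * x = (y * x * y⁻¹) * y := by group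
      _ = x * y := by rw [h1]
  have hmem : x ∈ K ⊓ Subgroup.centralizer ({s} : Set G) := ⟨hx, hcs⟩
  rw [h.hCK, Subgroup.mem_zpowers_iff] at hmem
  obtain ⟨k, hk⟩ := hmem
  rw [← zpow_mod_orderOf, h.ht] at hk
  have h2 : k % (2 : ℕ) = 0 ∨ k % (2 : ℕ) = 1 := by
    have := Int.emod_two_eq_zero_or_one k
    simpa using this
  rcases h2 with h2 | h2
  · left; rw [h2, zpow_zero] at hk; exact hk.symm
  · right; rw [h2, zpow_one] at hk; exact hk.symm

/-- Elements of the coset `K s` are involutions. -/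
theorem coset_order {t s : G} {K : Subgroup G} (h : Setup t s K) (g : G) (hK : g * s⁻¹ ∈ K) :
    orderOf g = 2 := by
  have h1 := h.hinv _ hK
  have hsq : g ^ 2 = 1 := by
    have h2 : g * g = (g * s⁻¹) * (s * (g * s⁻¹) * s⁻¹) * (s * s) := by group
    rw [pow_two, h2, h1, s_sq h, mul_one, mul_inv_cancel]
  have hne : g ≠ 1 := by
    rintro rfl
    rw [one_mul] at hK
    exact h.hsK (by simpa using K.inv_mem hK)
  have : Fact (Nat.Prime 2) := ⟨Nat.prime_two⟩
  exact orderOf_eq_prime hsq hne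

theorem isConj_iff_order {t s : G} {K : Subgroup G} (h : Setup t s K) (g : G) :
    IsConj t g ↔ orderOf g = 2 := by
  constructor
  · intro hc
    obtain ⟨c, hc⟩ := isConj_iff.mp hc
    have : c * t * c⁻¹ = (MulAut.conj c) t := by rw [MulAut.conj_apply]
    rw [← hc, this, MulEquiv.orderOf_eq]
    exact h.ht
  · intro ho
    exact h.hconj t g h.ht ho

/-- If `g` and `g⁻¹ z⁻¹` are involutions with `1 ≠ z ∈ K`, then `g ∈ K s`. -/
theorem pair_mem {t s : G} {K : Subgroup G} (h : Setup t s K) (z : G) (hz : z ∈ K)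
    (hz1 : z ≠ 1) (g : G) (hg : orderOf g = 2) (hgz : orderOf (g⁻¹ * z⁻¹) = 2) :
    g * s⁻¹ ∈ K := by
  have hgg : g * g = 1 := by
    have := pow_orderOf_eq_one g
    rw [hg, pow_two] at this
    exact this
  have hginv : g⁻¹ = g := inv_eq_of_mul_eq_one_left hgg
  have h2 : (g⁻¹ * z⁻¹) * (g⁻¹ * z⁻¹) = 1 := by
    have := pow_orderOf_eq_one (g⁻¹ * z⁻¹)
    rw [hgz, pow_two] at this
    exact this
  have h5 : g⁻¹ * z⁻¹ * g⁻¹ = z := by
    calc g⁻¹ * z⁻¹ * g⁻¹ = ((g⁻¹ * z⁻¹) * (g⁻¹ * z⁻¹)) * z := by group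
      _ = z := by rw [h2, one_mul]
  have h6 : g⁻¹ * z⁻¹ * g = z := by
    calc g⁻¹ * z⁻¹ * g = g⁻¹ * z⁻¹ * g⁻¹ := by rw [hginv]
      _ = z := h5
  have h3 : g⁻¹ * z * g = z⁻¹ := by
    calc g⁻¹ * z * g = (g⁻¹ * z⁻¹ * g)⁻¹ := by group
      _ = z⁻¹ := by rw [h6]
  have hcent : g ∈ Subgroup.centralizer ({t} : Set G) := by
    by_contra hnot
    have hTI := h.hTI g hnot
    rw [Subgroup.eq_bot_iff_forall] at hTI
    apply hz1
    apply hTI
    rw [Subgroup.mem_inf, mem_map_conj, h3]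
    exact ⟨hz, K.inv_mem hz⟩
  rcases cent_mem h g hcent with hK | ⟨hK, -⟩
  · exfalso
    have h4 : z⁻¹ = z := by
      rw [← h3]
      have := h.hKab _ (K.inv_mem hK) _ hz
      rw [this]; group
    have hzz : z * z = 1 := by
      calc z * z = z⁻¹ * z := by rw [h4]
        _ = 1 := by group
    have hzt : z = t := (sq_mem h z hz hzz).resolve_left hz1
    have hg1 : g ≠ 1 := by
      rintro rfl
      rw [orderOf_one] at hg
      omega
    have hgt : g = t := (sq_mem h g hK hgg).resolve_left hg1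
    rw [hzt, hgt] at hgz
    have : t⁻¹ * t⁻¹ = 1 := by
      have : t⁻¹ * t⁻¹ = (t * t)⁻¹ := by group
      rw [this, t_sq h, inv_one]
    rw [this, orderOf_one] at hgz
    omega
  · exact hK

/-- If `g ∈ K s` and `z ∈ K`, then `g⁻¹ z⁻¹` is an involution. -/
theorem pair_order {t s : G} {K : Subgroup G} (h : Setup t s K) (z : G) (hz : z ∈ K)
    (g : G) (hK : g * s⁻¹ ∈ K) : orderOf (g⁻¹ * z⁻¹) = 2 := by
  have h1 : g⁻¹ * z⁻¹ = (z * g)⁻¹ := by group
  rw [h1, orderOf_inv]
  apply coset_order h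
  have : z * g * s⁻¹ = z * (g * s⁻¹) := by group
  rw [this]
  exact K.mul_mem hz hK

end Cfsg.Agent.Lib.Helper87.BSWG2

namespace Cfsg.Agent.Lib.Helper46.BSW

open Cfsg Cfsg.Agent.Lib.Helper87.BSWG2

universe u

variable {G : Type u} [Group G]

/-! ### Piece G2 : pairs of involutions with product in `K` -/
open scoped Classical in
theorem setup_pairs [Fintype G] {t s : G} {K : Subgroup G} (h : Setup t s K) (z : G)
    (hz : z ∈ K) (hz1 : z ≠ 1) :
    ∑ g : G, ∑ h' : G, (if IsConj t g then (1 : ℂ) else 0) * (if IsConj t h' then (1 : ℂ) else 0)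
        * (if g * h' * z = 1 then (1 : ℂ) else 0) = (Nat.card K : ℂ) := by
  have hinner : ∀ g : G, ∑ h' : G, (if IsConj t g then (1 : ℂ) else 0)
        * (if IsConj t h' then (1 : ℂ) else 0) * (if g * h' * z = 1 then (1 : ℂ) else 0)
      = if g * s⁻¹ ∈ K then (1 : ℂ) else 0 := by
    intro g
    rw [Finset.sum_eq_single (g⁻¹ * z⁻¹)]
    · have hone : g * (g⁻¹ * z⁻¹) * z = 1 := by group
      rw [if_pos hone, mul_one]
      by_cases hgK : g * s⁻¹ ∈ K
      · rw [if_pos hgK, if_pos ((isConj_iff_order h g).mpr (coset_order h g hgK)),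
          if_pos ((isConj_iff_order h _).mpr (pair_order h z hz g hgK)), mul_one]
      · rw [if_neg hgK]
        by_cases h1 : IsConj t g
        · by_cases h2 : IsConj t (g⁻¹ * z⁻¹)
          · exact absurd (pair_mem h z hz hz1 g ((isConj_iff_order h g).mp h1)
              ((isConj_iff_order h _).mp h2)) hgK
          · rw [if_neg h2, mul_zero]
        · rw [if_neg h1, zero_mul]
    · intro b _ hb
      have hne : ¬ (g * b * z = 1) := by
        intro hb'
        apply hb
        calc b = g⁻¹ * (g * b * z) * z⁻¹ := by group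
          _ = g⁻¹ * z⁻¹ := by rw [hb', mul_one]
      rw [if_neg hne, mul_zero]
    · intro hnot; exact absurd (Finset.mem_univ _) hnot
  rw [Finset.sum_congr rfl (fun g _ => hinner g)]
  have hre : ∑ g : G, (if g * s⁻¹ ∈ K then (1 : ℂ) else 0)
      = ∑ x : G, (if x ∈ K then (1 : ℂ) else 0) :=
    Equiv.sum_comp (Equiv.mulRight s⁻¹) (fun x => if x ∈ K then (1 : ℂ) else 0)
  rw [hre, Finset.sum_boole]
  congr 1
  rw [Nat.card_eq_fintype_card, Fintype.card_subtype]

end Cfsg.Agent.Lib.Helper46.BSW
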