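import Mathlib
import Cfsg.Prelude.Def_RootSubgroups

set_option autoImplicit false

namespace Cfsg.Agent.Lib.Helper87

open Equiv Equiv.Perm

theorem small_list_cases (l : List ℕ) (h2 : ∀ x ∈ l, 2 ≤ x) (hs : l.sum ≤ 6)
    (hev : Even (l.sum + l.length)) :
    l = [] ∨ l = [3] ∨ l = [5] ∨ l = [2, 2] ∨ l = [2, 4] ∨ l = [4, 2] ∨ l = [3, 3] := by
  rw [Nat.even_iff] at hev
  match l, h2, hs, hev with
  | [], _, _, _ => exact Or.inl rfl
  | [a], h2, hs, hev =>
    have ha := h2 a (by simp)
    simp only [List.sum_cons, List.sum_nil, List.length_cons, List.length_nil] at hs hev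
    have : a = 3 ∨ a = 5 := by omega
    rcases this with rfl | rfl <;> simp
  | [a, b], h2, hs, hev =>
    have ha := h2 a (by simp)
    have hb := h2 b (by simp)
    simp only [List.sum_cons, List.sum_nil, List.length_cons, List.length_nil] at hs hev
    have : (a = 2 ∧ b = 2) ∨ (a = 2 ∧ b = 4) ∨ (a = 4 ∧ b = 2) ∨ (a = 3 ∧ b = 3) := by omega
    rcases this with ⟨rfl, rfl⟩ | ⟨rfl, rfl⟩ | ⟨rfl, rfl⟩ | ⟨rfl, rfl⟩ <;> simp
  | [a, b, c], h2, hs, hev =>
    have ha := h2 a (by simp)
    have hb := h2 b (by simp)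
    have hc := h2 c (by simp)
    simp only [List.sum_cons, List.sum_nil, List.length_cons, List.length_nil] at hs hev
    omega
  | a :: b :: c :: d :: l', h2, hs, _ =>
    have ha := h2 a (by simp)
    have hb := h2 b (by simp)
    have hc := h2 c (by simp)
    have hd := h2 d (by simp)
    simp only [List.sum_cons] at hs
    omega

/-- The cycle types of the even permutations of six points. -/
theorem cycleType_cases_alt_six (g : Perm (Fin 6)) (hg : Equiv.Perm.sign g = 1) :
    g.cycleType = 0 ∨ g.cycleType = {3} ∨ g.cycleType = {5} ∨ g.cycleType = {2, 2} ∨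
      g.cycleType = {2, 4} ∨ g.cycleType = {3, 3} := by
  have h2 : ∀ x ∈ g.cycleType, 2 ≤ x := fun x hx => Equiv.Perm.two_le_of_mem_cycleType hx
  have hs : g.cycleType.sum ≤ 6 := by
    have := g.sum_cycleType_le
    simpa using this
  have hev : Even (g.cycleType.sum + Multiset.card g.cycleType) := by
    have h1 := Equiv.Perm.sign_of_cycleType g
    rw [hg] at h1
    by_contra hodd
    rw [Nat.not_even_iff_odd] at hodd
    rw [hodd.neg_one_pow] at h1
    exact absurd h1 (by decide)
  revert h2 hs hev
  generalize g.cycleType = m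
  induction m using Quotient.inductionOn with
  | _ l =>
    intro h2 hs hev
    have h2' : ∀ x ∈ l, 2 ≤ x := fun x hx => h2 x (by simpa using hx)
    have hs' : l.sum ≤ 6 := by simpa using hs
    have hev' : Even (l.sum + l.length) := by simpa using hev
    rcases small_list_cases l h2' hs' hev' with rfl | rfl | rfl | rfl | rfl | rfl | rfl
    · exact Or.inl rfl
    · exact Or.inr (Or.inl rfl)
    · exact Or.inr (Or.inr (Or.inl rfl))
    · exact Or.inr (Or.inr (Or.inr (Or.inl rfl)))
    · exact Or.inr (Or.inr (Or.inr (Or.inr (Or.inl rfl))))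
    · exact Or.inr (Or.inr (Or.inr (Or.inr (Or.inl (Quotient.sound (List.Perm.swap 2 4 []))))))
    · exact Or.inr (Or.inr (Or.inr (Or.inr (Or.inr rfl))))

theorem orderOf_le_five_alt_six (g : Perm (Fin 6)) (hg : Equiv.Perm.sign g = 1) : orderOf g ≤ 5 := by
  rw [← Equiv.Perm.lcm_cycleType]
  rcases cycleType_cases_alt_six g hg with h | h | h | h | h | h <;> rw [h] <;> decide

theorem cycleType_of_orderOf_two_alt_six (g : Perm (Fin 6)) (hg : Equiv.Perm.sign g = 1)
    (h2 : orderOf g = 2) : g.cycleType = {2, 2} := by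
  rw [← Equiv.Perm.lcm_cycleType] at h2
  rcases cycleType_cases_alt_six g hg with h | h | h | h | h | h
  · rw [h] at h2
    exact absurd h2 (by decide)
  · rw [h] at h2
    exact absurd h2 (by decide)
  · rw [h] at h2
    exact absurd h2 (by decide)
  · exact h
  · rw [h] at h2
    exact absurd h2 (by decide)
  · rw [h] at h2
    exact absurd h2 (by decide)

/-- Two double transpositions of six points are conjugate under an even permutation. -/
theorem conj_alt_six (a b : Perm (Fin 6)) (ha : a.cycleType = {2, 2}) (hb : b.cycleType = {2, 2}) :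
    ∃ π : Perm (Fin 6), Equiv.Perm.sign π = 1 ∧ b = π * a * π⁻¹ := by
  obtain ⟨π, hπ⟩ := isConj_iff.1 (Equiv.Perm.isConj_iff_cycleType_eq.2 (ha.trans hb.symm))
  rcases Int.units_eq_one_or (Equiv.Perm.sign π) with h1 | h1
  · exact ⟨π, h1, hπ.symm⟩
  · have hsupp : a.support.card = 4 := by
      rw [← Equiv.Perm.sum_cycleType, ha]
      rfl
    have hcompl : (Finset.univ \ a.support).card = 2 := by
      rw [Finset.card_sdiff_of_subset (Finset.subset_univ _), hsupp]
      rfl
    obtain ⟨x, y, hxy, hxyeq⟩ := Finset.card_eq_two.1 hcompl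
    have hx : a x = x := by
      have : x ∈ Finset.univ \ a.support := by rw [hxyeq]; simp
      simpa using this
    have hy : a y = y := by
      have : y ∈ Finset.univ \ a.support := by rw [hxyeq]; simp
      simpa using this
    have hx' : a⁻¹ x = x := by
      rw [Equiv.Perm.inv_eq_iff_eq]
      exact hx.symm
    have hy' : a⁻¹ y = y := by
      rw [Equiv.Perm.inv_eq_iff_eq]
      exact hy.symm
    have hcomm : Equiv.swap x y * a = a * Equiv.swap x y := by
      rw [Equiv.swap_mul_eq_mul_swap, hx', hy']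
    refine ⟨π * Equiv.swap x y, ?_, ?_⟩
    · rw [map_mul, h1, Equiv.Perm.sign_swap hxy]
      rfl
    · rw [← hπ, mul_inv_rev, Equiv.swap_inv]
      calc π * a * π⁻¹ = π * (a * (Equiv.swap x y * Equiv.swap x y)) * π⁻¹ := by
            rw [Equiv.swap_mul_self, mul_one]
        _ = π * ((a * Equiv.swap x y) * Equiv.swap x y) * π⁻¹ := by rw [mul_assoc a]
        _ = π * ((Equiv.swap x y * a) * Equiv.swap x y) * π⁻¹ := by rw [hcomm]
        _ = π * Equiv.swap x y * a * (Equiv.swap x y * π⁻¹) := by simp only [mul_assoc]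

/-- The involutions of `Alt(6)` form a class of root involutions, and products of two of them have
order at most 5. -/
theorem alt_six_root_involutions :
    Cfsg.IsRootInvolutionClass {g : ↥(alternatingGroup (Fin 6)) | orderOf g = 2} ∧
    ∀ d ∈ {g : ↥(alternatingGroup (Fin 6)) | orderOf g = 2},
      ∀ e ∈ {g : ↥(alternatingGroup (Fin 6)) | orderOf g = 2}, orderOf (d * e) ≤ 5 := by
  have hord : ∀ g : ↥(alternatingGroup (Fin 6)), orderOf g ≤ 5 := by
    intro g
    rw [← Subgroup.orderOf_coe]
    exact orderOf_le_five_alt_six g (Equiv.Perm.mem_alternatingGroup.1 g.2)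
  have hpos : ∀ g : ↥(alternatingGroup (Fin 6)), 0 < orderOf g := fun g => orderOf_pos g
  have hconjord : ∀ c a : ↥(alternatingGroup (Fin 6)), orderOf (c * a * c⁻¹) = orderOf a := by
    intro c a
    have h1 := (MulAut.conj c).orderOf_eq a
    rw [MulAut.conj_apply] at h1
    exact h1
  have hw : ∃ d : ↥(alternatingGroup (Fin 6)), orderOf d = 2 := by
    have hmem : (Equiv.swap (0 : Fin 6) 1 * Equiv.swap 2 3) ∈ alternatingGroup (Fin 6) := by
      rw [Equiv.Perm.mem_alternatingGroup, map_mul, Equiv.Perm.sign_swap (by decide),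
        Equiv.Perm.sign_swap (by decide)]
      rfl
    refine ⟨⟨_, hmem⟩, ?_⟩
    rw [← Subgroup.orderOf_coe]
    show orderOf (Equiv.swap (0 : Fin 6) 1 * Equiv.swap 2 3) = 2
    refine orderOf_eq_prime ?_ ?_
    · decide
    · decide
  obtain ⟨d₀, hd₀⟩ := hw
  have : IsSimpleGroup ↥(alternatingGroup (Fin 6)) := alternatingGroup.isSimpleGroup (by simp)
  refine ⟨⟨⟨fun d hd => hd, ?_, ?_, ?_⟩, ⟨d₀, hd₀⟩, ?_⟩, fun d _ e _ => hord (d * e)⟩
  · have hsub : Group.conjugatesOfSet {g : ↥(alternatingGroup (Fin 6)) | orderOf g = 2} ⊆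
        {g | orderOf g = 2} := by
      intro x hx
      rw [Group.mem_conjugatesOfSet_iff] at hx
      obtain ⟨a, ha, hax⟩ := hx
      obtain ⟨c, rfl⟩ := isConj_iff.1 hax
      show orderOf (c * a * c⁻¹) = 2
      rw [hconjord]
      exact ha
    have heq : Subgroup.closure {g : ↥(alternatingGroup (Fin 6)) | orderOf g = 2} =
        Subgroup.normalClosure {g | orderOf g = 2} :=
      le_antisymm Subgroup.closure_le_normalClosure (Subgroup.closure_mono hsub)
    rw [heq]
    rcases (Subgroup.normalClosure_normal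
      (s := {g : ↥(alternatingGroup (Fin 6)) | orderOf g = 2})).eq_bot_or_eq_top with h | h
    · exfalso
      have h1 : d₀ ∈ Subgroup.normalClosure {g : ↥(alternatingGroup (Fin 6)) | orderOf g = 2} :=
        Subgroup.subset_normalClosure hd₀
      rw [h, Subgroup.mem_bot] at h1
      rw [h1, orderOf_one] at hd₀
      exact absurd hd₀ (by norm_num)
    · exact h
  · intro d hd g
    show orderOf (g * d * g⁻¹) = 2
    rw [hconjord]
    exact hd
  · intro a ha b hb
    have ha' : orderOf a = 2 := ha
    have hb' : orderOf b = 2 := hb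
    have ha2 : a * a = 1 := by
      have h1 := pow_orderOf_eq_one a
      rw [ha', pow_two] at h1
      exact h1
    have hb2 : b * b = 1 := by
      have h1 := pow_orderOf_eq_one b
      rw [hb', pow_two] at h1
      exact h1
    have h5 := hord (a * b)
    have h0 := hpos (a * b)
    have hcases : orderOf (a * b) = 1 ∨ orderOf (a * b) = 2 ∨ orderOf (a * b) = 3 ∨
        orderOf (a * b) = 4 ∨ orderOf (a * b) = 5 := by omega
    rcases hcases with h | h | h | h | h
    · right; left
      rw [h]
      decide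
    · left
      have h1 : (a * b) * (a * b) = 1 := by
        have h2 := pow_orderOf_eq_one (a * b)
        rw [h, pow_two] at h2
        exact h2
      have h3 : a * b = (a * b)⁻¹ := (inv_eq_of_mul_eq_one_right h1).symm
      rw [mul_inv_rev, inv_eq_of_mul_eq_one_right ha2, inv_eq_of_mul_eq_one_right hb2] at h3
      exact h3
    · right; left
      rw [h]
      decide
    · right; right
      refine ⟨h, ?_⟩
      show orderOf ((a * b) ^ 2) = 2
      rw [orderOf_pow' _ (by norm_num : (2 : ℕ) ≠ 0), h]
      rfl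
    · right; left
      rw [h]
      decide
  · intro a ha b hb
    have ha' : orderOf (a : Perm (Fin 6)) = 2 := by
      rw [Subgroup.orderOf_coe]
      exact ha
    have hb' : orderOf (b : Perm (Fin 6)) = 2 := by
      rw [Subgroup.orderOf_coe]
      exact hb
    obtain ⟨π, hπ, hπe⟩ := conj_alt_six a b
      (cycleType_of_orderOf_two_alt_six a (Equiv.Perm.mem_alternatingGroup.1 a.2) ha')
      (cycleType_of_orderOf_two_alt_six b (Equiv.Perm.mem_alternatingGroup.1 b.2) hb')
    refine ⟨⟨π, Equiv.Perm.mem_alternatingGroup.2 hπ⟩, ?_⟩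
    apply Subtype.ext
    exact hπe

end Cfsg.Agent.Lib.Helper87
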