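import Cfsg.Agent.Lib.Helper32.BG10Basic

/-!
# S1384 piece NF-HALL (helper87 for helper41)
-/

set_option autoImplicit false

open Cfsg Cfsg.Agent.Lib.Helper32 Cfsg.Agent.Lib.Helper32.BG10

namespace Cfsg.Agent.Lib.Helper87.NF

universe u

variable {G : Type u} [Group G] [Finite G]

/-- NF-HALL: a Sylow `q`-subgroup of a Hall subgroup `H` (`q ∣ |H|`) is a Sylow `q`-subgroup of
every subgroup containing it. -/
theorem syl_of_hall {H : Subgroup G} (hHall : (Nat.card H).Coprime H.index) {q : ℕ}
    [Fact q.Prime] (hq : q ∣ Nat.card H) {P : Subgroup G} (hP : P ∈ sylSet q H) {W : Subgroup G}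
    (hPW : P ≤ W) : P ∈ sylSet q W := by
  have hqp : q.Prime := Fact.out
  refine ⟨hPW, ?_⟩
  have hcardP : Nat.card P = q ^ (Nat.card H).factorization q := hP.2
  rw [hcardP]
  congr 1
  have hHpos : Nat.card H ≠ 0 := Nat.card_pos.ne'
  have hWpos : Nat.card W ≠ 0 := Nat.card_pos.ne'
  have hGpos : Nat.card G ≠ 0 := Nat.card_pos.ne'
  have hipos : H.index ≠ 0 := Subgroup.index_ne_zero_of_finite
  have hqi : ¬ q ∣ H.index := by
    intro hqi
    have : q ∣ Nat.gcd (Nat.card H) H.index := Nat.dvd_gcd hq hqi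
    rw [hHall] at this
    exact hqp.one_lt.ne' (Nat.dvd_one.mp this)
  have hG : (Nat.card G).factorization q = (Nat.card H).factorization q := by
    rw [← Subgroup.card_mul_index H, Nat.factorization_mul hHpos hipos]
    simp [Nat.factorization_eq_zero_of_not_dvd hqi]
  apply le_antisymm
  · have h1 : q ^ (Nat.card H).factorization q ∣ Nat.card W := by
      rw [← hcardP]
      exact Subgroup.card_dvd_of_le hPW
    exact (hqp.pow_dvd_iff_le_factorization hWpos).mp h1
  · rw [← hG]
    have h2 : Nat.card W ∣ Nat.card G := Subgroup.card_subgroup_dvd_card W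
    exact (Nat.factorization_le_iff_dvd hWpos hGpos).mpr h2 q

end Cfsg.Agent.Lib.Helper87.NF
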