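import Mathlib

/-!
# Project QB (helper48, S2359), piece QB-DIH: two involutions are conjugate or commute with a
common involution (the dihedral lemma)
-/

set_option autoImplicit false

namespace Cfsg.Agent.Lib.Helper48.QB

-- QB-DIH
theorem dih_lemma {C : Type*} [Group C] [Finite C] (a b : C) (ha : a * a = 1) (hb : b * b = 1) :
    (∃ g : C, g * a * g⁻¹ = b) ∨
      ∃ z : C, z ≠ 1 ∧ z * z = 1 ∧ z * a = a * z ∧ z * b = b * z := by
  have hai : a⁻¹ = a := inv_eq_of_mul_eq_one_left ha
  have hbi : b⁻¹ = b := inv_eq_of_mul_eq_one_left hb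
  have hinv : (a * b)⁻¹ = b * a := by rw [mul_inv_rev, hai, hbi]
  have key_a : ∀ k : ℕ, a * (a * b) ^ k * a = (b * a) ^ k := by
    intro k
    have h1 := conj_pow (a := a) (b := a * b) (i := k)
    rw [hai] at h1
    rw [← h1]
    congr 1
    rw [← mul_assoc, ha, one_mul]
  have key_b : ∀ k : ℕ, b * (a * b) ^ k * b = (b * a) ^ k := by
    intro k
    have h1 := conj_pow (a := b) (b := a * b) (i := k)
    rw [hbi] at h1
    rw [← h1]
    congr 1
    rw [mul_assoc, mul_assoc, hb, mul_one]
  have ho : 0 < orderOf (a * b) := orderOf_pos (a * b)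
  rcases Nat.even_or_odd (orderOf (a * b)) with ⟨j, hj⟩ | ⟨j, hj⟩
  · right
    have hz : (a * b) ^ j * (a * b) ^ j = 1 := by
      rw [← pow_add, ← hj]
      exact pow_orderOf_eq_one (a * b)
    have h2 : (b * a) ^ j = (a * b) ^ j := by
      rw [← hinv, inv_pow]
      exact inv_eq_of_mul_eq_one_left hz
    refine ⟨(a * b) ^ j, ?_, hz, ?_, ?_⟩
    · exact pow_ne_one_of_lt_orderOf (by omega) (by omega)
    · calc (a * b) ^ j * a = (a * (a * b) ^ j * a) * a := by rw [key_a j, h2]
        _ = a * (a * b) ^ j := by rw [mul_assoc, ha, mul_one]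
    · calc (a * b) ^ j * b = (b * (a * b) ^ j * b) * b := by rw [key_b j, h2]
        _ = b * (a * b) ^ j := by rw [mul_assoc, hb, mul_one]
  · left
    refine ⟨(a * b) ^ j, ?_⟩
    have h1 : ((a * b) ^ j)⁻¹ = (b * a) ^ j := by rw [← inv_pow, hinv]
    have h2 : a * (b * a) ^ j = (a * b) ^ j * a := by
      rw [← key_a j, ← mul_assoc, ← mul_assoc, ha, one_mul]
    have h3 : (a * b) ^ j * (a * b) ^ j * (a * b) = 1 := by
      rw [← pow_add, ← pow_succ]
      have e : j + j + 1 = orderOf (a * b) := by omega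
      rw [e]
      exact pow_orderOf_eq_one (a * b)
    have h4 : (a * b) ^ j * (a * b) ^ j = b * a := by
      rw [← hinv]
      exact eq_inv_of_mul_eq_one_left h3
    rw [h1, mul_assoc, h2, ← mul_assoc, h4, mul_assoc, ha, mul_one]

end Cfsg.Agent.Lib.Helper48.QB
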