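import Mathlib
import Cfsg.Agent.Lib.Helper81.ROBase

/-!
# Project RL (helper48, S2343), piece ACT

Proved by helper87: the conjugation formula for `T 0 b c` and `T a 0 0 * H s`.
-/

set_option autoImplicit false

namespace Cfsg.Agent.Lib.Helper48.RL

open Cfsg.Agent.Lib.Helper81.RO

variable {F : Type*} [Field F] [Finite F] [CharP F 3] {G : Type*} [Group G] [Finite G]
variable {θ : F →+* F} {T : F → F → F → G} {H : Fˣ → G} {w : G}

theorem act_formula (h : Ok θ T H w) (a : F) (s : Fˣ) (b c : F) :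
    T 0 b c * (T a 0 0 * H s) =
      (T a 0 0 * H s) * T 0 ((s * θ s)⁻¹ * b) ((s ^ 2 * θ s)⁻¹ * (c - a * b)) := by
  have hs : (s : F) ≠ 0 := Units.ne_zero s
  have hθs : θ (s : F) ≠ 0 := (map_ne_zero θ).mpr hs
  have h1 : (s : F) * θ s ≠ 0 := mul_ne_zero hs hθs
  have h2 : (s : F) ^ 2 * θ s ≠ 0 := mul_ne_zero (pow_ne_zero 2 hs) hθs
  rw [← mul_assoc (T 0 b c), h.T0_mul, mul_assoc (T a 0 0), h.HT, mul_zero,
    ← mul_assoc (T a 0 0), h.T_mul0]
  refine congrArg (· * H s) (T_congr rfl ?_ ?_)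
  · rw [add_zero, zero_add, ← mul_assoc, mul_inv_cancel₀ h1, one_mul]
  · rw [add_zero, zero_add, ← mul_assoc, mul_inv_cancel₀ h2, one_mul]

end Cfsg.Agent.Lib.Helper48.RL
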