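import Cfsg.Agent.Lib.Helper51.OTransport
import Cfsg.Agent.S2618

/-!
# OMEGA-SYL piece STDO (helper87): the standard basis of S2618 as coordinates in which the form is
`c x₀² + Σ xᵢ yᵢ`
-/

set_option autoImplicit false
set_option linter.unusedSectionVars false

namespace Cfsg.Agent.Lib.Helper87.OStdO

open Cfsg Cfsg.Agent.Lib.Helper51
open Cfsg.Agent.Lib.Helper51.OTransport (eq_of_polar_basis)

/-- The form `c x₀² + Σ xᵢ yᵢ` as a quadratic form. -/
noncomputable def QcOdd (m : ℕ) (F : Type*) [Field F] (c : F) :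
    QuadraticForm F (Unit ⊕ (Fin m ⊕ Fin m) → F) :=
  c • QuadraticMap.proj (Sum.inl ()) (Sum.inl ())
    + ∑ i : Fin m, QuadraticMap.proj (Sum.inr (Sum.inl i)) (Sum.inr (Sum.inr i))

theorem QcOdd_apply (m : ℕ) (F : Type*) [Field F] (c : F) (v : Unit ⊕ (Fin m ⊕ Fin m) → F) :
    QcOdd m F c v = c * v (Sum.inl ()) ^ 2
      + ∑ i : Fin m, v (Sum.inr (Sum.inl i)) * v (Sum.inr (Sum.inr i)) := by
  simp [QcOdd, pow_two]

theorem polar_QcOdd (m : ℕ) (F : Type*) [Field F] (c : F)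
    (u x : Unit ⊕ (Fin m ⊕ Fin m) → F) :
    QuadraticMap.polar ⇑(QcOdd m F c) u x
      = 2 * c * u (Sum.inl ()) * x (Sum.inl ())
        + ∑ i : Fin m, (u (Sum.inr (Sum.inl i)) * x (Sum.inr (Sum.inr i))
          + x (Sum.inr (Sum.inl i)) * u (Sum.inr (Sum.inr i))) := by
  simp only [QuadraticMap.polar, QcOdd_apply, Pi.add_apply]
  have e : ∀ A1 S1 A2 S2 A3 S3 : F,
      (A1 + S1) - (A2 + S2) - (A3 + S3) = (A1 - A2 - A3) + (S1 - S2 - S3) := by
    intros; ring
  rw [e, ← Finset.sum_sub_distrib, ← Finset.sum_sub_distrib]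
  congr 1
  · ring
  · apply Finset.sum_congr rfl
    intro i _
    ring

variable {ι : Type} [Fintype ι] [DecidableEq ι] {F : Type*} [Field F] [Fintype F]

theorem std_odd (h2 : (2 : F) ≠ 0) (W : QuadraticForm F (ι → F))
    (hW : (QuadraticMap.polarBilin W).Nondegenerate) (m : ℕ)
    (hc : Fintype.card ι = 2 * m + 1) :
    ∃ (L : (ι → F) ≃ₗ[F] (Unit ⊕ (Fin m ⊕ Fin m) → F)) (c : F), c ≠ 0 ∧
      ∀ v, W v = c * (L v (Sum.inl ())) ^ 2
        + ∑ i : Fin m, L v (Sum.inr (Sum.inl i)) * L v (Sum.inr (Sum.inr i)) := by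
  have hV : Module.finrank F (ι → F) = 2 * m + 1 := by
    rw [Module.finrank_fintype_fun_eq_card, hc]
  obtain ⟨b, hb0, hb1, -, hb3, hb4⟩ := Cfsg.Agent.S2618.result hV W hW
  refine ⟨b.equivFun, W (b (Sum.inl ())), hb0, ?_⟩
  have hbk : ∀ k, b.equivFun (b k) = Pi.single k 1 := by
    intro k
    funext j
    rw [Module.Basis.equivFun_self, Pi.single_apply]
    simp [eq_comm]
  intro v
  rw [← QcOdd_apply]
  have := eq_of_polar_basis h2
    ((QcOdd m F (W (b (Sum.inl ())))).comp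
      (b.equivFun : (ι → F) →ₗ[F] (Unit ⊕ (Fin m ⊕ Fin m) → F))) W b ?_ v
  · rw [← this]; simp [QuadraticMap.comp_apply]
  · intro k l
    have e1 : QuadraticMap.polar
        ⇑((QcOdd m F (W (b (Sum.inl ())))).comp
          (b.equivFun : (ι → F) →ₗ[F] (Unit ⊕ (Fin m ⊕ Fin m) → F))) (b k) (b l)
        = QuadraticMap.polar ⇑(QcOdd m F (W (b (Sum.inl ()))))
            (Pi.single k 1) (Pi.single l 1) := by
      simp only [QuadraticMap.polar, QuadraticMap.comp_apply, map_add, LinearEquiv.coe_coe, hbk]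
    rw [e1, polar_QcOdd]
    rcases k with ⟨⟩ | k | k <;> rcases l with ⟨⟩ | l | l
    · rw [QuadraticMap.polar_self]
      simp
    · rw [(hb1 l).1]
      simp [Pi.single_apply]
    · rw [(hb1 l).2]
      simp [Pi.single_apply]
    · rw [QuadraticMap.polar_comm, (hb1 k).1]
      simp [Pi.single_apply]
    · rw [(hb4 k l).1]
      simp [Pi.single_apply]
    · rw [hb3 k l]
      by_cases hkl : k = l
      · subst hkl
        simp [Pi.single_apply]
      · simp [Pi.single_apply, hkl, Ne.symm hkl]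
    · rw [QuadraticMap.polar_comm, (hb1 k).2]
      simp [Pi.single_apply]
    · rw [QuadraticMap.polar_comm, hb3 l k]
      by_cases hkl : l = k
      · subst hkl
        simp [Pi.single_apply]
      · simp [Pi.single_apply, hkl, Ne.symm hkl]
    · rw [(hb4 k l).2]
      simp [Pi.single_apply]

end Cfsg.Agent.Lib.Helper87.OStdO
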