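import Cfsg.Agent.Lib.Helper41.BG11Kit

/-!
# B&G Section 11 (S1416, S1417), piece BG11-BSA2 (helper87): rank at most two,
`C_P(A)` is commutative (from the structure of the Sylow subgroup, H12)
-/

set_option autoImplicit false

open Cfsg Cfsg.Agent.Lib.Helper32 Cfsg.Agent.Lib.Helper32.BG10 Cfsg.Agent.Lib.Helper3.BG12
open Cfsg.Agent.Lib.Helper41.BG11

namespace Cfsg.Agent.Lib.Helper87.BG11

universe u

section core

variable {G : Type u} [Group G]

/-- elements of the join of two elementwise commuting subgroups are products -/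
theorem bsa2_mem_sup {H K : Subgroup G} (hHK : ∀ a ∈ H, ∀ b ∈ K, a * b = b * a) {y : G}
    (hy : y ∈ H ⊔ K) : ∃ a ∈ H, ∃ b ∈ K, y = a * b := by
  have comm : ∀ (m : ↥H) (n : ↥K), Commute (H.subtype m) (K.subtype n) :=
    fun m n => hHK m m.2 n n.2
  have hr := MonoidHom.noncommCoprod_range H.subtype K.subtype comm
  rw [Subgroup.range_subtype, Subgroup.range_subtype] at hr
  rw [← hr] at hy
  obtain ⟨⟨a, b⟩, rfl⟩ := hy
  exact ⟨a, a.2, b, b.2, rfl⟩

/-- two elementwise commuting commutative subgroups generate a commutative subgroup -/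
theorem bsa2_comm_sup {H K : Subgroup G} (hH : ∀ a ∈ H, ∀ a' ∈ H, a * a' = a' * a)
    (hK : ∀ b ∈ K, ∀ b' ∈ K, b * b' = b' * b) (hHK : ∀ a ∈ H, ∀ b ∈ K, a * b = b * a) :
    ∀ y ∈ H ⊔ K, ∀ y' ∈ H ⊔ K, y * y' = y' * y := by
  intro y hy y' hy'
  obtain ⟨a, ha, b, hb, rfl⟩ := bsa2_mem_sup hHK hy
  obtain ⟨a', ha', b', hb', rfl⟩ := bsa2_mem_sup hHK hy'
  have h1 : Commute a a' := hH a ha a' ha'
  have h2 : Commute b b' := hK b hb b' hb'
  have h3 : Commute a b' := hHK a ha b' hb'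
  have h4 : Commute b a' := (hHK a' ha' b hb).symm
  exact ((h1.mul_right h3).mul_left (h4.mul_right h2)).eq

/-- an element of order dividing `p` centralizing a maximal elementary abelian `p`-subgroup
lies in it -/
theorem bsa2_omega (p : ℕ) (A : Subgroup G) (hA : IsElementaryAbelian p A)
    (hmax : ∀ B : Subgroup G, IsElementaryAbelian p B → A ≤ B → B = A)
    (x : G) (hx : x ∈ Subgroup.centralizer (A : Set G)) (hxp : x ^ p = 1) : x ∈ A := by
  have hAc : ∀ a ∈ A, ∀ a' ∈ A, a * a' = a' * a := by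
    intro a ha a' ha'
    have := hA.1
    exact congrArg Subtype.val (mul_comm' (⟨a, ha⟩ : ↥A) ⟨a', ha'⟩)
  have hZc : ∀ b ∈ Subgroup.zpowers x, ∀ b' ∈ Subgroup.zpowers x, b * b' = b' * b := by
    intro b hb b' hb'
    obtain ⟨k, rfl⟩ := Subgroup.mem_zpowers_iff.mp hb
    obtain ⟨l, rfl⟩ := Subgroup.mem_zpowers_iff.mp hb'
    exact (Commute.zpow_zpow_self x k l).eq
  have hAZ : ∀ a ∈ A, ∀ b ∈ Subgroup.zpowers x, a * b = b * a := by
    intro a ha b hb
    obtain ⟨k, rfl⟩ := Subgroup.mem_zpowers_iff.mp hb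
    have h1 : Commute a x := Subgroup.mem_centralizer_iff.mp hx a ha
    exact (h1.zpow_right k).eq
  have hB : IsElementaryAbelian p (A ⊔ Subgroup.zpowers x) := by
    constructor
    · rw [isMulCommutative_iff]
      rintro ⟨y, hy⟩ ⟨y', hy'⟩
      exact Subtype.ext (bsa2_comm_sup hAc hZc hAZ y hy y' hy')
    · intro y hy
      obtain ⟨a, ha, b, hb, rfl⟩ := bsa2_mem_sup hAZ hy
      obtain ⟨k, rfl⟩ := Subgroup.mem_zpowers_iff.mp hb
      have h1 : Commute a (x ^ k) := hAZ a ha _ hb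
      rw [h1.mul_pow, hA.2 a ha, one_mul, ← zpow_natCast, ← zpow_mul, mul_comm, zpow_mul,
        zpow_natCast, hxp, one_zpow]
  have h := hmax _ hB le_sup_left
  rw [← h]
  exact (le_sup_right : Subgroup.zpowers x ≤ _) (Subgroup.mem_zpowers x)

theorem bsa2_core (p : ℕ) (A S P₁ P₂ : Subgroup G) (hA : IsElementaryAbelian p A)
    (hmax : ∀ B : Subgroup G, IsElementaryAbelian p B → A ≤ B → B = A)
    (hAS : A ≤ S) (hsup : P₁ ⊔ P₂ = S) (hcomm : ∀ a ∈ P₁, ∀ b ∈ P₂, a * b = b * a)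
    (hexp : Monoid.exponent P₁ = p) (hcyc : IsCyclic P₂)
    (hZ : Subgroup.closure {x : G | x ∈ P₂ ∧ x ^ p = 1} =
      P₁ ⊓ Subgroup.centralizer (P₁ : Set G)) :
    ∀ y ∈ S ⊓ Subgroup.centralizer (A : Set G), ∀ y' ∈ S ⊓ Subgroup.centralizer (A : Set G),
      y * y' = y' * y := by
  have hexp' : ∀ a ∈ P₁, a ^ p = 1 := by
    intro a ha
    have h := Monoid.pow_exponent_eq_one (⟨a, ha⟩ : ↥P₁)
    rw [hexp] at h
    exact congrArg Subtype.val h
  have hb : ∀ x ∈ S, x ^ p = 1 → x ∈ P₁ := by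
    intro x hx hxp
    rw [← hsup] at hx
    obtain ⟨a, ha, b, hb, rfl⟩ := bsa2_mem_sup hcomm hx
    have h1 : (a * b) ^ p = a ^ p * b ^ p := (show Commute a b from hcomm a ha b hb).mul_pow p
    rw [h1, hexp' a ha, one_mul] at hxp
    have h2 : b ∈ P₁ ⊓ Subgroup.centralizer (P₁ : Set G) := by
      rw [← hZ]; exact Subgroup.subset_closure ⟨hb, hxp⟩
    exact P₁.mul_mem ha h2.1
  have hAP₁ : A ≤ P₁ := fun a ha => hb a (hAS ha) (hA.2 a ha)
  have he : ∀ y ∈ S ⊓ Subgroup.centralizer (A : Set G), y ∈ A ⊔ P₂ := by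
    intro y hy
    have hyS := hy.1
    rw [← hsup] at hyS
    obtain ⟨a, ha, b, hb', rfl⟩ := bsa2_mem_sup hcomm hyS
    have hbC : b ∈ Subgroup.centralizer (A : Set G) := by
      rw [Subgroup.mem_centralizer_iff]
      intro h hh
      exact hcomm h (hAP₁ hh) b hb'
    have haC : a ∈ Subgroup.centralizer (A : Set G) := by
      have h : a = (a * b) * b⁻¹ := by group
      rw [h]
      exact Subgroup.mul_mem _ hy.2 (Subgroup.inv_mem _ hbC)
    have haA : a ∈ A := bsa2_omega p A hA hmax a haC (hexp' a ha)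
    exact Subgroup.mul_mem _ ((le_sup_left : A ≤ A ⊔ P₂) haA) ((le_sup_right : P₂ ≤ A ⊔ P₂) hb')
  have hAc : ∀ a ∈ A, ∀ a' ∈ A, a * a' = a' * a := by
    intro a ha a' ha'
    have := hA.1
    exact congrArg Subtype.val (mul_comm' (⟨a, ha⟩ : ↥A) ⟨a', ha'⟩)
  have hP₂c : ∀ b ∈ P₂, ∀ b' ∈ P₂, b * b' = b' * b := by
    intro b hb b' hb'
    obtain ⟨g, hg⟩ := hcyc.exists_generator
    obtain ⟨k, hk⟩ := Subgroup.mem_zpowers_iff.mp (hg ⟨b, hb⟩)
    obtain ⟨l, hl⟩ := Subgroup.mem_zpowers_iff.mp (hg ⟨b', hb'⟩)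
    have h := (Commute.zpow_zpow_self g k l).eq
    rw [hk, hl] at h
    exact congrArg Subtype.val h
  intro y hy y' hy'
  exact bsa2_comm_sup hAc hP₂c (fun a ha b hb => hcomm a (hAP₁ ha) b hb) y (he y hy) y' (he y' hy')

end core

variable {G : Type u} [Group G] [Finite G]

theorem bsa2 (hG : IsMinSimpleOddOrder G) (h12 : H12 G) (p : ℕ) (A P : Subgroup G) (hp : p.Prime)
    (hr : PRankLE p 2 G) (hmax : MaxEA p A) (hAc : Nat.card A = p ^ 2) (hP : IsPGroup p P)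
    (hAP : A ≤ P) : IsMulCommutative ↥(P ⊓ Subgroup.centralizer (A : Set G)) := by
  haveI : Fact p.Prime := ⟨hp⟩
  obtain ⟨S, hPS⟩ := hP.exists_le_sylow
  have hrS : PRankLE p 2 ↥(S : Subgroup G) := by
    intro B hBc hBp
    have h1 := hr (B.map (S : Subgroup G).subtype) ?_ ?_
    · rwa [Subgroup.card_map_of_injective (Subgroup.subtype_injective _)] at h1
    · rw [isMulCommutative_iff]
      rintro ⟨_, ⟨x, hx, rfl⟩⟩ ⟨_, ⟨y, hy, rfl⟩⟩
      apply Subtype.ext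
      have h2 := mul_comm' (⟨x, hx⟩ : ↥B) ⟨y, hy⟩
      have h3 := congrArg (fun z : ↥B => ((z : ↥(S : Subgroup G)) : G)) h2
      exact h3
    · rintro _ ⟨x, hx, rfl⟩
      have h2 := hBp x hx
      rw [← map_pow, h2, map_one]
  have key : ∀ y ∈ (S : Subgroup G) ⊓ Subgroup.centralizer (A : Set G),
      ∀ y' ∈ (S : Subgroup G) ⊓ Subgroup.centralizer (A : Set G), y * y' = y' * y := by
    rcases h12 p S hrS with hS | ⟨P₁, P₂, hsup, hcomm, -, -, hexp, hcyc, hZ⟩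
    · intro y hy y' hy'
      exact congrArg Subtype.val (mul_comm' (⟨y, hy.1⟩ : ↥(S : Subgroup G)) ⟨y', hy'.1⟩)
    · exact bsa2_core p A S P₁ P₂ hmax.1 hmax.2 (hAP.trans hPS) hsup hcomm hexp hcyc hZ
  rw [isMulCommutative_iff]
  rintro ⟨y, hy⟩ ⟨y', hy'⟩
  apply Subtype.ext
  exact key y ⟨hPS hy.1, hy.2⟩ y' ⟨hPS hy'.1, hy'.2⟩

end Cfsg.Agent.Lib.Helper87.BG11
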