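import Mathlib
import Cfsg.Agent.Lib.Helper80.BaerDefs

/-!
# S4125 piece LA1 (helper87): `q % 4 = 3` in a `SemiCtx`
-/

set_option autoImplicit false

namespace Cfsg.Agent.Lib.Helper87

open Cfsg.Agent.Lib.Helper80

variable {q : ℕ} {V : Type*} [AddCommGroup V] {c j : AddMonoid.End V} {s : ℕ}

/-- `i = c ^ (2 ^ (s - 2))` squares to `-1` -/
theorem semi_i_sq (h : SemiCtx q V c j s) : c ^ (2 ^ (s - 2)) * c ^ (2 ^ (s - 2)) = -1 := by
  rw [← pow_add, ← two_mul, ← pow_succ']
  have h1 : s - 2 + 1 = s - 1 := by have := h.hs; omega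
  rw [h1]; exact h.hc

theorem semi_conj_pow {R : Type*} [Monoid R] {c j : R} (hcj : c * j * c = j) (n : ℕ) :
    c ^ n * j * c ^ n = j := by
  induction n with
  | zero => simp
  | succ n ih =>
    calc c ^ (n + 1) * j * c ^ (n + 1) = (c ^ n * c) * j * (c * c ^ n) := by
          rw [← pow_succ, ← pow_succ']
      _ = c ^ n * (c * j * c) * c ^ n := by simp only [mul_assoc]
      _ = j := by rw [hcj, ih]

/-- `i j i = j` -/
theorem semi_i_conj (h : SemiCtx q V c j s) :
    c ^ (2 ^ (s - 2)) * j * c ^ (2 ^ (s - 2)) = j := by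
  rcases h.hj with h1 | ⟨h3, h1⟩
  · exact semi_conj_pow h1 _
  · have h2 : c ^ 2 * j * c ^ 2 = j := by
      calc c ^ 2 * j * c ^ 2 = c * (c * j * c) * c := by
            rw [pow_two]; simp only [mul_assoc]
        _ = j := by
            rw [h1, mul_neg, neg_mul, h1, neg_neg]
    have h4 : c ^ (2 ^ (s - 2)) = (c ^ 2) ^ (2 ^ (s - 3)) := by
      rw [← pow_mul, ← pow_succ']
      congr 2
      omega
    rw [h4]
    exact semi_conj_pow h2 _

/-- `j i = - (i j)` -/
theorem semi_j_i (h : SemiCtx q V c j s) :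
    j * c ^ (2 ^ (s - 2)) = -(c ^ (2 ^ (s - 2)) * j) := by
  have h1 := semi_i_conj h
  have h2 := semi_i_sq h
  have h3 : c ^ (2 ^ (s - 2)) * (c ^ (2 ^ (s - 2)) * j * c ^ (2 ^ (s - 2))) =
      -(j * c ^ (2 ^ (s - 2))) := by
    rw [← mul_assoc, ← mul_assoc, h2, neg_mul, neg_mul, one_mul]
  rw [h1] at h3
  rw [h3, neg_neg]

theorem semi_natCast_q (h : SemiCtx q V c j s) : (q : AddMonoid.End V) = 0 := by
  apply AddMonoidHom.ext
  intro v
  exact h.hqV v

theorem SemiCtx.mod_four (h : SemiCtx q V c j s) : q % 4 = 3 := by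
  by_contra hne
  have hqp : Fact q.Prime := ⟨h.hq⟩
  have hsq : IsSquare (-1 : ZMod q) := ZMod.exists_sq_eq_neg_one_iff.mpr hne
  obtain ⟨y, hy⟩ := hsq
  set ι : ℕ := y.val with hι
  have hdiv : q ∣ ι * ι + 1 := by
    apply (ZMod.natCast_eq_zero_iff _ _).mp
    push_cast
    rw [hι, ZMod.natCast_zmod_val, ← hy]
    ring
  obtain ⟨m, hm⟩ := hdiv
  have hq0 := semi_natCast_q h
  have hι2 : (ι : AddMonoid.End V) * (ι : AddMonoid.End V) = -1 := by
    have h1 : ((ι * ι + 1 : ℕ) : AddMonoid.End V) = 0 := by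
      rw [hm, Nat.cast_mul, hq0, zero_mul]
    push_cast at h1
    exact eq_neg_of_add_eq_zero_left h1
  set i : AddMonoid.End V := c ^ (2 ^ (s - 2)) with hi
  have hii : i * i = -1 := semi_i_sq h
  have hji : j * i = -(i * j) := semi_j_i h
  have hic : i * c = c * i := by
    rw [hi, ← pow_succ, ← pow_succ']
  have hιcomm : ∀ x : AddMonoid.End V, (ι : AddMonoid.End V) * x = x * (ι : AddMonoid.End V) :=
    fun x => (Nat.cast_commute ι x).eq
  set e : AddMonoid.End V := (ι : AddMonoid.End V) * i with he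
  have hee : e * e = 1 := by
    calc e * e = ((ι : AddMonoid.End V) * (ι : AddMonoid.End V)) * (i * i) := by
          rw [he, mul_assoc, ← mul_assoc i, ← hιcomm i]; simp only [mul_assoc]
      _ = 1 := by rw [hι2, hii]; simp
  have hec : e * c = c * e := by
    rw [he, mul_assoc, hic, ← mul_assoc, hιcomm c, mul_assoc]
  have hje : j * e = -(e * j) := by
    rw [he, ← mul_assoc, ← hιcomm j, mul_assoc, hji, mul_neg, mul_assoc]
  have hipm : i = (ι : AddMonoid.End V) ∨ i = -(ι : AddMonoid.End V) := by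
    have h1 : (ι : AddMonoid.End V) * e = -i := by
      rw [he, ← mul_assoc, hι2, neg_mul, one_mul]
    rcases h.il e hee hec (Or.inr hje) with h2 | h2
    · right
      rw [h2, mul_one] at h1
      rw [h1, neg_neg]
    · left
      rw [h2, mul_neg, mul_one] at h1
      exact (neg_injective h1).symm
  have hij : i * j = j * i := by
    rcases hipm with h1 | h1
    · rw [h1]; exact hιcomm j
    · rw [h1, neg_mul, mul_neg, hιcomm j]
  -- `2 (i j) = 0`
  have h2ij : (2 : AddMonoid.End V) * (i * j) = 0 := by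
    have : i * j = -(i * j) := by rw [← hji, ← hij]
    rw [two_mul]
    nth_rewrite 2 [this]
    exact add_neg_cancel _
  -- `q` is odd
  have hqodd : q % 2 = 1 := by
    rcases h.hq.eq_two_or_odd with h2 | h2
    · exact absurd h2 h.hodd
    · exact h2
  have hij0 : i * j = 0 := by
    have h1 : ((q : AddMonoid.End V)) * (i * j) = 0 := by rw [hq0, zero_mul]
    have h3 : q = (q / 2) * 2 + 1 := by omega
    have h4 : (q : AddMonoid.End V) = ((q / 2 : ℕ) : AddMonoid.End V) * 2 + 1 := by
      conv_lhs => rw [h3]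
      push_cast
      rfl
    rw [h4, add_mul, one_mul, mul_assoc, h2ij, mul_zero, zero_add] at h1
    exact h1
  have h10 : (1 : AddMonoid.End V) = 0 := by
    have h1 : i * (i * j) * j = 0 := by rw [hij0, mul_zero, zero_mul]
    rw [← mul_assoc, hii, neg_mul, one_mul, neg_mul] at h1
    rcases h.hj2 with h2 | h2
    · rw [h2] at h1
      exact neg_eq_zero.mp h1
    · rw [h2, neg_neg] at h1
      exact h1
  have hnt := h.hnt
  obtain ⟨v, hv⟩ := exists_ne (0 : V)
  apply hv
  have := congrArg (fun f : AddMonoid.End V => f v) h10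
  simpa using this

end Cfsg.Agent.Lib.Helper87
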