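import Mathlib
import Cfsg.Agent.Lib.Helper80.BaerDefs
import Cfsg.Agent.Lib.Helper87.BaerLA1

/-!
# S4125 piece LA2 (helper87): `c` lies in the `ℤ[i]`-span in a `SemiCtx` with `q % 4 = 3`
-/

set_option autoImplicit false

namespace Cfsg.Agent.Lib.Helper87

open Cfsg.Agent.Lib.Helper80

section Gauss

variable {R : Type*} [Ring R] {F : Type*} [Field F]

/-- `α + β i` -/
def gau (f : F →+* R) (i : R) (a b : F) : R := f a + f b * i

variable {f : F →+* R} {i : R}

theorem gau_zero_right (a : F) : gau f i a 0 = f a := by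
  unfold gau; rw [map_zero, zero_mul, add_zero]

theorem gau_neg (a b : F) : gau f i (-a) (-b) = -gau f i a b := by
  unfold gau; rw [map_neg, map_neg, neg_mul, neg_add]

theorem gau_mul (hf : ∀ a x, f a * x = x * f a) (hii : i * i = -1) (a b a' b' : F) :
    gau f i a b * gau f i a' b' = gau f i (a * a' - b * b') (a * b' + b * a') := by
  unfold gau
  rw [map_sub, map_add, map_mul, map_mul, map_mul, map_mul]
  have h1 : f b * i * f a' = f b * f a' * i := by
    rw [mul_assoc, ← hf a' i, ← mul_assoc]
  have h2 : f b * i * (f b' * i) = -(f b * f b') := by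
    calc f b * i * (f b' * i) = f b * ((i * f b') * i) := by simp only [mul_assoc]
      _ = f b * ((f b' * i) * i) := by rw [← hf b' i]
      _ = -(f b * f b') := by rw [mul_assoc, hii]; simp
  rw [mul_add, add_mul, add_mul, h1, h2]
  noncomm_ring

theorem gau_comm (hf : ∀ a x, f a * x = x * f a) (hii : i * i = -1) (a b a' b' : F) :
    gau f i a b * gau f i a' b' = gau f i a' b' * gau f i a b := by
  rw [gau_mul hf hii, gau_mul hf hii]
  congr 1 <;> ring

theorem gau_commute (hf : ∀ a x, f a * x = x * f a) {x : R} (hx : x * i = i * x) (a b : F) :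
    x * gau f i a b = gau f i a b * x := by
  unfold gau
  calc x * (f a + f b * i) = x * f a + (x * f b) * i := by rw [mul_add, mul_assoc]
    _ = f a * x + (f b * x) * i := by rw [hf a x, hf b x]
    _ = f a * x + f b * (i * x) := by rw [mul_assoc, hx]
    _ = (f a + f b * i) * x := by rw [add_mul, mul_assoc]

theorem gau_conj (hf : ∀ a x, f a * x = x * f a) {j : R} (hji : j * i = -(i * j)) (a b : F) :
    j * gau f i a b = gau f i a (-b) * j := by
  unfold gau
  calc j * (f a + f b * i) = j * f a + (j * f b) * i := by rw [mul_add, mul_assoc]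
    _ = f a * j + (f b * j) * i := by rw [hf a j, hf b j]
    _ = f a * j + f b * (-(i * j)) := by rw [mul_assoc, hji]
    _ = (f a + f (-b) * i) * j := by
        rw [add_mul, map_neg, neg_mul, neg_mul, mul_neg, mul_assoc]

theorem gau_norm_zero (hsq : ¬ IsSquare (-1 : F)) {a b : F} (h : a * a + b * b = 0) :
    a = 0 ∧ b = 0 := by
  have hb : b = 0 := by
    by_contra hb
    apply hsq
    refine ⟨a / b, ?_⟩
    field_simp
    linear_combination -h
  subst hb
  have : a * a = 0 := by simpa using h
  exact ⟨mul_self_eq_zero.mp this, rfl⟩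

/-- a norm one element is a square -/
theorem gau_sqrt_field (h2 : (2 : F) ≠ 0) (hpm : ∀ x : F, x ≠ 0 → IsSquare x ∨ IsSquare (-x))
    (a b : F) (hab : a * a + b * b = 1) : ∃ u v : F, u * u - v * v = a ∧ u * v + v * u = b := by
  by_cases ha : a = -1
  · subst ha
    have hb : b = 0 := by
      have : b * b = 0 := by linear_combination hab
      exact mul_self_eq_zero.mp this
    subst hb
    exact ⟨0, 1, by ring, by ring⟩
  · have ha1 : 1 + a ≠ 0 := by
      intro h
      apply ha
      linear_combination h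
    have hd : 2 * (1 + a) ≠ 0 := mul_ne_zero h2 ha1
    set l : F := (2 * (1 + a))⁻¹ with hl
    have hl0 : l ≠ 0 := inv_ne_zero hd
    have hld : l * (2 * (1 + a)) = 1 := inv_mul_cancel₀ hd
    rcases hpm l hl0 with ⟨m, hm⟩ | ⟨m, hm⟩
    · refine ⟨m * (1 + a), m * b, ?_, ?_⟩
      · linear_combination (-((1 + a) ^ 2 - b ^ 2)) * hm + a * hld - l * hab
      · linear_combination (-(2 * (1 + a) * b)) * hm + b * hld
    · refine ⟨-m * b, m * (1 + a), ?_, ?_⟩
      · linear_combination (((1 + a) ^ 2 - b ^ 2)) * hm + a * hld - l * hab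
      · linear_combination ((2 * (1 + a) * b)) * hm + b * hld

theorem gau_step (hf : ∀ a x, f a * x = x * f a) (hii : i * i = -1)
    (hinj : Function.Injective f) (hsq : ¬ IsSquare (-1 : F)) (h2 : (2 : F) ≠ 0)
    (hpm : ∀ x : F, x ≠ 0 → IsSquare x ∨ IsSquare (-x))
    {c j a : R} (hic : i * c = c * i) (hai : a * i = i * a) (hac : a * c = c * a)
    (hji : j * i = -(i * j)) (hjj : j * j = 1 ∨ j * j = -1)
    (haj : a * j * a = j ∨ a * j * a = -j) {α β : F} (hb : a * a = gau f i α β)
    (hbj : (a * a) * j * (a * a) = j)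
    (il : ∀ e : R, e * e = 1 → e * c = c * e → (j * e = e * j ∨ j * e = -(e * j)) →
      (e = 1 ∨ e = -1)) :
    ∃ u v : F, a = gau f i u v := by
  have hfl : ∀ (σ : F) (x y : R), x * (f σ * y) = f σ * (x * y) := by
    intro σ x y
    rw [← mul_assoc, ← hf σ x, mul_assoc]
  -- cancel `j` on the right
  have hcancel : ∀ x : R, x * j = j → x = 1 := by
    intro x hx
    have h1 : x * (j * j) = j * j := by rw [← mul_assoc, hx]
    rcases hjj with h | h
    · rw [h, mul_one] at h1; exact h1
    · rw [h, mul_neg, mul_one] at h1; exact neg_injective h1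
  set B := gau f i α β with hB
  set B' := gau f i α (-β) with hB'
  have hjB : j * B = B' * j := gau_conj hf hji α β
  have hBB' : B * B' = 1 := by
    apply hcancel
    rw [mul_assoc, ← hjB, ← mul_assoc, ← hb]
    exact hbj
  have hB'B : B' * B = 1 := by rw [hB, hB', gau_comm hf hii]; exact hBB'
  have hnorm : α * α + β * β = 1 := by
    rw [hB, hB', gau_mul hf hii] at hBB'
    have e1 : α * α - β * -β = α * α + β * β := by ring
    have e2 : α * -β + β * α = 0 := by ring
    rw [e1, e2, gau_zero_right] at hBB'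
    apply hinj
    rw [hBB', map_one]
  obtain ⟨u, v, huv1, huv2⟩ := gau_sqrt_field h2 hpm α β hnorm
  have hU : gau f i u v * gau f i u v = B := by rw [gau_mul hf hii, huv1, huv2]
  have h01 : (0 : R) ≠ 1 := by
    intro h
    have : f 0 = f 1 := by rw [map_zero, map_one]; exact h
    exact zero_ne_one (hinj this)
  have hn : u * u + v * v ≠ 0 := by
    intro h0
    obtain ⟨rfl, rfl⟩ := gau_norm_zero hsq h0
    have hB0 : B = 0 := by
      rw [← hU, gau_zero_right, map_zero, zero_mul]
    rw [hB0, zero_mul] at hBB'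
    exact h01 hBB'
  set n := u * u + v * v with hn'
  set γ := gau f i (u / n) (-v / n) with hγ
  have hUγ : gau f i u v * γ = 1 := by
    rw [hγ, gau_mul hf hii]
    have e1 : u * (u / n) - v * (-v / n) = 1 := by
      field_simp
      rw [hn']; ring
    have e2 : u * (-v / n) + v * (u / n) = 0 := by ring
    rw [e1, e2, gau_zero_right, map_one]
  have hγU : γ * gau f i u v = 1 := by rw [hγ, gau_comm hf hii]; exact hUγ
  set e := a * γ with he
  have haγ : a * γ = γ * a := gau_commute hf hai _ _
  have hee : e * e = 1 := by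
    calc e * e = a * (γ * a) * γ := by simp only [he, mul_assoc]
      _ = a * a * (γ * γ) := by rw [← haγ]; simp only [mul_assoc]
      _ = gau f i u v * gau f i u v * (γ * γ) := by rw [hb, hU]
      _ = 1 := by rw [mul_assoc, ← mul_assoc (gau f i u v) γ γ, hUγ, one_mul, hUγ]
  have hcγ : c * γ = γ * c := gau_commute hf hic.symm _ _
  have hec : e * c = c * e := by
    calc e * c = a * (γ * c) := by simp only [he, mul_assoc]
      _ = a * (c * γ) := by rw [hcγ]
      _ = c * (a * γ) := by rw [← mul_assoc, hac, mul_assoc]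
  set γ' := gau f i (u / n) (-(-v / n)) with hγ'
  have hjγ : j * γ = γ' * j := gau_conj hf hji _ _
  have hγ'γ : γ' * γ = f (1 / n) := by
    rw [hγ', hγ, gau_mul hf hii]
    have e1 : u / n * (u / n) - -(-v / n) * (-v / n) = 1 / n := by
      field_simp
      rw [hn']; ring
    have e2 : u / n * (-v / n) + -(-v / n) * (u / n) = 0 := by ring
    rw [e1, e2, gau_zero_right]
  have haγ' : a * γ' = γ' * a := gau_commute hf hai _ _
  obtain ⟨σ, hσ⟩ : ∃ σ : F, a * j * a = f σ * j := by
    rcases haj with h | h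
    · exact ⟨1, by rw [h, map_one, one_mul]⟩
    · exact ⟨-1, by rw [h, map_neg, map_one, neg_mul, one_mul]⟩
  have hja : j * a = f σ * (B' * a * j) := by
    calc j * a = (B' * B) * (j * a) := by rw [hB'B, one_mul]
      _ = B' * (a * (a * j * a)) := by rw [← hb]; simp only [mul_assoc]
      _ = B' * (a * (f σ * j)) := by rw [hσ]
      _ = f σ * (B' * a * j) := by rw [hfl, hfl, mul_assoc]
  set e' := B' * a * γ' with he'
  have hje1 : j * e = f σ * (e' * j) := by
    calc j * e = (j * a) * γ := by rw [he, mul_assoc]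
      _ = f σ * (B' * a * (j * γ)) := by rw [hja]; simp only [mul_assoc]
      _ = f σ * (e' * j) := by rw [hjγ, he']; simp only [mul_assoc]
  have he'e : e' * e = f (1 / n) := by
    calc e' * e = B' * (a * (γ' * a) * γ) := by simp only [he', he, mul_assoc]
      _ = B' * (a * a) * (γ' * γ) := by rw [← haγ']; simp only [mul_assoc]
      _ = f (1 / n) := by rw [hb, hB'B, one_mul, hγ'γ]
  have he'2 : e' = f (1 / n) * e := by
    calc e' = e' * (e * e) := by rw [hee, mul_one]
      _ = f (1 / n) * e := by rw [← mul_assoc, he'e]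
  set δ : F := σ * (1 / n) with hδ
  have hje2 : j * e = f δ * (e * j) := by
    rw [hje1, he'2, hδ, map_mul]
    simp only [mul_assoc]
  have hδ2 : δ * δ = 1 := by
    have h1 : f (δ * δ) * j = j := by
      calc f (δ * δ) * j = f δ * (f δ * ((e * e) * j)) := by
            rw [hee, one_mul, map_mul, mul_assoc]
        _ = f δ * (e * (f δ * (e * j))) := by rw [hfl δ e (e * j), mul_assoc]
        _ = f δ * (e * (j * e)) := by rw [hje2]
        _ = (f δ * (e * j)) * e := by simp only [mul_assoc]
        _ = j * (e * e) := by rw [← hje2, mul_assoc]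
        _ = j := by rw [hee, mul_one]
    have h2' := hcancel _ h1
    apply hinj
    rw [h2', map_one]
  have hje3 : j * e = e * j ∨ j * e = -(e * j) := by
    rcases mul_self_eq_one_iff.mp hδ2 with h | h
    · left; rw [hje2, h, map_one, one_mul]
    · right; rw [hje2, h, map_neg, map_one, neg_mul, one_mul]
  have haU : a = e * gau f i u v := by
    rw [he, mul_assoc, hγU, mul_one]
  rcases il e hee hec hje3 with h | h
  · exact ⟨u, v, by rw [haU, h, one_mul]⟩
  · exact ⟨-u, -v, by rw [gau_neg, haU, h, neg_mul, one_mul]⟩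

end Gauss

variable {q : ℕ} {V : Type*} [AddCommGroup V] {c j : AddMonoid.End V} {s : ℕ}

theorem semi_sq_conj (h : SemiCtx q V c j s) : c ^ 2 * j * c ^ 2 = j := by
  have e : c ^ 2 * j * c ^ 2 = c * (c * j * c) * c := by
    rw [pow_two]; simp only [mul_assoc]
  rcases h.hj with h1 | ⟨_, h1⟩
  · rw [e, h1, h1]
  · rw [e, h1, mul_neg, neg_mul, h1, neg_neg]

theorem semi_pow_conj (h : SemiCtx q V c j s) (n : ℕ) :
    c ^ n * j * c ^ n = j ∨ c ^ n * j * c ^ n = -j := by
  have hev : ∀ m : ℕ, c ^ (2 * m) * j * c ^ (2 * m) = j := by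
    intro m
    rw [pow_mul]
    exact semi_conj_pow (semi_sq_conj h) m
  rcases Nat.even_or_odd' n with ⟨m, rfl | rfl⟩
  · left; exact hev m
  · have e : c ^ (2 * m + 1) * j * c ^ (2 * m + 1) =
        c ^ (2 * m) * (c * j * c) * c ^ (2 * m) := by
      calc c ^ (2 * m + 1) * j * c ^ (2 * m + 1)
          = (c ^ (2 * m) * c) * j * (c * c ^ (2 * m)) := by rw [← pow_succ, ← pow_succ']
        _ = c ^ (2 * m) * (c * j * c) * c ^ (2 * m) := by simp only [mul_assoc]
    rcases h.hj with h1 | ⟨_, h1⟩
    · left; rw [e, h1]; exact hev m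
    · right; rw [e, h1, mul_neg, neg_mul, hev m]

theorem semi_isSquare_or {q : ℕ} [hq : Fact q.Prime] (h4 : q % 4 = 3) (x : ZMod q)
    (hx : x ≠ 0) : IsSquare x ∨ IsSquare (-x) := by
  rcases ZMod.pow_div_two_eq_neg_one_or_one q hx with h | h
  · left; exact (ZMod.euler_criterion q hx).mpr h
  · right
    have hodd : Odd (q / 2) := by
      rw [Nat.odd_iff]; omega
    apply (ZMod.euler_criterion q (neg_ne_zero.mpr hx)).mpr
    rw [neg_pow, h, hodd.neg_one_pow]
    ring

theorem SemiCtx.c_mem (h : SemiCtx q V c j s) (h4 : q % 4 = 3) :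
    ∃ α β : ℤ, c = (α : AddMonoid.End V) + (β : AddMonoid.End V) * c ^ (2 ^ (s - 2)) := by
  have hqp : Fact q.Prime := ⟨h.hq⟩
  have hntV := h.hnt
  have hntR : Nontrivial (AddMonoid.End V) := by
    refine ⟨⟨0, 1, fun h01 => ?_⟩⟩
    obtain ⟨v, hv⟩ := exists_ne (0 : V)
    apply hv
    have := congrArg (fun g : AddMonoid.End V => g v) h01
    simpa using this.symm
  have hchar : CharP (AddMonoid.End V) q :=
    (CharP.charP_iff_prime_eq_zero h.hq).mpr (semi_natCast_q h)
  let f : ZMod q →+* AddMonoid.End V := ZMod.castHom (dvd_refl q) _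
  have hf : ∀ a x, f a * x = x * f a := by
    intro a x
    have : f a = ((a.val : ℕ) : AddMonoid.End V) := by
      rw [ZMod.natCast_val]; rfl
    rw [this]
    exact (Nat.cast_commute _ _).eq
  have hinj : Function.Injective f := f.injective
  have hsq : ¬ IsSquare (-1 : ZMod q) := fun hs => (ZMod.exists_sq_eq_neg_one_iff.mp hs) h4
  have h2 : (2 : ZMod q) ≠ 0 := by
    intro h0
    have hd : q ∣ 2 := (ZMod.natCast_eq_zero_iff 2 q).mp (by exact_mod_cast h0)
    exact h.hodd ((Nat.prime_dvd_prime_iff_eq h.hq Nat.prime_two).mp hd)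
  have hpm : ∀ x : ZMod q, x ≠ 0 → IsSquare x ∨ IsSquare (-x) := semi_isSquare_or h4
  set i : AddMonoid.End V := c ^ (2 ^ (s - 2)) with hi
  have hii : i * i = -1 := semi_i_sq h
  have hji : j * i = -(i * j) := semi_j_i h
  have hic : i * c = c * i := by rw [hi, ← pow_succ, ← pow_succ']
  have key : ∀ k : ℕ, k ≤ s - 2 → ∃ a b : ZMod q, c ^ (2 ^ (s - 2 - k)) = gau f i a b := by
    intro k
    induction k with
    | zero =>
      intro _
      refine ⟨0, 1, ?_⟩
      unfold gau
      rw [map_zero, map_one, zero_add, one_mul]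
      rfl
    | succ k ih =>
      intro hk
      obtain ⟨α, β, hαβ⟩ := ih (by omega)
      have ht : s - 2 - k = (s - 2 - (k + 1)) + 1 := by omega
      set t' := s - 2 - (k + 1) with ht'
      set a := c ^ (2 ^ t') with ha
      have haa : a * a = c ^ (2 ^ (s - 2 - k)) := by
        rw [ha, ← pow_add, ht, pow_succ 2 t']
        congr 1
        ring
      have hb : a * a = gau f i α β := by rw [haa, hαβ]
      have hai : a * i = i * a := by rw [ha, hi]; exact pow_mul_comm c _ _
      have hac : a * c = c * a := by rw [ha, ← pow_succ, ← pow_succ']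
      have haj : a * j * a = j ∨ a * j * a = -j := semi_pow_conj h _
      have hbj : (a * a) * j * (a * a) = j := by
        rw [haa, ht, pow_succ 2 t', mul_comm (2 ^ t') 2, pow_mul]
        exact semi_conj_pow (semi_sq_conj h) _
      exact gau_step hf hii hinj hsq h2 hpm hic hai hac hji h.hj2 haj hb hbj h.il
  obtain ⟨a, b, hab⟩ := key (s - 2) le_rfl
  refine ⟨(a.val : ℤ), (b.val : ℤ), ?_⟩
  have hfa : ∀ x : ZMod q, f x = ((x.val : ℤ) : AddMonoid.End V) := by
    intro x
    rw [Int.cast_natCast, ZMod.natCast_val]; rfl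
  rw [← hfa, ← hfa]
  have : s - 2 - (s - 2) = 0 := by omega
  rw [this, pow_zero, pow_one] at hab
  exact hab

end Cfsg.Agent.Lib.Helper87
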