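import Mathlib
import Cfsg.Agent.Lib.Helper80.BaerDefs
import Cfsg.Agent.Lib.Helper87.BaerLA1
import Cfsg.Agent.Lib.Helper87.BaerLA2

/-!
# S4125 piece LA3 (helper87): `|V| = q ^ 2` in a `SemiCtx` with `q % 4 = 3` and `c ∈ ℤ[i]`
-/

set_option autoImplicit false

namespace Cfsg.Agent.Lib.Helper87

open Cfsg.Agent.Lib.Helper80

theorem gau_inv {R : Type*} [Ring R] {F : Type*} [Field F] {f : F →+* R} {i : R}
    (hf : ∀ a x, f a * x = x * f a) (hii : i * i = -1) {a b : F} (hn : a * a + b * b ≠ 0) :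
    gau f i (a / (a * a + b * b)) (-b / (a * a + b * b)) * gau f i a b = 1 := by
  rw [gau_mul hf hii]
  have e1 : a / (a * a + b * b) * a - -b / (a * a + b * b) * b = 1 := by
    have e : a / (a * a + b * b) * a - -b / (a * a + b * b) * b =
        (a * a + b * b) / (a * a + b * b) := by ring
    rw [e, div_self hn]
  have e2 : a / (a * a + b * b) * b + -b / (a * a + b * b) * a = 0 := by ring
  rw [e1, e2, gau_zero_right, map_one]

theorem gau_add {R : Type*} [Ring R] {F : Type*} [Field F] {f : F →+* R} {i : R}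
    (a b a' b' : F) : gau f i (a + a') (b + b') = gau f i a b + gau f i a' b' := by
  unfold gau
  rw [map_add, map_add, add_mul]
  abel

variable {q : ℕ} {V : Type*} [AddCommGroup V] {c j : AddMonoid.End V} {s : ℕ}

theorem semi_card_core [Finite V] (h : SemiCtx q V c j s) [Fact q.Prime]
    {f : ZMod q →+* AddMonoid.End V} {i : AddMonoid.End V}
    (hf : ∀ a x, f a * x = x * f a) (hii : i * i = -1)
    (hsq : ¬ IsSquare (-1 : ZMod q))
    (hji : j * i = -(i * j)) {a₀ b₀ : ZMod q} (hc : c = gau f i a₀ b₀)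
    {w : V} (hw : w ≠ 0) {x y : ZMod q} (hjw : j w = gau f i x y w) : Nat.card V = q ^ 2 := by
  let φ : ZMod q × ZMod q →+ V :=
    { toFun := fun p => gau f i p.1 p.2 w
      map_zero' := by
        show gau f i 0 0 w = 0
        rw [gau_zero_right, map_zero]; rfl
      map_add' := by
        intro p p'
        show gau f i (p.1 + p'.1) (p.2 + p'.2) w = gau f i p.1 p.2 w + gau f i p'.1 p'.2 w
        rw [gau_add]; rfl }
  have hφapp : ∀ a b : ZMod q, φ (a, b) = gau f i a b w := fun _ _ => rfl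
  have hφ : Function.Injective φ := by
    rw [injective_iff_map_eq_zero]
    rintro ⟨a, b⟩ hab
    rw [hφapp] at hab
    by_contra hne
    have hn : a * a + b * b ≠ 0 := by
      intro h0
      obtain ⟨rfl, rfl⟩ := gau_norm_zero hsq h0
      exact hne rfl
    have hinv := gau_inv hf hii hn
    have hw0 : w = 0 := by
      calc w = (gau f i (a / (a * a + b * b)) (-b / (a * a + b * b)) * gau f i a b) w := by
            rw [hinv]; rfl
        _ = gau f i (a / (a * a + b * b)) (-b / (a * a + b * b)) (gau f i a b w) := rfl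
        _ = 0 := by rw [hab, map_zero]
    exact hw hw0
  have hcard : Nat.card φ.range = q ^ 2 := by
    rw [← Nat.card_congr (AddMonoidHom.ofInjective hφ).toEquiv, Nat.card_prod, Nat.card_zmod, sq]
  have hcinv : ∀ v ∈ φ.range, c v ∈ φ.range := by
    rintro v ⟨⟨a, b⟩, rfl⟩
    refine ⟨(a₀ * a - b₀ * b, a₀ * b + b₀ * a), ?_⟩
    rw [hφapp, hφapp, ← gau_mul hf hii, ← hc]; rfl
  have hjinv : ∀ v ∈ φ.range, j v ∈ φ.range := by
    rintro v ⟨⟨a, b⟩, rfl⟩
    refine ⟨(a * x - (-b) * y, a * y + (-b) * x), ?_⟩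
    rw [hφapp, hφapp, ← gau_mul hf hii]
    show gau f i a (-b) (gau f i x y w) = (j * gau f i a b) w
    rw [gau_conj hf hji, ← hjw]; rfl
  rcases h.irr φ.range hcinv hjinv with h0 | h1
  · exfalso
    have hwm : w ∈ φ.range := by
      refine ⟨(1, 0), ?_⟩
      rw [hφapp, gau_zero_right, map_one]; rfl
    rw [h0, AddSubgroup.mem_bot] at hwm
    exact hw hwm
  · rw [← hcard, h1, AddSubgroup.card_top]

theorem SemiCtx.card_eq [Finite V] (h : SemiCtx q V c j s) (h4 : q % 4 = 3)
    (hc : ∃ α β : ℤ, c = (α : AddMonoid.End V) + (β : AddMonoid.End V) * c ^ (2 ^ (s - 2))) :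
    Nat.card V = q ^ 2 := by
  have hqp : Fact q.Prime := ⟨h.hq⟩
  have hntV := h.hnt
  have hntR : Nontrivial (AddMonoid.End V) := by
    refine ⟨⟨0, 1, fun h01 => ?_⟩⟩
    obtain ⟨v, hv⟩ := exists_ne (0 : V)
    apply hv
    have := congrArg (fun g : AddMonoid.End V => g v) h01
    simpa using this.symm
  have hchar : CharP (AddMonoid.End V) q :=
    (CharP.charP_iff_prime_eq_zero h.hq).mpr (semi_natCast_q h)
  let f : ZMod q →+* AddMonoid.End V := ZMod.castHom (dvd_refl q) _
  have hf : ∀ a x, f a * x = x * f a := by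
    intro a x
    have : f a = ((a.val : ℕ) : AddMonoid.End V) := by
      rw [ZMod.natCast_val]; rfl
    rw [this]
    exact (Nat.cast_commute _ _).eq
  have hsq : ¬ IsSquare (-1 : ZMod q) := fun hs => (ZMod.exists_sq_eq_neg_one_iff.mp hs) h4
  set i : AddMonoid.End V := c ^ (2 ^ (s - 2)) with hi
  have hii : i * i = -1 := semi_i_sq h
  have hji : j * i = -(i * j) := semi_j_i h
  obtain ⟨α, β, hcαβ⟩ := hc
  have hcG : c = gau f i (α : ZMod q) (β : ZMod q) := by
    unfold gau
    rw [map_intCast, map_intCast]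
    exact hcαβ
  obtain ⟨ε, hε2, hjj⟩ : ∃ ε : ZMod q, ε * ε = 1 ∧ j * j = f ε := by
    rcases h.hj2 with h1 | h1
    · exact ⟨1, by ring, by rw [h1, map_one]⟩
    · exact ⟨-1, by ring, by rw [h1, map_neg, map_one]⟩
  obtain ⟨a, b, hab⟩ := ZMod.sq_add_sq q ε
  set E := gau f i a b with hE
  set E' := gau f i a (-b) with hE'
  have hE'E : E' * E = f ε := by
    rw [hE, hE', gau_mul hf hii]
    have e1 : a * a - -b * b = ε := by linear_combination hab
    have e2 : a * b + -b * a = 0 := by ring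
    rw [e1, e2, gau_zero_right]
  have hjE : j * E = E' * j := gau_conj hf hji a b
  have hmul : ∀ (g g' : AddMonoid.End V) (v : V), (g * g') v = g (g' v) := fun _ _ _ => rfl
  obtain ⟨v0, hv0⟩ := exists_ne (0 : V)
  have hff : f ε * f ε = 1 := by rw [← map_mul, hε2, map_one]
  by_cases hw : v0 + E (j v0) = 0
  · -- `j v0 ∈ K v0`
    have h1 : E (j v0) = -v0 := eq_neg_of_add_eq_zero_right hw
    have h2 : f ε (j v0) = -(E' v0) := by
      rw [← hE'E, hmul, h1, map_neg]
    have h3 : j v0 = gau f i (-(ε * a)) (-(ε * -b)) v0 := by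
      have e : gau f i (-(ε * a)) (-(ε * -b)) = -(f ε * E') := by
        rw [gau_neg, hE', ← gau_zero_right (f := f) (i := i) ε, gau_mul hf hii]
        congr 2 <;> ring
      rw [e]
      calc j v0 = (f ε * f ε) (j v0) := by rw [hff]; rfl
        _ = f ε (f ε (j v0)) := rfl
        _ = (-(f ε * E')) v0 := by rw [h2, map_neg]; rfl
    exact semi_card_core h hf hii hsq hji hcG hv0 h3
  · have h3 : j (v0 + E (j v0)) = gau f i (a * ε) (-b * ε) (v0 + E (j v0)) := by
      have e : gau f i (a * ε) (-b * ε) = E' * f ε := by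
        rw [hE', ← gau_zero_right (f := f) (i := i) ε, gau_mul hf hii]
        congr 1 <;> ring
      have h5 : E' * f ε * E = 1 := by
        rw [mul_assoc, hf ε E, ← mul_assoc, hE'E, hff]
      rw [e, map_add, map_add]
      have h6 : j (E (j v0)) = (E' * f ε) v0 := by
        calc j (E (j v0)) = (j * E) (j v0) := rfl
          _ = E' ((j * j) v0) := by rw [hjE]; rfl
          _ = (E' * f ε) v0 := by rw [hjj]; rfl
      have h7 : (E' * f ε) (E (j v0)) = j v0 := by
        calc (E' * f ε) (E (j v0)) = (E' * f ε * E) (j v0) := rfl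
          _ = j v0 := by rw [h5]; rfl
      rw [h6, h7, add_comm]
    exact semi_card_core h hf hii hsq hji hcG hw h3

end Cfsg.Agent.Lib.Helper87
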