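import Mathlib
import Cfsg.Agent.S0016
import Cfsg.Agent.Lib.Helper66.PAct
import Cfsg.Agent.Lib.Helper80.BaerDefs

/-!
# S4125 piece X4a (helper87): a p-group with a non-cyclic abelian normal subgroup

`pgroup_rank2`: there are a central `z` of order `p` and `a` of order `p`, `a ∉ ⟨z⟩`, with
`x a x⁻¹ ∈ a⟨z⟩` for all `x`.
-/

set_option autoImplicit false

namespace Cfsg.Agent.Lib.Helper87

open Cfsg.Agent.Lib.Helper80

/-- a non-cyclic abelian `p`-group has two elements of order `p`, one outside the cyclic group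
generated by the other -/
theorem exists_two_of_not_cyclic {A : Type*} [Group A] [Finite A] (p : ℕ) [hp : Fact p.Prime]
    (hA : IsPGroup p A) (hcomm : ∀ a b : A, a * b = b * a) (hnc : ¬ IsCyclic A) :
    ∃ b c : A, b ≠ 1 ∧ b ^ p = 1 ∧ c ^ p = 1 ∧ c ∉ Subgroup.zpowers b := by
  have h := mt (Cfsg.Agent.S0016.isCyclic_of_comm_of_unique p hA hcomm) hnc
  push Not at h
  obtain ⟨H, K, hH, hK, hne⟩ := h
  have hp1 : 1 < p := hp.out.one_lt
  have hHnt : H ≠ ⊥ := by
    intro hb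
    rw [hb, Subgroup.card_bot] at hH
    omega
  obtain ⟨⟨b, hbH⟩, hb1⟩ := (Subgroup.ne_bot_iff_exists_ne_one).mp hHnt
  have hb1' : b ≠ 1 := fun h' => hb1 (Subtype.ext h')
  have hbp : b ^ p = 1 := by
    have h1 : (⟨b, hbH⟩ : H) ^ Nat.card H = 1 := pow_card_eq_one'
    rw [hH] at h1
    exact congrArg Subtype.val h1
  have hzb : Subgroup.zpowers b = H := by
    apply Subgroup.eq_of_le_of_card_ge
    · rw [Subgroup.zpowers_le]; exact hbH
    · rw [Nat.card_zpowers, orderOf_eq_prime hbp hb1', hH]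
  have hKH : ¬ K ≤ H := by
    intro hle
    exact hne (Subgroup.eq_of_le_of_card_ge hle (by rw [hH, hK])).symm
  obtain ⟨c, hcK, hcH⟩ := SetLike.not_le_iff_exists.mp hKH
  refine ⟨b, c, hb1', hbp, ?_, ?_⟩
  · have h1 : (⟨c, hcK⟩ : K) ^ Nat.card K = 1 := pow_card_eq_one'
    rw [hK] at h1
    exact congrArg Subtype.val h1
  · rw [hzb]; exact hcH

theorem pgroup_rank2 {P : Type*} [Group P] [Finite P] (p : ℕ) [Fact p.Prime] (hP : IsPGroup p P)
    (A : Subgroup P) (hAn : A.Normal) (hA : IsMulCommutative A) (hnc : ¬ IsCyclic A) :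
    ∃ z a : P, (∀ x : P, x * z = z * x) ∧ z ≠ 1 ∧ z ^ p = 1 ∧ a ^ p = 1 ∧ (∀ k : ℕ, a ≠ z ^ k) ∧
      ∀ x : P, ∃ k : ℕ, x * a * x⁻¹ = a * z ^ k := by
  have hpp : p.Prime := Fact.out
  have hcommA : ∀ a b : A, a * b = b * a := fun a b => hA.is_comm.comm a b
  obtain ⟨b, c, hb1, hbp, hcp, hcb⟩ :=
    exists_two_of_not_cyclic p (hP.to_subgroup A) hcommA hnc
  -- the subgroup `E = Ω₁(A)`
  let E : Subgroup P :=
    { carrier := {a | a ∈ A ∧ a ^ p = 1}
      mul_mem' := by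
        rintro x y ⟨hx, hxp⟩ ⟨hy, hyp⟩
        refine ⟨A.mul_mem hx hy, ?_⟩
        have hc : Commute x y := congrArg Subtype.val (hcommA ⟨x, hx⟩ ⟨y, hy⟩)
        rw [hc.mul_pow, hxp, hyp, one_mul]
      one_mem' := ⟨A.one_mem, one_pow _⟩
      inv_mem' := by
        rintro x ⟨hx, hxp⟩
        exact ⟨A.inv_mem hx, by rw [inv_pow, hxp, inv_one]⟩ }
  have hEmem : ∀ x : P, x ∈ E ↔ x ∈ A ∧ x ^ p = 1 := fun x => Iff.rfl
  have hEn : E.Normal := by
    refine ⟨fun n hn g => ?_⟩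
    rw [hEmem] at hn ⊢
    refine ⟨hAn.conj_mem n hn.1 g, ?_⟩
    rw [conj_pow, hn.2, mul_one, mul_inv_cancel]
  have hbE : (b : P) ∈ E := ⟨b.2, by
    have := congrArg Subtype.val hbp
    simpa using this⟩
  have hcE : (c : P) ∈ E := ⟨c.2, by
    have := congrArg Subtype.val hcp
    simpa using this⟩
  have hb1' : (b : P) ≠ 1 := fun h => hb1 (Subtype.ext h)
  have hEne : E ≠ ⊥ := by
    intro h
    rw [h, Subgroup.mem_bot] at hbE
    exact hb1' hbE
  have hz := Cfsg.Agent.Lib.Helper66.normal_inf_center_ne_bot hP (N := E) hEne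
  obtain ⟨⟨z, hzmem⟩, hz1⟩ := (Subgroup.ne_bot_iff_exists_ne_one).mp hz
  have hz1' : z ≠ 1 := fun h => hz1 (Subtype.ext h)
  have hzE : z ∈ E := hzmem.1
  have hzc : z ∈ Subgroup.center P := hzmem.2
  have hzp : z ^ p = 1 := hzE.2
  have hzcomm : ∀ x : P, x * z = z * x := fun x => Subgroup.mem_center_iff.mp hzc x
  -- `Z = ⟨z⟩` is normal of order `p`
  have hZn : (Subgroup.zpowers z).Normal := by
    refine ⟨fun n hn g => ?_⟩
    have hnc' : n ∈ Subgroup.center P := by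
      obtain ⟨k, rfl⟩ := hn
      exact (Subgroup.center P).zpow_mem hzc k
    have := Subgroup.mem_center_iff.mp hnc' g
    rw [this, mul_inv_cancel_right]
    exact hn
  have hZcard : Nat.card (Subgroup.zpowers z) = p := by
    rw [Nat.card_zpowers, orderOf_eq_prime hzp hz1']
  -- some element of `E` lies outside `Z`
  have hex : ∃ a₀ : P, a₀ ∈ E ∧ a₀ ∉ Subgroup.zpowers z := by
    by_contra hcon
    push Not at hcon
    have hbZ := hcon b hbE
    have hcZ := hcon c hcE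
    have hbpP : (b : P) ^ p = 1 := hbE.2
    have heq : Subgroup.zpowers (b : P) = Subgroup.zpowers z := by
      apply Subgroup.eq_of_le_of_card_ge
      · rw [Subgroup.zpowers_le]; exact hbZ
      · rw [hZcard, Nat.card_zpowers (b : P), orderOf_eq_prime hbpP hb1']
    rw [← heq] at hcZ
    obtain ⟨k, hk⟩ := hcZ
    apply hcb
    refine ⟨k, ?_⟩
    apply Subtype.ext
    simpa using hk
  obtain ⟨a₀, ha₀E, ha₀Z⟩ := hex
  -- pass to the quotient
  let π : P →* P ⧸ Subgroup.zpowers z := QuotientGroup.mk' (Subgroup.zpowers z)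
  have hπsurj : Function.Surjective π := QuotientGroup.mk'_surjective _
  have hπ1 : ∀ x : P, π x = 1 ↔ x ∈ Subgroup.zpowers z := fun x =>
    QuotientGroup.eq_one_iff x
  have hĒn : (E.map π).Normal := hEn.map π hπsurj
  have hĒne : E.map π ≠ ⊥ := by
    intro h
    have h1 : π a₀ ∈ E.map π := Subgroup.mem_map_of_mem π ha₀E
    rw [h, Subgroup.mem_bot, hπ1] at h1
    exact ha₀Z h1
  have hPq : IsPGroup p (P ⧸ Subgroup.zpowers z) := hP.to_quotient _
  have hq := Cfsg.Agent.Lib.Helper66.normal_inf_center_ne_bot hPq (N := E.map π) hĒne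
  obtain ⟨⟨abar, habar⟩, habar1⟩ := (Subgroup.ne_bot_iff_exists_ne_one).mp hq
  have habar1' : abar ≠ 1 := fun h => habar1 (Subtype.ext h)
  obtain ⟨a, haE, rfl⟩ := Subgroup.mem_map.mp habar.1
  have hac : π a ∈ Subgroup.center (P ⧸ Subgroup.zpowers z) := habar.2
  have haZ : a ∉ Subgroup.zpowers z := fun h => habar1' ((hπ1 a).mpr h)
  refine ⟨z, a, hzcomm, hz1', hzp, haE.2, ?_, ?_⟩
  · intro k hk
    apply haZ
    rw [hk]
    exact Subgroup.pow_mem _ (Subgroup.mem_zpowers z) k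
  · intro x
    have h1 : π x * π a = π a * π x := Subgroup.mem_center_iff.mp hac (π x)
    have h2 : π (a⁻¹ * (x * a * x⁻¹)) = 1 := by
      rw [map_mul, map_mul, map_mul, map_inv, map_inv, h1]
      group
    rw [hπ1] at h2
    have h3 : a⁻¹ * (x * a * x⁻¹) ∈ Submonoid.powers z := mem_powers_iff_mem_zpowers.mpr h2
    obtain ⟨k, hk⟩ := (Submonoid.mem_powers_iff _ _).mp h3
    refine ⟨k, ?_⟩
    rw [hk, mul_inv_cancel_left]

end Cfsg.Agent.Lib.Helper87
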