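import Mathlib
import Cfsg.Prelude.Def_ConjugacyFunctors
import Cfsg.Agent.Lib.Helper42.Sec17

set_option autoImplicit false
universe u

/-!
# The local transfer condition for the lower K-infinity functor (`p ≥ 5`)
-/

namespace Cfsg.Agent.Lib.Helper87

open Cfsg

theorem fp_pCore_le_sylow {G : Type*} [Group G] [Finite G] {p : ℕ} [Fact p.Prime]
    (P : Sylow p G) : Cfsg.pCore p G ≤ (P : Subgroup G) := by
  have : (Cfsg.pCore p G).Normal := Subgroup.sSup_normal _ (fun _ hK => hK.1)
  have h1 : IsPGroup p (Cfsg.pCore p G) :=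
    Sylow.sSup_of_normal _ (fun _ hK => hK.2) (fun _ hK => hK.1)
  exact h1.le_sylow_of_normal P

/-- For `p ≥ 5` the lower K-infinity functor satisfies the local transfer condition (in the
strong form, for every finite group). -/
theorem fp_kInfLower_hT {p : ℕ} [Fact p.Prime] (hp : 5 ≤ p) :
    ∀ (G : Type u) [Group G] [Finite G] (P : Sylow p G),
      Subgroup.centralizer ((Cfsg.pCore p G : Subgroup G) : Set G) ≤ Cfsg.pCore p G →
      Cfsg.pCore p G ⊓ commutator G = Cfsg.pCore p G ⊓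
        (commutator ↥(Subgroup.normalizer (((Cfsg.kInfLower ↥(P : Subgroup G)).map
          (P : Subgroup G).subtype : Subgroup G) : Set G))).map
          (Subgroup.normalizer (((Cfsg.kInfLower ↥(P : Subgroup G)).map
            (P : Subgroup G).subtype : Subgroup G) : Set G)).subtype := by
  intro G _ _ P _
  have htr : Cfsg.Agent.Lib.Helper42.Tr p {Cfsg.kInfLower} G :=
    Cfsg.Agent.Lib.Helper42.tr_of_sections_E
      (Cfsg.Agent.Lib.Helper42.isCharPFunctor_kInfLower p)
      (fun K R _ _ => Cfsg.Agent.Lib.Helper42.hypE_kInfLower hp) G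
      (Cfsg.Agent.Lib.Helper42.IsSec.refl G)
  have h𝓦 : ∀ W' ∈ ({Cfsg.kInfLower} : Set (∀ (Q : Type u) [Group Q], Subgroup Q)),
      Cfsg.IsCharPFunctor.{u} p W' := by
    rintro W' rfl
    exact Cfsg.Agent.Lib.Helper42.isCharPFunctor_kInfLower p
  have hSyl : Cfsg.Agent.Lib.Helper42.IsSylIn p (P : Subgroup G) ⊤ :=
    ⟨le_top, P.isPGroup', by rw [Subgroup.relIndex_top_right]; exact P.not_dvd_index⟩
  have hle := Cfsg.Agent.Lib.Helper42.Tr.le h𝓦 htr hSyl
  have hle' : (P : Subgroup G) ⊓ ⁅(⊤ : Subgroup G), ⊤⁆ ≤ (P : Subgroup G) ⊓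
      ⁅Subgroup.normalizer (((Cfsg.kInfLower ↥(P : Subgroup G)).map
          (P : Subgroup G).subtype : Subgroup G) : Set G),
        Subgroup.normalizer (((Cfsg.kInfLower ↥(P : Subgroup G)).map
          (P : Subgroup G).subtype : Subgroup G) : Set G)⁆ := by
    refine hle.trans ?_
    simp [Cfsg.Agent.Lib.Helper42.Foc, Cfsg.Agent.Lib.Helper42.fam, Cfsg.inducedFunctor]
  rw [Subgroup.map_subtype_commutator]
  apply le_antisymm
  · intro x hx
    exact ⟨hx.1, (hle' ⟨fp_pCore_le_sylow P hx.1, hx.2⟩).2⟩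
  · exact inf_le_inf_left _ (Subgroup.commutator_mono le_top le_top)

end Cfsg.Agent.Lib.Helper87
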