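import Mathlib
import Cfsg.Agent.Lib.Helper93.Sp4Defs

set_option autoImplicit false

/-! S2293 piece SP4-NF1 (job of helper93): `n' = tb⁻¹ * ta * tb` inverts the root map `xa`:
`n' * xa a * n'⁻¹ = xa (-a)` for all `a`.  helper87. -/

namespace Cfsg.Agent.Lib.Helper93.Sp4

section h87nf1

variable {F : Type*} [Field F] {P : Type*} [Group P] {ζ : F} {n : ℕ} {xa xb : F → P}
  {ha ta hb tb : P}

/-- `n' * hb * n'⁻¹ = (ha * hb)⁻¹`. -/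
theorem h87_nf1_conj (D : C2Root ζ n xa xb ha ta hb tb) :
    tb⁻¹ * ta * tb * hb * (tb⁻¹ * ta * tb)⁻¹ = (ha * hb)⁻¹ := by
  have h1 : tb * hb * tb⁻¹ = hb⁻¹ := D.tb_hb
  have h2 : ta * hb⁻¹ * ta⁻¹ = (ha * hb)⁻¹ := by
    rw [← D.ta_hb]; group
  have h3 : tb * (ha * hb) * tb⁻¹ = ha * hb := by
    calc tb * (ha * hb) * tb⁻¹ = (tb * ha * tb⁻¹) * (tb * hb * tb⁻¹) := by group
      _ = ha * hb * hb * hb⁻¹ := by rw [D.tb_ha, D.tb_hb]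
      _ = ha * hb := by group
  have h4 : tb⁻¹ * (ha * hb)⁻¹ * tb = (ha * hb)⁻¹ := by
    have h5 : tb⁻¹ * (ha * hb) * tb = ha * hb := by
      nth_rewrite 1 [← h3]; group
    calc tb⁻¹ * (ha * hb)⁻¹ * tb = (tb⁻¹ * (ha * hb) * tb)⁻¹ := by group
      _ = (ha * hb)⁻¹ := by rw [h5]
  calc tb⁻¹ * ta * tb * hb * (tb⁻¹ * ta * tb)⁻¹
      = tb⁻¹ * (ta * (tb * hb * tb⁻¹) * ta⁻¹) * tb := by group
    _ = tb⁻¹ * (ha * hb)⁻¹ * tb := by rw [h1, h2]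
    _ = (ha * hb)⁻¹ := h4

/-- `(ha * hb)⁻¹ * xa a * (ha * hb) = xa (ζ * a)`. -/
theorem h87_nf1_act (D : C2Root ζ n xa xb ha ta hb tb) (hζ0 : ζ ≠ 0) (a : F) :
    (ha * hb)⁻¹ * xa a * (ha * hb) = xa (ζ * a) := by
  have h1 : ∀ c, hb⁻¹ * xa c * hb = xa (ζ⁻¹ * c) := by
    intro c
    have h2 := D.a_hb (ζ⁻¹ * c)
    rw [← mul_assoc, mul_inv_cancel₀ hζ0, one_mul] at h2
    rw [← h2]
    group
  calc (ha * hb)⁻¹ * xa a * (ha * hb) = hb⁻¹ * (ha⁻¹ * xa a * ha) * hb := by group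
    _ = hb⁻¹ * xa (ζ ^ 2 * a) * hb := by rw [D.a_ha]
    _ = xa (ζ⁻¹ * (ζ ^ 2 * a)) := h1 _
    _ = xa (ζ * a) := by
      congr 1
      field_simp

theorem h87_nf1_pow (D : C2Root ζ n xa xb ha ta hb tb) (hζ0 : ζ ≠ 0) (i : ℕ) :
    tb⁻¹ * ta * tb * xa (ζ ^ i) * (tb⁻¹ * ta * tb)⁻¹ = xa (-ζ ^ i) := by
  induction i with
  | zero =>
    rw [pow_zero]
    exact D.n1
  | succ i ih =>
    have h1 : xa (ζ ^ (i + 1)) = hb * xa (ζ ^ i) * hb⁻¹ := by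
      rw [D.a_hb, pow_succ, mul_comm]
    have h2 := h87_nf1_conj D
    calc tb⁻¹ * ta * tb * xa (ζ ^ (i + 1)) * (tb⁻¹ * ta * tb)⁻¹
        = (tb⁻¹ * ta * tb * hb * (tb⁻¹ * ta * tb)⁻¹) *
            (tb⁻¹ * ta * tb * xa (ζ ^ i) * (tb⁻¹ * ta * tb)⁻¹) *
            (tb⁻¹ * ta * tb * hb * (tb⁻¹ * ta * tb)⁻¹)⁻¹ := by
          rw [h1]; group
      _ = (ha * hb)⁻¹ * xa (-ζ ^ i) * (ha * hb) := by
          rw [h2, ih, inv_inv]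
      _ = xa (ζ * -ζ ^ i) := h87_nf1_act D hζ0 _
      _ = xa (-ζ ^ (i + 1)) := by
          congr 1
          rw [pow_succ]; ring

/-- NF1 -/
theorem nfact1 (D : C2Root ζ n xa xb ha ta hb tb) (hζ0 : ζ ≠ 0)
    (hζ : ∀ a : F, a ≠ 0 → ∃ j : ℕ, a = ζ ^ j) :
    ∀ a : F, tb⁻¹ * ta * tb * xa a * (tb⁻¹ * ta * tb)⁻¹ = xa (-a) := by
  intro a
  by_cases ha0 : a = 0
  · have h0 : xa 0 = 1 := by
      have h1 := D.adda 0 0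
      rw [add_zero] at h1
      exact (mul_eq_left (a := xa 0) (b := xa 0)).mp h1.symm
    rw [ha0, neg_zero, h0]
    group
  · obtain ⟨j, rfl⟩ := hζ a ha0
    exact h87_nf1_pow D hζ0 j

end h87nf1

end Cfsg.Agent.Lib.Helper93.Sp4
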