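import Mathlib
import Cfsg.Agent.Lib.Helper93.Sp4Defs

set_option autoImplicit false

/-! S2293 piece SP4-TORA (job of helper93): the torus `torus2 ha hb` is normalized by `ta` and
`tb` and acts on the root maps `xa`, `xb` by scalars.  helper87. -/

namespace Cfsg.Agent.Lib.Helper93.Sp4

section h87tora

variable {F : Type*} [Field F] {P : Type*} [Group P] {ζ : F} {n : ℕ} {xa xb : F → P}
  {ha ta hb tb : P}

theorem h87_tor_scal (x : F → P) (S : Set P)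
    (hS : ∀ g ∈ S, (∃ s : F, ∀ a, g * x a * g⁻¹ = x (s * a)) ∧
      (∃ s : F, ∀ a, g⁻¹ * x a * g = x (s * a))) :
    ∀ τ ∈ Subgroup.closure S, (∃ s : F, ∀ a, τ * x a * τ⁻¹ = x (s * a)) ∧
      (∃ s : F, ∀ a, τ⁻¹ * x a * τ = x (s * a)) := by
  intro τ hτ
  induction hτ using Subgroup.closure_induction with
  | mem y hy => exact hS y hy
  | one => exact ⟨⟨1, fun a => by simp⟩, ⟨1, fun a => by simp⟩⟩
  | mul τ₁ τ₂ _ _ ih₁ ih₂ =>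
    obtain ⟨⟨s₁, hs₁⟩, ⟨s₁', hs₁'⟩⟩ := ih₁
    obtain ⟨⟨s₂, hs₂⟩, ⟨s₂', hs₂'⟩⟩ := ih₂
    refine ⟨⟨s₁ * s₂, fun a => ?_⟩, ⟨s₂' * s₁', fun a => ?_⟩⟩
    · have e1 : τ₁ * τ₂ * x a * (τ₁ * τ₂)⁻¹ = τ₁ * (τ₂ * x a * τ₂⁻¹) * τ₁⁻¹ := by group
      rw [e1, hs₂, hs₁, mul_assoc]
    · have e1 : (τ₁ * τ₂)⁻¹ * x a * (τ₁ * τ₂) = τ₂⁻¹ * (τ₁⁻¹ * x a * τ₁) * τ₂ := by group
      rw [e1, hs₁', hs₂', mul_assoc]
  | inv τ₁ _ ih =>
    obtain ⟨⟨s, hs⟩, ⟨s', hs'⟩⟩ := ih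
    refine ⟨⟨s', fun a => ?_⟩, ⟨s, fun a => ?_⟩⟩
    · rw [inv_inv]
      exact hs' a
    · rw [inv_inv]
      exact hs a

theorem h87_tora_ta (D : C2Root ζ n xa xb ha ta hb tb) :
    ∀ τ ∈ torus2 ha hb, ta * τ * ta⁻¹ ∈ torus2 ha hb := by
  have hha : ha ∈ torus2 ha hb := Subgroup.subset_closure (Set.mem_insert _ _)
  have hhb : hb ∈ torus2 ha hb :=
    Subgroup.subset_closure (Set.mem_insert_of_mem _ (Set.mem_singleton _))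
  have hle : Subgroup.closure {ha, hb} ≤
      (torus2 ha hb).comap (MulAut.conj ta).toMonoidHom := by
    rw [Subgroup.closure_le]
    intro y hy
    change ta * y * ta⁻¹ ∈ torus2 ha hb
    rcases hy with hy | hy
    · rw [hy, D.ta_ha]
      exact inv_mem hha
    · have hy' : y = hb := hy
      rw [hy', D.ta_hb]
      exact mul_mem hha hhb
  intro τ hτ
  exact hle hτ

theorem h87_tora_tb (D : C2Root ζ n xa xb ha ta hb tb) :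
    ∀ τ ∈ torus2 ha hb, tb * τ * tb⁻¹ ∈ torus2 ha hb := by
  have hha : ha ∈ torus2 ha hb := Subgroup.subset_closure (Set.mem_insert _ _)
  have hhb : hb ∈ torus2 ha hb :=
    Subgroup.subset_closure (Set.mem_insert_of_mem _ (Set.mem_singleton _))
  have hle : Subgroup.closure {ha, hb} ≤
      (torus2 ha hb).comap (MulAut.conj tb).toMonoidHom := by
    rw [Subgroup.closure_le]
    intro y hy
    change tb * y * tb⁻¹ ∈ torus2 ha hb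
    rcases hy with hy | hy
    · rw [hy, D.tb_ha]
      exact mul_mem (mul_mem hha hhb) hhb
    · have hy' : y = hb := hy
      rw [hy', D.tb_hb]
      exact inv_mem hhb
  intro τ hτ
  exact hle hτ

theorem h87_tora_xa (D : C2Root ζ n xa xb ha ta hb tb) (M : C2Moves ζ xa xb ha ta hb tb)
    (hζ0 : ζ ≠ 0) :
    ∀ τ ∈ torus2 ha hb, (∃ s : F, ∀ a, τ * xa a * τ⁻¹ = xa (s * a)) ∧
      (∃ s : F, ∀ a, τ⁻¹ * xa a * τ = xa (s * a)) := by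
  apply h87_tor_scal xa {ha, hb}
  intro g hg
  rcases hg with hg | hg
  · rw [hg]
    exact ⟨⟨ζ⁻¹ ^ 2, fun a => M.a_ha a⟩, ⟨ζ ^ 2, fun a => D.a_ha a⟩⟩
  · have hg' : g = hb := hg
    rw [hg']
    refine ⟨⟨ζ, fun a => M.a_hb a⟩, ⟨ζ⁻¹, fun a => ?_⟩⟩
    have h1 := M.a_hb (ζ⁻¹ * a)
    rw [← mul_assoc, mul_inv_cancel₀ hζ0, one_mul] at h1
    rw [← h1]
    group

theorem h87_tora_xb (D : C2Root ζ n xa xb ha ta hb tb) (M : C2Moves ζ xa xb ha ta hb tb)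
    (hζ0 : ζ ≠ 0) :
    ∀ τ ∈ torus2 ha hb, (∃ s : F, ∀ b, τ * xb b * τ⁻¹ = xb (s * b)) ∧
      (∃ s : F, ∀ b, τ⁻¹ * xb b * τ = xb (s * b)) := by
  apply h87_tor_scal xb {ha, hb}
  intro g hg
  rcases hg with hg | hg
  · rw [hg]
    refine ⟨⟨ζ ^ 2, fun b => M.b_ha b⟩, ⟨(ζ ^ 2)⁻¹, fun b => ?_⟩⟩
    have h1 := M.b_ha ((ζ ^ 2)⁻¹ * b)
    rw [← mul_assoc, mul_inv_cancel₀ (pow_ne_zero 2 hζ0), one_mul] at h1
    rw [← h1]
    group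
  · have hg' : g = hb := hg
    rw [hg']
    exact ⟨⟨ζ⁻¹ ^ 2, fun b => M.b_hb b⟩, ⟨ζ ^ 2, fun b => D.b_hb b⟩⟩

/-- TORA -/
theorem torus2_act (D : C2Root ζ n xa xb ha ta hb tb) (M : C2Moves ζ xa xb ha ta hb tb)
    (hζ0 : ζ ≠ 0) :
    (∀ τ ∈ torus2 ha hb, ta * τ * ta⁻¹ ∈ torus2 ha hb) ∧
    (∀ τ ∈ torus2 ha hb, tb * τ * tb⁻¹ ∈ torus2 ha hb) ∧
    (∀ τ ∈ torus2 ha hb, ∃ s : F, ∀ a, τ * xa a * τ⁻¹ = xa (s * a)) ∧
    (∀ τ ∈ torus2 ha hb, ∃ s : F, ∀ b, τ * xb b * τ⁻¹ = xb (s * b)) :=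
  ⟨h87_tora_ta D, h87_tora_tb D, fun τ hτ => (h87_tora_xa D M hζ0 τ hτ).1,
    fun τ hτ => (h87_tora_xb D M hζ0 τ hτ).1⟩

end h87tora

end Cfsg.Agent.Lib.Helper93.Sp4
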