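import Cfsg.Agent.Lib.Helper87.TwistTransfer

set_option autoImplicit false

/-!
The twisted transfer, second form: the `N`-th power of an invariant multiplicative map `nu` on `H`
is the product of the restriction of a homomorphism `θ` of `K` and a map `Ξ`, multiplicative on
`H`, which only depends on fixed point counts.
-/

namespace Cfsg.Agent.Lib.Helper87

open MulAction

variable {K : Type*} [Group K] {A : Type*} [CommGroup A]

theorem exists_theta_xi [Finite K] [Finite A] {H : Subgroup K} [H.Normal] {nu : K → A}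
    (hnu : NuHyp H nu) (m : Subgroup (K × K) → ℕ)
    (hm : ∀ E, m E ≠ 0 → E ≤ Kt H ∧ Function.Injective (fstE E)) :
    ∃ (θ : K →* A) (Ξ : K → A),
      (∀ y ∈ H, nu y ^ (∑ᶠ E : Subgroup (K × K), m E * (pE E).index) = θ y * Ξ y) ∧
      (∀ y ∈ H, ∀ y' ∈ H, Ξ (y * y') = Ξ y * Ξ y') ∧
      (∀ y ∈ H, ∀ y' ∈ H,
        (∀ k : ℕ, k ≠ 0 → ∀ s : K, fixm m (Subgroup.zpowers ((y ^ k, s) : K × K)) =
          fixm m (Subgroup.zpowers ((y' ^ k, s) : K × K))) → Ξ y = Ξ y') := by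
  classical
  let _ : Fintype (Subgroup (K × K)) := Fintype.ofFinite _
  rw [finsum_eq_sum_of_fintype]
  have hy1 : ∀ y ∈ H, ((y, 1) : K × K) ∈ Kt H := by
    intro y hy
    show y⁻¹ * 1 ∈ H
    rw [mul_one]
    exact H.inv_mem hy
  have h1y : ∀ y ∈ H, ((1, y) : K × K) ∈ Kt H := by
    intro y hy
    show (1 : K)⁻¹ * y ∈ H
    rw [inv_one, one_mul]
    exact hy
  refine ⟨(bTt H nu m).comp (diagKt H),
    fun y => if h : y ∈ H then (bTt H nu m ⟨(y, 1), hy1 y h⟩)⁻¹ else 1, ?_, ?_, ?_⟩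
  · intro y hy
    beta_reduce
    rw [dif_pos hy, ← bTt_snd hnu m hm hy (h1y y hy)]
    have h3 : diagKt H y = (⟨(y, 1), hy1 y hy⟩ : ↥(Kt H)) * ⟨(1, y), h1y y hy⟩ := by
      apply Subtype.ext
      show (y, y) = (y * 1, 1 * y)
      rw [mul_one, one_mul]
    rw [MonoidHom.comp_apply, h3, map_mul]
    rw [mul_comm (bTt H nu m ⟨(y, 1), hy1 y hy⟩), mul_assoc, mul_inv_cancel, mul_one]
  · intro y hy y' hy'
    beta_reduce
    rw [dif_pos hy, dif_pos hy', dif_pos (H.mul_mem hy hy'), ← mul_inv, ← map_mul]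
    congr 2
    apply Subtype.ext
    show (y * y', (1 : K)) = (y * y', 1 * 1)
    rw [mul_one]
  · intro y hy y' hy' h
    beta_reduce
    rw [dif_pos hy, dif_pos hy', bTt_eq_of_fixm hnu m hm hy hy' (hy1 y hy) (hy1 y' hy') h]

end Cfsg.Agent.Lib.Helper87
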