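import Cfsg.Agent.Lib.Helper87.InnerCritB
import Cfsg.Agent.Lib.Helper87.TwistTransfer2

set_option autoImplicit false

/-!
Tate's theorem for fusion systems: if `F` is a saturated fusion system over a finite `p`-group `S`
and `E` is a subsystem over `S` with `hyp(F) ≤ Φ(S) hyp(E)`, then `hyp(F) = hyp(E)`.
-/

namespace Cfsg.Agent.Lib.Helper87

open Cfsg Cfsg.FusionSystem Cfsg.Agent.Lib.Helper90

variable {Ω : Type*} [Group Ω] {S : Subgroup Ω} {F : FusionSystem S} {P Q : Subgroup Ω}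
  {f g : Ω → Ω}

theorem nu_eq_one_of_gens {p : ℕ} {A : Type*} [CommGroup A] {nu : ↥S → A}
    (hnu : NuHyp (hypN F p) nu) (hgens : ∀ y ∈ hypGens F p, nu y = 1) :
    ∀ y ∈ hypN F p, nu y = 1 := by
  let L : Subgroup ↥S :=
    { carrier := {y | y ∈ hypN F p ∧ nu y = 1}
      mul_mem' := by
        rintro a b ⟨ha, ha1⟩ ⟨hb, hb1⟩
        exact ⟨Subgroup.mul_mem _ ha hb, by rw [hnu.mul a ha b hb, ha1, hb1, mul_one]⟩
      one_mem' := ⟨Subgroup.one_mem _, hnu.one⟩
      inv_mem' := by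
        rintro a ⟨ha, ha1⟩
        exact ⟨Subgroup.inv_mem _ ha, by rw [hnu.inv ha, ha1, inv_one]⟩ }
  have hLn : L.Normal :=
    ⟨fun y hy g => ⟨(hypN_normal F p).conj_mem y hy.1 g, by
      show nu (g * y * g⁻¹) = 1
      rw [hnu.conj g y hy.1]
      exact hy.2⟩⟩
  have hle : hypN F p ≤ L :=
    Subgroup.normalClosure_le_normal
      (fun y hy => ⟨Subgroup.subset_normalClosure hy, hgens y hy⟩)
  intro y hy
  exact (hle hy).2

/-- The key statement: a normal subgroup `H'` of `S` inside `hypN` which covers `hypN` modulo the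
Frattini subgroup is all of `hypN`. -/
theorem hypN_le_of_le_sup_frattini [Finite S] {p : ℕ} [Fact p.Prime] (hS : IsPGroup p S)
    (hF : F.IsSaturated p) (H' : Subgroup ↥S) [hH'n : H'.Normal] (hH' : H' ≤ hypN F p)
    (hle : hypN F p ≤ H' ⊔ frattini ↥S) : hypN F p ≤ H' := by
  by_contra hne
  have hYne : (hypN F p).map (QuotientGroup.mk' H') ≠ ⊥ := by
    intro h
    apply hne
    intro y hy
    have h1 : QuotientGroup.mk' H' y ∈ (hypN F p).map (QuotientGroup.mk' H') := ⟨y, hy, rfl⟩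
    rw [h, Subgroup.mem_bot] at h1
    exact (QuotientGroup.eq_one_iff y).mp h1
  have hSq : IsPGroup p ↥(⊤ : Subgroup (↥S ⧸ H')) := (hS.to_quotient H').to_subgroup ⊤
  have hYn : ∀ s ∈ (⊤ : Subgroup (↥S ⧸ H')), ∀ y ∈ (hypN F p).map (QuotientGroup.mk' H'),
      s * y * s⁻¹ ∈ (hypN F p).map (QuotientGroup.mk' H') := by
    rintro s - _ ⟨x, hx, rfl⟩
    obtain ⟨g, rfl⟩ := QuotientGroup.mk'_surjective H' s
    exact ⟨g * x * g⁻¹, (hypN_normal F p).conj_mem x hx g, by simp⟩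
  obtain ⟨lam, hmul, hinv, y₀, hy₀, hy₀1⟩ :=
    Cfsg.Agent.Lib.Helper88.exists_invariant_hom (Ω := ↥S ⧸ H') (S := ⊤)
      (Y := (hypN F p).map (QuotientGroup.mk' H')) (p := p) hSq le_top hYn hYne
  obtain ⟨x₀, hx₀, rfl⟩ := hy₀
  have hnu : NuHyp (hypN F p) (fun x : ↥S => lam (QuotientGroup.mk' H' x)) := by
    refine ⟨fun x hx y hy => ?_, fun g x hx => ?_⟩
    · show lam (QuotientGroup.mk' H' (x * y)) = _
      rw [map_mul]
      exact hmul _ ⟨x, hx, rfl⟩ _ ⟨y, hy, rfl⟩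
    · show lam (QuotientGroup.mk' H' (g * x * g⁻¹)) = _
      rw [map_mul, map_mul, map_inv]
      exact hinv _ (Subgroup.mem_top _) _ ⟨x, hx, rfl⟩
  have hnuH' : ∀ h ∈ H', lam (QuotientGroup.mk' H' h) = 1 := by
    intro h hh
    have h1 : QuotientGroup.mk' H' h = QuotientGroup.mk' H' 1 := by
      rw [map_one]
      exact (QuotientGroup.eq_one_iff h).mpr hh
    rw [h1]
    exact hnu.one
  obtain ⟨m, hsupp, hst, hN⟩ := exists_char_mult_Kt (p := p) hS hF
  obtain ⟨θ, Ξ, h1, h2, h3⟩ := exists_theta_xi hnu m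
    (fun E hE => ⟨(hsupp E hE).2, isG_injective (hsupp E hE).1⟩)
  have hΞst : ∀ (P : Subgroup Ω) (f : Ω → Ω), Mor F P f → ∀ x y : ↥S, (x : Ω) ∈ P →
      (y : Ω) = f x → x ∈ hypN F p → y ∈ hypN F p → Ξ x = Ξ y :=
    fun P f hf x y hx hy hxH hyH => h3 x hxH y hyH
      (fun k _ s => fixm_zpowers_eq hS hF (fun E hE => (hsupp E hE).1) hst hf hx hy k s)
  have hΞ : NuHyp (hypN F p) Ξ := by
    refine ⟨h2, fun g x hx => ?_⟩
    exact (hΞst S (fun z => (g : Ω) * z * (g : Ω)⁻¹) (mor_conj F le_rfl g.2) x (g * x * g⁻¹) x.2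
      rfl hx ((hypN_normal F p).conj_mem x hx g)).symm
  have hΞ1 := nu_eq_one_of_gens hΞ (nu_gens hΞ hΞst)
  have hθ : ∀ y ∈ hypN F p, θ y = 1 := by
    have hker : H' ⊔ frattini ↥S ≤ θ.ker := by
      apply sup_le
      · intro h hh
        rw [MonoidHom.mem_ker]
        have h4 := h1 h (hH' hh)
        rw [hΞ1 h (hH' hh), mul_one] at h4
        rw [← h4]
        show lam (QuotientGroup.mk' H' h) ^ _ = 1
        rw [hnuH' h hh, one_pow]
      · intro h hh
        rw [MonoidHom.mem_ker]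
        exact Cfsg.Agent.Lib.Helper88.hom_zmod_kills_frattini θ hh
    intro y hy
    exact MonoidHom.mem_ker.mp (hker (hle hy))
  have h5 := h1 x₀ hx₀
  rw [hθ x₀ hx₀, hΞ1 x₀ hx₀, mul_one] at h5
  have hp : p.Prime := Fact.out
  exact hy₀1 (eq_one_of_pow_coprime'' h5 (Cfsg.Agent.Lib.Helper88.pow_p_mult_zmod p _)
    (Nat.Coprime.symm ((Nat.Prime.coprime_iff_not_dvd hp).mpr hN)))

/-- Conjugating a generator of the hyperfocal subgroup by an element of `S`. -/
theorem conj_gen_mem [Finite S] (F : FusionSystem S) (p : ℕ) {s : Ω} (hs : s ∈ S)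
    (P : Subgroup Ω) (hP : P ≤ S) (β : MulAut P) (hβA : β ∈ F.autGroup P)
    (hβ : (orderOf β).Coprime p) (x : P) :
    s * ((x : Ω)⁻¹ * ((β x : P) : Ω)) * s⁻¹ ∈ F.hyperfocalSubgroup p := by
  have hc : Mor F P (fun z => s * z * s⁻¹) := mor_conj F hP hs
  have hP' : img P (fun z => s * z * s⁻¹) ≤ S := hc.img_le
  have hfin : Finite (img P (fun z => s * z * s⁻¹)) := Cfsg.Agent.Lib.Helper90.finite_of_le hP'
  have hβm : Mor F P (autFun P β) := (Cfsg.Agent.Lib.Helper90.mem_autGroup_iff F hP _).mp hβA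
  have hf' : Mor F (img P (fun z => s * z * s⁻¹))
      ((fun z => s * z * s⁻¹) ∘ (autFun P β ∘ invFn P (fun z => s * z * s⁻¹))) :=
    (hc.inv.comp hβm (fun y hy => hc.invFn_mem hy)).comp hc
      (fun y hy => autFun_mem β (hc.invFn_mem hy))
  have hf'P : ∀ y ∈ img P (fun z => s * z * s⁻¹),
      ((fun z => s * z * s⁻¹) ∘ (autFun P β ∘ invFn P (fun z => s * z * s⁻¹))) y ∈
        img P (fun z => s * z * s⁻¹) :=
    fun y hy => hc.mem_img_of_mem (autFun_mem β (hc.invFn_mem hy))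
  obtain ⟨α', hα', hα'f⟩ := exists_aut_of_mor hf' hf'P
  have hcx : ∀ z : P, s * (z : Ω) * s⁻¹ ∈ img P (fun z => s * z * s⁻¹) :=
    fun z => hc.mem_img_of_mem z.2
  have hsemi : ∀ z : P, ((α' ⟨s * (z : Ω) * s⁻¹, hcx z⟩ : img P (fun z => s * z * s⁻¹)) : Ω) =
      s * ((β z : P) : Ω) * s⁻¹ := by
    intro z
    rw [hα'f]
    show s * autFun P β (invFn P (fun z => s * z * s⁻¹) (s * (z : Ω) * s⁻¹)) * s⁻¹ = _
    rw [hc.invFn_apply z.2, autFun_apply]
  have hpow : ∀ (k : ℕ) (z : P),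
      (((α' ^ k) ⟨s * (z : Ω) * s⁻¹, hcx z⟩ : img P (fun z => s * z * s⁻¹)) : Ω) =
      s * (((β ^ k) z : P) : Ω) * s⁻¹ := by
    intro k
    induction k with
    | zero =>
      intro z
      rw [pow_zero, pow_zero, MulAut.one_apply, MulAut.one_apply]
    | succ k ih =>
      intro z
      rw [pow_succ, pow_succ, MulAut.mul_apply, MulAut.mul_apply]
      have e : α' ⟨s * (z : Ω) * s⁻¹, hcx z⟩ = ⟨s * ((β z : P) : Ω) * s⁻¹, hcx (β z)⟩ :=
        Subtype.ext (hsemi z)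
      rw [e, ih]
  have hone : α' ^ orderOf β = 1 := by
    ext y
    obtain ⟨z, hz, hzy⟩ := hc.mem_img.mp y.2
    have e : y = ⟨s * ((⟨z, hz⟩ : P) : Ω) * s⁻¹, hcx ⟨z, hz⟩⟩ := Subtype.ext hzy.symm
    rw [e, hpow, pow_orderOf_eq_one, MulAut.one_apply, MulAut.one_apply]
  have hord : (orderOf α').Coprime p :=
    Nat.Coprime.coprime_dvd_left (orderOf_dvd_of_pow_eq_one hone) hβ
  apply Subgroup.subset_closure
  refine ⟨img P (fun z => s * z * s⁻¹), ⟨α', hα'⟩, ⟨s * (x : Ω) * s⁻¹, hcx x⟩, hP', ?_, ?_⟩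
  · apply Subgroup.subset_closure
    show (orderOf (⟨α', hα'⟩ : F.autGroup (img P (fun z => s * z * s⁻¹)))).Coprime p
    rw [Subgroup.orderOf_mk]
    exact hord
  · show s * ((x : Ω)⁻¹ * ((β x : P) : Ω)) * s⁻¹ =
      (s * (x : Ω) * s⁻¹)⁻¹ * ((α' ⟨s * (x : Ω) * s⁻¹, hcx x⟩ : img P (fun z => s * z * s⁻¹)) : Ω)
    rw [hsemi]
    group

/-- The hyperfocal subgroup is normalized by `S`. -/
theorem hyperfocal_conj_mem [Finite S] (F : FusionSystem S) (p : ℕ) {s : Ω} (hs : s ∈ S) :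
    ∀ y ∈ F.hyperfocalSubgroup p, s * y * s⁻¹ ∈ F.hyperfocalSubgroup p := by
  intro y hy
  have hy' := hy
  unfold FusionSystem.hyperfocalSubgroup at hy'
  induction hy' using Subgroup.closure_induction with
  | mem y hy0 =>
    obtain ⟨P, α, x, hP, hα, rfl⟩ := hy0
    have hres : Cfsg.pResidual p (F.autGroup P) ≤
        (modSub (cj s⁻¹ (F.hyperfocalSubgroup p)) P).subgroupOf (F.autGroup P) := by
      unfold Cfsg.pResidual
      rw [Subgroup.closure_le]
      intro β hβ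
      have hβ' : (orderOf β).Coprime p := hβ
      rw [SetLike.mem_coe, Subgroup.mem_subgroupOf, mem_modSub]
      intro z
      rw [mem_cj, inv_inv]
      refine conj_gen_mem F p hs P hP (β : MulAut P) β.2 ?_ z
      rw [Subgroup.orderOf_coe]
      exact hβ'
    have h1 := hres hα
    rw [Subgroup.mem_subgroupOf, mem_modSub] at h1
    have h2 := h1 x
    rw [mem_cj, inv_inv] at h2
    exact h2
  | one =>
    rw [mul_one, mul_inv_cancel]
    exact Subgroup.one_mem _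
  | mul a b ha0 hb0 ha hb =>
    have ha1 : a ∈ F.hyperfocalSubgroup p := by
      unfold FusionSystem.hyperfocalSubgroup; exact ha0
    have hb1 : b ∈ F.hyperfocalSubgroup p := by
      unfold FusionSystem.hyperfocalSubgroup; exact hb0
    have e : s * (a * b) * s⁻¹ = (s * a * s⁻¹) * (s * b * s⁻¹) := by group
    rw [e]
    exact Subgroup.mul_mem _ (ha ha1) (hb hb1)
  | inv a ha0 ha =>
    have ha1 : a ∈ F.hyperfocalSubgroup p := by
      unfold FusionSystem.hyperfocalSubgroup; exact ha0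
    have e : s * a⁻¹ * s⁻¹ = (s * a * s⁻¹)⁻¹ := by group
    rw [e]
    exact Subgroup.inv_mem _ (ha ha1)

/-- The hyperfocal subgroup is the subgroup `hypN`. -/
theorem hyperfocal_eq_hypN [Finite S] (F : FusionSystem S) (p : ℕ) :
    F.hyperfocalSubgroup p = (hypN F p).map S.subtype := by
  apply le_antisymm
  · unfold FusionSystem.hyperfocalSubgroup
    rw [Subgroup.closure_le]
    rintro y ⟨P, α, x, hP, hα, rfl⟩
    have hres : Cfsg.pResidual p (F.autGroup P) ≤
        (modSub ((hypN F p).map S.subtype) P).subgroupOf (F.autGroup P) := by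
      unfold Cfsg.pResidual
      rw [Subgroup.closure_le]
      intro β hβ
      have hβ' : (orderOf β).Coprime p := hβ
      rw [SetLike.mem_coe, Subgroup.mem_subgroupOf, mem_modSub]
      intro z
      refine ⟨⟨(z : Ω)⁻¹ * (((β : MulAut P) z : P) : Ω),
        S.mul_mem (S.inv_mem (hP z.2)) (hP ((β : MulAut P) z).2)⟩, ?_, rfl⟩
      refine Subgroup.subset_normalClosure ⟨P, (β : MulAut P), z, hP, β.2, ?_, rfl⟩
      rw [Subgroup.orderOf_coe]
      exact hβ'
    have h1 := hres hα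
    rw [Subgroup.mem_subgroupOf, mem_modSub] at h1
    exact h1 x
  · rw [Subgroup.map_le_iff_le_comap]
    have hCn : ((F.hyperfocalSubgroup p).comap S.subtype).Normal := by
      refine ⟨fun y hy g => ?_⟩
      rw [Subgroup.mem_comap] at hy ⊢
      exact hyperfocal_conj_mem F p g.2 _ hy
    apply Subgroup.normalClosure_le_normal
    rintro y ⟨P, α, x, hP, hα, hc, hy⟩
    rw [SetLike.mem_coe, Subgroup.mem_comap]
    show (y : Ω) ∈ _
    rw [hy]
    apply Subgroup.subset_closure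
    refine ⟨P, ⟨α, hα⟩, x, hP, ?_, rfl⟩
    apply Subgroup.subset_closure
    show (orderOf (⟨α, hα⟩ : F.autGroup P)).Coprime p
    rw [Subgroup.orderOf_mk]
    exact hc

theorem hypN_mono {E : FusionSystem S} (hEF : ∀ P : Subgroup Ω, E.Hom P ⊆ F.Hom P) (p : ℕ) :
    hypN E p ≤ hypN F p := by
  apply Subgroup.normalClosure_mono
  rintro y ⟨P, α, x, hP, hα, hc, hy⟩
  refine ⟨P, α, x, hP, ?_, hc, hy⟩
  have hle : E.autGroup P ≤ F.autGroup P := by
    unfold FusionSystem.autGroup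
    exact Subgroup.closure_mono (fun β hβ => hEF P hβ)
  exact hle hα

/-- Tate's theorem for fusion systems. -/
theorem hyperfocal_eq_of_le_sup [Finite S] {p : ℕ} [Fact p.Prime] (hS : IsPGroup p S)
    (F E : FusionSystem S) (hF : F.IsSaturated p) (hEF : ∀ P : Subgroup Ω, E.Hom P ⊆ F.Hom P)
    (h : F.hyperfocalSubgroup p ≤ (frattini ↥S).map S.subtype ⊔ E.hyperfocalSubgroup p) :
    F.hyperfocalSubgroup p = E.hyperfocalSubgroup p := by
  rw [hyperfocal_eq_hypN F p, hyperfocal_eq_hypN E p] at h ⊢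
  apply le_antisymm
  · apply Subgroup.map_mono
    apply hypN_le_of_le_sup_frattini hS hF (hypN E p) (hypN_mono hEF p)
    intro y hy
    have h1 : (y : Ω) ∈ (frattini ↥S).map S.subtype ⊔ (hypN E p).map S.subtype :=
      h ⟨y, hy, rfl⟩
    rw [← Subgroup.map_sup] at h1
    obtain ⟨y', hy', e⟩ := h1
    have : y' = y := Subtype.ext e
    rw [← this, sup_comm]
    exact hy'
  · exact Subgroup.map_mono (hypN_mono hEF p)

end Cfsg.Agent.Lib.Helper87
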